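import Cfsg.Agent.Fgs1.LieHKK

/-!
# Groups admitting a Frobenius group `13 : 3` with small fixed points
-/

namespace CF.Crit

open Subgroup CF.Fgs1.Lie
open scoped commutatorElement

local notation "γ" => Subgroup.lowerCentralSeries

section Eig

variable {p : ℕ} [hp : Fact p.Prime] {M : Type*} [AddCommGroup M] [Module (Rp p) M]
  {S : Module.End (Rp p) M}

theorem prj_of_eig {s t : ZMod p} {x : M} (hx : x ∈ eig S s) :
    prj S t x = if s = t then p • x else 0 := by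
  simp only [prj, pow_apply_of_eig hx, smul_smul, ← ε_add, ZMod.natCast_val, ZMod.cast_id', id]
  rw [← Finset.sum_smul]
  split_ifs with h
  · simp [h, mul_comm, ε_zero, ZMod.card, Nat.cast_smul_eq_nsmul]
  · have := sum_ε_mul (sub_ne_zero.2 h)
    rw [Finset.sum_congr rfl (g := fun u => ε (u * (s - t))) fun u _ => by congr 1; ring, this,
      zero_smul]

theorem comp_eq_zero {ι : Type*} [Fintype ι] {x : ι → M} {d : ι → ZMod p}
    (hx : ∀ i, x i ∈ eig S (d i)) (h : ∑ i, x i = 0) (j : ι) (hj : ∀ i, d i = d j → i = j) :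
    p • x j = 0 := by
  have e : prj S (d j) (∑ i, x i) = ∑ i, prj S (d j) (x i) := by
    simp only [prj, map_sum, Finset.smul_sum]
    exact Finset.sum_comm
  rw [h, Finset.sum_eq_single j (fun i _ hi => by rw [prj_of_eig (hx i), if_neg (mt (hj i) hi)])
    (by simp), prj_of_eig (hx j), if_pos rfl] at e
  simpa [prj] using e.symm

end Eig

variable {G : Type*} [Group G] [Finite G] {A : Subgroup G} {b c t : G}

instance : Fact (Nat.Prime 13) := ⟨by norm_num⟩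

/-- A `2`-group normalized by a Frobenius group of order `39`. -/
structure F39 (A : Subgroup G) (b c : G) : Prop where
  two : IsPGroup 2 A
  nb : b ∈ normalizer (A : Set G)
  nc : c ∈ normalizer (A : Set G)
  b13 : b ^ 13 = 1
  c3 : c ^ 3 = 1
  cb : c⁻¹ * b * c = b ^ 3
  fpf : A ⊓ centralizer {b} = ⊥
  sq : ∀ a ∈ A, a * c = c * a → a * a = 1

namespace F39

variable (h : F39 A b c)
include h

theorem cop {n : ℕ} (hn : Odd n) : n.Coprime (Nat.card A) := by
  obtain ⟨k, hk⟩ := IsPGroup.iff_card.1 h.two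
  rw [hk]
  exact (Nat.coprime_two_right.2 hn).pow_right k

theorem cancel {x : Lx 13 A} (e : 13 • x = 0) : x = 0 := by
  obtain ⟨m, hm⟩ := exists_inv (p := 13) (h.cop (n := 13) (by decide))
  rw [← hm x, e, smul_zero]

theorem ind {P : Lx 13 A → Prop} (h0 : P 0) (h1 : ∀ x y, P x → P y → P (x + y))
    (h2 : ∀ s ≠ 0, ∀ x ∈ eig (TT 13 (H := A) ⟨b, h.nb⟩) s, P x) (x : Lx 13 A) : P x := by
  obtain ⟨m, hm⟩ := exists_inv (p := 13) (h.cop (n := 13) (by decide))
  rw [← hm x, ← sum_prj (TT 13 (H := A) ⟨b, h.nb⟩) x, Finset.smul_sum]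
  refine Finset.sum_induction _ P h1 h0 fun s _ => ?_
  have hx := nsmul_mem (prj_mem_eig (TT_pow_eq_one h.nb h.b13) s x) m
  generalize m • prj _ s x = y at hx
  by_cases e : s = 0
  · subst e
    have hAK : zpowers b ≤ normalizer (A : Set G) := zpowers_le.mpr h.nb
    have := mem_Λ_fixed hAK hAK (h.cop (by
      rw [Nat.card_zpowers]; exact Odd.of_dvd_nat (by decide) (orderOf_dvd_of_pow_eq_one h.b13)))
      (mem_Λ_top y) (fun b' hb => by
        obtain ⟨k, rfl⟩ := mem_powers_iff_mem_zpowers.mpr hb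
        have e : (⟨b ^ k, hAK hb⟩ : normalizer (A : Set G)) = ⟨b, h.nb⟩ ^ k := rfl
        show TT 13 (⟨b ^ k, hAK hb⟩ : normalizer (A : Set G)) y = y
        rw [e, map_pow, pow_apply_of_eig hx, mul_zero, ε_zero, one_smul])
    rw [centralizer_zpowers, h.fpf, Λ_bot, Submodule.mem_bot] at this
    rwa [this]
  · exact h2 s e _ hx

omit h in
theorem map_eig {g : G} (hb : b ∈ normalizer (A : Set G)) (hg : g ∈ normalizer (A : Set G)) {k : ℕ}
    (e : g⁻¹ * b * g = b ^ k) {s : ZMod 13} {x : Lx 13 A} (hx : x ∈ eig (TT 13 (H := A) ⟨b, hb⟩) s) :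
    TT 13 (H := A) ⟨g, hg⟩ x ∈ eig (TT 13 (H := A) ⟨b, hb⟩) (k * s) := by
  have : (⟨b, hb⟩ * ⟨g, hg⟩ : normalizer (A : Set G)) = ⟨g, hg⟩ * ⟨b, hb⟩ ^ k :=
    Subtype.ext (by simp [← e, mul_assoc])
  rw [mem_eig, ← Module.End.mul_apply, ← map_mul, this, map_mul, map_pow, Module.End.mul_apply,
    pow_apply_of_eig hx, map_smul]

theorem pow_eig (i : ℕ) {s : ZMod 13} {x : Lx 13 A} (hx : x ∈ eig (TT 13 (H := A) ⟨b, h.nb⟩) s) :
    (TT 13 (H := A) ⟨c, h.nc⟩ ^ i) x ∈ eig (TT 13 (H := A) ⟨b, h.nb⟩) (3 ^ i * s) := by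
  induction i with
  | zero => simpa using hx
  | succ i ih =>
    rw [pow_succ' (TT 13 _), Module.End.mul_apply, pow_succ', mul_assoc]
    exact map_eig h.nb h.nc h.cb ih

theorem norm_mem (x : Lx 13 A) : ∑ i : Fin 3, (TT 13 (H := A) ⟨c, h.nc⟩ ^ (i : ℕ)) x ∈
    Λ 13 A (A ⊓ centralizer {c}) := by
  have hAK : zpowers c ≤ normalizer (A : Set G) := zpowers_le.mpr h.nc
  have e3 : TT 13 (H := A) ⟨c, h.nc⟩ ^ 3 = 1 := by
    rw [← map_pow, show (⟨c, h.nc⟩ : normalizer (A : Set G)) ^ 3 = 1 from Subtype.ext h.c3, map_one]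
  rw [← centralizer_zpowers]
  refine mem_Λ_fixed hAK hAK (h.cop (by
    rw [Nat.card_zpowers]; exact Odd.of_dvd_nat (by decide) (orderOf_dvd_of_pow_eq_one h.c3)))
    (mem_Λ_top _) fun c' hc => ?_
  obtain ⟨k, rfl⟩ := mem_powers_iff_mem_zpowers.mpr hc
  have e : (⟨c ^ k, hAK hc⟩ : normalizer (A : Set G)) = ⟨c, h.nc⟩ ^ k := rfl
  show TT 13 (⟨c ^ k, hAK hc⟩ : normalizer (A : Set G)) _ = _
  rw [e, map_pow]
  clear e hc
  induction k with
  | zero => rfl
  | succ k ih =>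
    rw [pow_succ', Module.End.mul_apply, ih]
    simp only [Fin.sum_univ_three, map_add, ← Module.End.mul_apply, ← pow_succ']
    simp only [Fin.val_zero, Fin.val_one, Fin.val_two, zero_add, Nat.reduceAdd, e3, pow_zero]
    abel

theorem comm_bot : ⁅A ⊓ centralizer {c}, A ⊓ centralizer {c}⁆ = ⊥ := by
  have s : ∀ a ∈ A ⊓ centralizer {c}, a⁻¹ = a := fun a ha =>
    inv_eq_of_mul_eq_one_right (h.sq a ha.1 (mem_centralizer_singleton_iff.1 ha.2))
  refine commutator_eq_bot_iff_le_centralizer.2 fun x hx y hy => ?_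
  rw [← s _ (mul_mem hy hx), mul_inv_rev, s x hx, s y hy]

theorem lie_eq_zero {s u : ZMod 13} {x y : Lx 13 A} (hx : x ∈ eig (TT 13 (H := A) ⟨b, h.nb⟩) s)
    (hy : y ∈ eig (TT 13 (H := A) ⟨b, h.nb⟩) u) (s0 : s ≠ 0) (u0 : u ≠ 0) (h3 : u ≠ 3 * s)
    (h9 : u ≠ 9 * s) : ⁅x, y⁆ = 0 := by
  by_cases e : s + u = 0
  · have hz : ⁅x, y⁆ ∈ eig (TT 13 (H := A) ⟨b, h.nb⟩) (s + u) := closed_eig _ _ _ _ hx _ hy
    rw [e] at hz
    refine h.cancel ?_
    have := prj_of_eig (t := 0) hz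
    rw [if_pos rfl] at this
    rw [← this]
    generalize ⁅x, y⁆ = z
    induction z using h.ind with
    | h0 => simp [prj]
    | h1 a b ha hb => simpa [prj, Finset.sum_add_distrib] using congrArg₂ (· + ·) ha hb
    | h2 s hs z hz => rw [prj_of_eig hz, if_neg hs]
  have := lie_mem_Λ (h.norm_mem x) (h.norm_mem y)
  rw [h.comm_bot, Λ_bot, Submodule.mem_bot, sum_lie] at this
  simp only [lie_sum] at this
  rw [← Fintype.sum_prod_type'] at this
  refine h.cancel (comp_eq_zero (d := fun i : Fin 3 × Fin 3 => 3 ^ (i.1 : ℕ) * s + 3 ^ (i.2 : ℕ) * u)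
    (fun i => closed_eig _ _ _ _ (h.pow_eig _ hx) _ (h.pow_eig _ hy)) this (0, 0) ?_)
  clear hx hy this
  revert s u
  decide

theorem lie_lie (x y z : Lx 13 A) : ⁅x, ⁅y, z⁆⁆ = 0 := by
  induction x using h.ind with
  | h0 => simp
  | h1 a b ha hb => rw [add_lie, ha, hb, add_zero]
  | h2 r r0 x hx =>
  induction y using h.ind with
  | h0 => simp
  | h1 a b ha hb => rw [add_lie, lie_add, ha, hb, add_zero]
  | h2 s s0 y hy =>
  induction z using h.ind with
  | h0 => simp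
  | h1 a b ha hb => rw [lie_add, lie_add, ha, hb, add_zero]
  | h2 u u0 z hz =>
  have key : ∀ r s u : ZMod 13, r ≠ 0 → s ≠ 0 → u ≠ 0 → (u ≠ 3 * s ∧ u ≠ 9 * s) ∨
      (s + u ≠ 0 ∧ s + u ≠ 3 * r ∧ s + u ≠ 9 * r) ∨
      (s ≠ 3 * r ∧ s ≠ 9 * r ∧ u ≠ 3 * r ∧ u ≠ 9 * r) := by decide
  rcases key r s u r0 s0 u0 with k | k | k
  · rw [h.lie_eq_zero hy hz s0 u0 k.1 k.2, lie_zero]
  · exact h.lie_eq_zero hx (closed_eig _ _ _ _ hy _ hz) r0 k.1 k.2.1 k.2.2
  · rw [leibniz_lie, h.lie_eq_zero hx hy r0 s0 k.1 k.2.1, h.lie_eq_zero hx hz r0 u0 k.2.2.1 k.2.2.2]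
    simp

theorem two_smul (x : Lx 13 A) : 2 • x = 0 := by
  induction x using h.ind with
  | h0 => simp
  | h1 a b ha hb => rw [nsmul_add, ha, hb, add_zero]
  | h2 s s0 x hx =>
  have e : 2 • ∑ i : Fin 3, (TT 13 (H := A) ⟨c, h.nc⟩ ^ (i : ℕ)) x = 0 := by
    refine Λ_induction (h.norm_mem x) (fun i a ha ha' => ?_) (by simp) (fun a b ha hb => ?_)
      fun r a ha => ?_
    · rw [← map_nsmul, ← ι_pow ha', pow_two, h.sq a ha.1 (mem_centralizer_singleton_iff.1 ha.2),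
        ι_one, map_zero]
    · rw [nsmul_add, ha, hb, add_zero]
    · rw [smul_comm, ha, smul_zero]
  rw [Finset.smul_sum] at e
  refine h.cancel (comp_eq_zero (d := fun i : Fin 3 => 3 ^ (i : ℕ) * s)
    (fun i => nsmul_mem (h.pow_eig _ hx) 2) e 0 ?_)
  clear hx e
  revert s
  decide

theorem pow_four {a : G} (ha : a ∈ A) : a ^ 4 = 1 := by
  have := h.two.isNilpotent
  have e : γ A 2 = ⊥ := lcs_eq_bot_of_le fun x hx => by
    have := pow_mem_of_act (p := 13) (c := 2) (N := 1) (fun ys hl v => by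
      obtain ⟨y, z, rfl⟩ := List.length_eq_two.1 hl
      rw [one_nsmul]; exact h.lie_lie _ _ _) le_rfl hx
    rwa [pow_one] at this
  have s : ∀ i, ∀ x ∈ γ A i, x ^ 2 ∈ γ A (i + 1) := fun i x hx =>
    pow_mem_of_act (p := 13) (c := 0) (fun _ _ _ => h.two_smul _) (Nat.zero_le i) hx
  have := s 1 _ (s 0 a ha)
  rwa [e, ← pow_mul, mem_bot] at this

theorem eq_bot (nt : t ∈ normalizer (A : Set G)) (tb : t⁻¹ * b * t = b ^ 12)
    (ht : ∀ a ∈ A, a * c = c * a → t * a = a * t) : A = ⊥ := by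
  have := h.two.isNilpotent
  have z : ∀ x : Lx 13 A, x = 0 := fun x => by
    induction x using h.ind with
    | h0 => rfl
    | h1 a b ha hb => rw [ha, hb, add_zero]
    | h2 s s0 x hx =>
    have e : TT 13 (H := A) ⟨t, nt⟩ (∑ i : Fin 3, (TT 13 (H := A) ⟨c, h.nc⟩ ^ (i : ℕ)) x) =
        ∑ i : Fin 3, (TT 13 (H := A) ⟨c, h.nc⟩ ^ (i : ℕ)) x := by
      refine Λ_induction (h.norm_mem x) (fun i a ha ha' => ?_) (by simp) (fun a b ha hb => ?_)
        fun r a ha => ?_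
      · rw [TT_emb, T_ι _ ha']
        congr 2
        exact mul_inv_eq_iff_eq_mul.2 (ht a ha.1 (mem_centralizer_singleton_iff.1 ha.2))
      · rw [map_add, ha, hb]
      · rw [map_smul, ha]
    have := comp_eq_zero (ι := Fin 3 ⊕ Fin 3) (S := TT 13 (H := A) ⟨b, h.nb⟩)
      (x := Sum.elim (fun i => (TT 13 (H := A) ⟨c, h.nc⟩ ^ (i : ℕ)) x)
        fun i => -TT 13 (H := A) ⟨t, nt⟩ ((TT 13 (H := A) ⟨c, h.nc⟩ ^ (i : ℕ)) x))
      (d := Sum.elim (fun i => 3 ^ (i : ℕ) * s) fun i => (12 : ℕ) * (3 ^ (i : ℕ) * s))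
      (by
        rintro (i | i)
        exacts [h.pow_eig _ hx, neg_mem (map_eig h.nb nt tb (h.pow_eig _ hx))])
      (by
        simp only [Fintype.sum_sum_type, Sum.elim_inl, Sum.elim_inr, Finset.sum_neg_distrib,
          ← map_sum, e, add_neg_cancel]) (.inl 0) (by
        clear hx e
        revert s
        decide)
    exact h.cancel this
  exact lcs_eq_bot_of_le (c := 0) fun x hx => by
    have := pow_mem_of_act (p := 13) (c := 0) (N := 1) (fun _ _ _ => z _) le_rfl hx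
    rwa [pow_one] at this

end F39

end CF.Crit
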