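import Cfsg.Agent.BlockB.Ord3
import Cfsg.Agent.Clifford.Det

/-!
# Average degree of strongly real characters of degree one or even degree
-/

namespace CF.Crit.Acd

open Cfsg CF.Char CF.Clifford CF.BlockB.Ord
open scoped ComplexConjugate

variable {G : Type*} [Group G]

theorem card_triv_le [Finite G] (K : Subgroup G) (s : Finset (G →* ℂˣ))
    (hs : ∀ ν ∈ s, ∀ k ∈ K, ν k = 1) : s.card ≤ K.index := by
  classical
  haveI := Fintype.ofFinite G
  haveI := Fintype.ofFinite (G ⧸ K)
  let L : ((G ⧸ K) → ℂ) →ₗ[ℂ] (G → ℂ) := LinearMap.funLeft ℂ ℂ (QuotientGroup.mk : G → G ⧸ K)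
  have hli : LinearIndependent ℂ
      (fun ν : s => (fun g => ((ν.1 g : ℂˣ) : ℂ) : G → ℂ)) := by
    have h := (linearIndependent_monoidHom G ℂ).comp
      (fun ν : s => (Units.coeHom ℂ).comp ν.1) (by
        intro a b hab
        apply Subtype.ext
        ext g
        exact congrArg (fun f : G →* ℂ => f g) hab)
    exact h
  let v : s → ((G ⧸ K) → ℂ) := fun ν x => ((ν.1 x.out : ℂˣ) : ℂ)
  have hv : ∀ ν : s, L (v ν) = fun g => ((ν.1 g : ℂˣ) : ℂ) := by
    intro ν
    funext g
    obtain ⟨k, hk⟩ := QuotientGroup.mk_out_eq_mul K g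
    simp only [L, v, LinearMap.funLeft_apply, hk, map_mul, hs ν.1 ν.2 k k.2, mul_one]
  have hli2 : LinearIndependent ℂ v := by
    apply LinearIndependent.of_comp L
    convert hli using 1
    funext ν
    exact hv ν
  have := hli2.fintype_card_le_finrank
  rw [Module.finrank_fintype_fun_eq_card, Fintype.card_coe] at this
  rwa [Subgroup.index, Nat.card_eq_fintype_card]

theorem count [Fintype G] {χ0 : G → ℂ} (h0 : IsIrrCharacter G χ0) (K : Subgroup G)
    (hd : charDegree χ0 = K.index) (h2 : 2 ∣ K.index) (hfs : fsInd χ0 = 1)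
    (hK : ∀ ν : G →* ℂˣ, (∀ g, ν g ^ 2 = 1) → (fun g => (ν g : ℂ) * χ0 g) = χ0 →
      ∀ k ∈ K, ν k = 1)
    (S : Finset (IrrCharacter G))
    (hS : ∀ χ : IrrCharacter G, χ ∈ S ↔ (charDegree (χ : G → ℂ) = 1 ∨ 2 ∣ charDegree (χ : G → ℂ)) ∧
      fsInd (χ : G → ℂ) = 1) :
    4 * S.card ≤ 3 * ∑ χ ∈ S, charDegree (χ : G → ℂ) := by
  classical
  set L := S.filter (fun χ : IrrCharacter G => charDegree (χ : G → ℂ) = 1) with hL
  have hlin : ∀ χ : IrrCharacter G, χ ∈ L → ∃ ν : G →* ℂˣ, (∀ g, ν g ^ 2 = 1) ∧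
      (χ : G → ℂ) = fun g => (ν g : ℂ) := by
    intro χ hχ
    rw [hL, Finset.mem_filter, hS] at hχ
    have h1 : (χ : G → ℂ) 1 = 1 := (deg_eq_one_iff (irr_isCharacter χ.2)).1 hχ.2
    obtain ⟨ν, hν⟩ := exists_linear_of_one (irr_isCharacter χ.2) h1
    refine ⟨ν, fun g => ?_, hν⟩
    have hr := real_of_fsInd_eq_one χ.2 hχ.1.2 g
    have hi := irr_inv χ.2 g
    rw [Complex.conj_eq_iff_im.2 hr, hν] at hi
    have : ν g⁻¹ = ν g := Units.ext hi
    rw [sq]
    nth_rewrite 1 [← this]
    rw [← map_mul, inv_mul_cancel, map_one]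
  choose! nu hnu2 hnu using hlin
  let f : IrrCharacter G → IrrCharacter G := fun χ => ⟨_, irr_linear_mul (nu χ) h0⟩
  have hm : 2 ≤ K.index := Nat.le_of_dvd (Nat.pos_of_ne_zero K.index_ne_zero_of_finite) h2
  have hfd : ∀ χ, charDegree (f χ : G → ℂ) = K.index := by
    intro χ
    rw [← hd]
    apply deg_of_eq
    show ((nu χ 1 : ℂˣ) : ℂ) * χ0 1 = _
    rw [map_one, Units.val_one, one_mul, irr_deg_eq h0]
  have hfS : ∀ χ ∈ L, f χ ∈ S \ L := by
    intro χ hχ
    rw [Finset.mem_sdiff, hL, Finset.mem_filter, hS, hfd]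
    refine ⟨⟨Or.inr h2, ?_⟩, fun h => by omega⟩
    rw [← hfs, fsInd_def, fsInd_def]
    congr 1
    refine Finset.sum_congr rfl fun g _ => ?_
    show ((nu χ (g * g) : ℂˣ) : ℂ) * χ0 (g * g) = _
    rw [map_mul, ← sq, hnu2 χ hχ, Units.val_one, one_mul]
  have hfib : ∀ b ∈ L.image f, (L.filter fun a => f a = b).card ≤ K.index := by
    intro b hb
    obtain ⟨c, hc, rfl⟩ := Finset.mem_image.1 hb
    have hinj : Set.InjOn (fun a => nu a * (nu c)⁻¹) (L.filter fun a => f a = f c) := by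
      intro a ha a' ha' h
      have h' : nu a = nu a' := mul_right_cancel h
      have ha1 := (Finset.mem_filter.1 ha).1
      have ha2 := (Finset.mem_filter.1 ha').1
      apply Subtype.ext
      exact (hnu a ha1).trans (h' ▸ (hnu a' ha2).symm)
    rw [← Finset.card_image_of_injOn hinj]
    apply card_triv_le
    intro ν hν
    obtain ⟨a, ha, rfl⟩ := Finset.mem_image.1 hν
    obtain ⟨ha1, ha2⟩ := Finset.mem_filter.1 ha
    apply hK
    · intro g
      rw [MonoidHom.mul_apply, MonoidHom.inv_apply, mul_pow, inv_pow, hnu2 a ha1, hnu2 c hc]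
      simp
    · funext g
      have e : ((nu a g : ℂˣ) : ℂ) * χ0 g = ((nu c g : ℂˣ) : ℂ) * χ0 g :=
        congrFun (congrArg Subtype.val ha2) g
      rw [MonoidHom.mul_apply, MonoidHom.inv_apply, Units.val_mul, mul_comm ((nu a g : ℂˣ) : ℂ),
        mul_assoc, e, ← mul_assoc, Units.inv_mul, one_mul]
  have hc := Finset.card_le_mul_card_image L K.index hfib
  have hsub : L.image f ⊆ S \ L := by
    intro b hb
    obtain ⟨c, hc, rfl⟩ := Finset.mem_image.1 hb
    exact hfS c hc
  have hLS : L ⊆ S := Finset.filter_subset _ _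
  have e1 : ∑ χ ∈ S, charDegree (χ : G → ℂ) =
      ∑ χ ∈ S \ L, charDegree (χ : G → ℂ) + L.card := by
    rw [← Finset.sum_sdiff hLS]
    congr 1
    rw [Finset.card_eq_sum_ones]
    exact Finset.sum_congr rfl fun χ hχ => (Finset.mem_filter.1 hχ).2
  have e2 : ∑ χ ∈ S \ L, charDegree (χ : G → ℂ) =
      ∑ χ ∈ (S \ L) \ L.image f, charDegree (χ : G → ℂ) + K.index * (L.image f).card := by
    rw [← Finset.sum_sdiff hsub]
    congr 1
    rw [Finset.card_eq_sum_ones, Finset.mul_sum]
    refine Finset.sum_congr rfl fun χ hχ => ?_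
    obtain ⟨c, -, rfl⟩ := Finset.mem_image.1 hχ
    rw [hfd, mul_one]
  have e3 : 2 * ((S \ L) \ L.image f).card ≤
      ∑ χ ∈ (S \ L) \ L.image f, charDegree (χ : G → ℂ) := by
    rw [Finset.card_eq_sum_ones, Finset.mul_sum]
    refine Finset.sum_le_sum fun χ hχ => ?_
    have h1 := Finset.mem_sdiff.1 (Finset.mem_sdiff.1 hχ).1
    have h3 := h1.2
    rw [hL, Finset.mem_filter] at h3
    rcases ((hS χ).1 h1.1).1 with h | h
    · exact absurd ⟨h1.1, h⟩ h3
    · exact (mul_one 2).le.trans (Nat.le_of_dvd (irr_deg_pos χ.2) h)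
  have c1 := Finset.card_sdiff_add_card_eq_card hLS
  have c2 := Finset.card_sdiff_add_card_eq_card hsub
  have e4 : 2 * (L.image f).card ≤ K.index * (L.image f).card := Nat.mul_le_mul_right _ hm
  omega

theorem fs_ind [Fintype G] (N : Subgroup G) [hN : N.Normal] (K : Subgroup G) (hNK : N ≤ K)
    (lam : N →* ℂˣ) (ψ : K →* ℂˣ) (hψ : ∀ n : N, ψ ⟨n, hNK n.2⟩ = lam n) (z : G)
    (hz : ∀ g : G, z * g ∈ K → ∃ h : g * g ∈ K, ψ ⟨g * g, h⟩ = 1)
    (hz' : ∀ g : G, (∀ n : N, lam ⟨g * n * g⁻¹, hN.conj_mem n n.2 g⟩ = (lam n)⁻¹) → z * g ∈ K)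
    (hc : ∀ a ∈ N, ∀ b ∈ N, a * b = b * a) :
    fsInd (indFun K fun k => (ψ k : ℂ)) = 1 := by
  classical
  rw [fsInd_indFun]
  set F : G → ℂ := fun g => extendByZero K (fun k => (ψ k : ℂ)) (g * g) with hF
  have h1 : ∑ g ∈ Finset.univ.filter (fun g => z * g ∈ K), F g = Nat.card K := by
    rw [Finset.sum_congr rfl (g := fun _ => (1 : ℂ))]
    · rw [Finset.sum_const, nsmul_eq_mul, mul_one]
      congr 1
      rw [Nat.card_eq_fintype_card, Fintype.card_subtype]
      apply Finset.card_bij (fun g _ => z * g)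
      · intro g hg
        simpa using hg
      · intro a _ b _ h
        exact mul_left_cancel h
      · intro k hk
        exact ⟨z⁻¹ * k, by simpa using hk, by simp⟩
    · intro g hg
      obtain ⟨h, e⟩ := hz g (Finset.mem_filter.1 hg).2
      simp only [hF]
      rw [Char.extendByZero_of_mem _ _ h, e, Units.val_one]
  have h2 : ∑ g ∈ Finset.univ.filter (fun g => ¬ z * g ∈ K), F g = 0 := by
    have hn : ∀ n : N, ∑ g ∈ Finset.univ.filter (fun g => ¬ z * g ∈ K), F g =
        ∑ g ∈ Finset.univ.filter (fun g => ¬ z * g ∈ K), F (n * g) := by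
      intro n
      have key : ∀ (m : N) (g : G), z * g ∈ K → z * (m * g) ∈ K := by
        intro m g h
        have : z * (m * g) = z * m * z⁻¹ * (z * g) := by group
        rw [this]
        exact K.mul_mem (hNK (hN.conj_mem _ m.2 _)) h
      symm
      apply Finset.sum_bij (fun g _ => (n : G) * g)
      · intro g hg
        simp only [Finset.mem_filter, Finset.mem_univ, true_and] at hg ⊢
        intro h
        have := key n⁻¹ _ h
        simp only [InvMemClass.coe_inv, inv_mul_cancel_left] at this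
        exact hg this
      · intro a _ b _ h
        exact mul_left_cancel h
      · intro g hg
        refine ⟨(n : G)⁻¹ * g, ?_, by simp⟩
        simp only [Finset.mem_filter, Finset.mem_univ, true_and] at hg ⊢
        intro h
        have := key n _ h
        simp only [mul_inv_cancel_left] at this
        exact hg this
      · intro g _
        rfl
    have hz0 : ∀ g, ¬ z * g ∈ K → ∑ n : N, F (n * g) = 0 := by
      intro g hg
      let μ : N →* ℂ := (Units.coeHom ℂ).comp
        { toFun := fun n => lam n * lam ⟨g * n * g⁻¹, hN.conj_mem n n.2 g⟩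
          map_one' := by
            rw [map_one, one_mul, ← map_one lam]
            congr 1
            ext
            simp
          map_mul' := fun a b => by
            have : (⟨g * (a * b : N) * g⁻¹, hN.conj_mem _ (a * b).2 g⟩ : N) =
                ⟨g * a * g⁻¹, hN.conj_mem a a.2 g⟩ * ⟨g * b * g⁻¹, hN.conj_mem b b.2 g⟩ := by
              ext
              simp
            rw [this, map_mul, map_mul]
            exact mul_mul_mul_comm _ _ _ _ }
      have hμ : μ ≠ 1 := by
        intro h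
        apply hg
        apply hz'
        intro n
        have : ((lam n * lam ⟨g * n * g⁻¹, hN.conj_mem n n.2 g⟩ : ℂˣ) : ℂ) = 1 :=
          congrArg (fun f : N →* ℂ => f n) h
        exact eq_inv_of_mul_eq_one_right (Units.val_eq_one.1 this)
      have hs := sum_hom_units_eq_zero μ hμ
      have : ∀ n : N, F (n * g) = μ n * F g := by
        intro n
        have e : (n : G) * g * (n * g) = n * (g * n * g⁻¹) * (g * g) := by group
        have hm : (n : G) * (g * n * g⁻¹) ∈ N := N.mul_mem n.2 (hN.conj_mem _ n.2 _)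
        simp only [hF]
        rw [e]
        by_cases h : g * g ∈ K
        · rw [Char.extendByZero_of_mem _ _ h, Char.extendByZero_of_mem _ _ (K.mul_mem (hNK hm) h)]
          have e2 : (⟨_, K.mul_mem (hNK hm) h⟩ : K) = ⟨n, hNK n.2⟩ *
              ⟨(⟨g * n * g⁻¹, hN.conj_mem n n.2 g⟩ : N), hNK (hN.conj_mem n n.2 g)⟩ *
                ⟨g * g, h⟩ := rfl
          rw [e2, map_mul, map_mul, hψ, hψ]
          rfl
        · rw [Char.extendByZero_of_not_mem _ _ h, Char.extendByZero_of_not_mem, mul_zero]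
          intro h'
          exact h ((K.mul_mem_cancel_left (hNK hm)).1 h')
      rw [Finset.sum_congr rfl fun n _ => this n, ← Finset.sum_mul, hs, zero_mul]
    have : (Fintype.card N : ℂ) * ∑ g ∈ Finset.univ.filter (fun g => ¬ z * g ∈ K), F g = 0 := by
      rw [← nsmul_eq_mul, ← Finset.card_univ, ← Finset.sum_const,
        Finset.sum_congr rfl fun n _ => hn n, Finset.sum_comm]
      exact Finset.sum_eq_zero fun g hg => hz0 g (Finset.mem_filter.1 hg).2
    exact (mul_eq_zero.1 this).resolve_left (Nat.cast_ne_zero.2 Fintype.card_ne_zero)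
  rw [← Finset.sum_filter_add_sum_filter_not Finset.univ (fun g => z * g ∈ K), h1, h2, add_zero]
  exact inv_mul_cancel₀ (Nat.cast_ne_zero.2 Nat.card_pos.ne')


theorem exists_inv [Finite G] (N P : Subgroup G) [hN : N.Normal] (hP : IsPGroup 2 P) (hP1 : P ≠ ⊥)
    (hdisj : N ⊓ P = ⊥) (hprod : N ⊔ P = ⊤) (hc : ∀ a ∈ N, ∀ b ∈ N, a * b = b * a)
    (hmin : ∀ M : Subgroup G, M.Normal → M ≠ ⊥ → N ≤ M) :
    ∃ z ∈ P, z * z = 1 ∧ (∀ u ∈ P, u * z = z * u) ∧ ∀ n ∈ N, z * n * z⁻¹ = n⁻¹ := by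
  haveI : Fact (Nat.Prime 2) := ⟨Nat.prime_two⟩
  haveI : Nontrivial P := (Subgroup.nontrivial_iff_ne_bot P).2 hP1
  haveI := hP.center_nontrivial
  obtain ⟨z, hz⟩ : ∃ z : Subgroup.center P, orderOf z = 2 := by
    obtain ⟨k, hk⟩ := (hP.to_subgroup (Subgroup.center P)).exists_card_eq
    apply exists_prime_orderOf_dvd_card'
    rw [hk]
    refine dvd_pow_self 2 ?_
    rintro rfl
    exact absurd hk (Finite.one_lt_card (α := Subgroup.center P)).ne'
  have hz1 : ((z : P) : G) ≠ 1 := by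
    intro h
    have : z = 1 := Subtype.ext (Subtype.ext h)
    rw [this, orderOf_one] at hz
    omega
  have hz2 : ((z : P) : G) * (z : P) = 1 := by
    have := pow_orderOf_eq_one z
    rw [hz, sq] at this
    exact congrArg (fun x : Subgroup.center P => ((x : P) : G)) this
  have hzc : ∀ u ∈ P, u * (z : P) = (z : P) * u := fun u hu =>
    congrArg Subtype.val (Subgroup.mem_center_iff.1 z.2 ⟨u, hu⟩)
  set w : G := ((z : P) : G) with hw
  have hwP : w ∈ P := (z : P).2
  have dec : ∀ g : G, ∃ n ∈ N, ∃ u ∈ P, g = n * u := by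
    intro g
    have : g ∈ N ⊔ P := hprod ▸ Subgroup.mem_top g
    rw [← SetLike.mem_coe, Subgroup.normal_mul] at this
    obtain ⟨n, hn, u, hu, e⟩ := this
    exact ⟨n, hn, u, hu, e.symm⟩
  have hfix : ∀ n ∈ N, n * w = w * n → n = 1 := by
    by_contra hne
    push Not at hne
    obtain ⟨n0, hn0, hn1, hn2⟩ := hne
    have hM : (N ⊓ Subgroup.centralizer {w}).Normal := by
      refine ⟨fun m hm g => ⟨hN.conj_mem _ hm.1 _, ?_⟩⟩
      obtain ⟨n, hn, u, hu, rfl⟩ := dec g
      have h1 : m * w = w * m := Subgroup.mem_centralizer_singleton_iff.1 hm.2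
      have h2 : n * u * m * (n * u)⁻¹ = u * m * u⁻¹ := by
        have := hc n hn _ (hN.conj_mem _ hm.1 u)
        calc n * u * m * (n * u)⁻¹ = n * (u * m * u⁻¹) * n⁻¹ := by group
          _ = _ := by rw [this]; group
      apply Subgroup.mem_centralizer_singleton_iff.2
      rw [h2]
      have h3 := hzc u⁻¹ (P.inv_mem hu)
      calc u * m * u⁻¹ * w = u * (m * w) * u⁻¹ := by rw [mul_assoc _ u⁻¹, h3]; group
        _ = _ := by rw [h1, ← mul_assoc, hzc u hu]; group
    have hle := hmin _ hM (by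
      intro h
      have : n0 ∈ N ⊓ Subgroup.centralizer {w} :=
        ⟨hn0, Subgroup.mem_centralizer_singleton_iff.2 hn1⟩
      rw [h] at this
      exact hn2 (Subgroup.mem_bot.1 this))
    have hcen : ∀ g : G, g * w = w * g := by
      intro g
      obtain ⟨n, hn, u, hu, rfl⟩ := dec g
      have h1 : n * w = w * n := Subgroup.mem_centralizer_singleton_iff.1 (hle hn).2
      rw [mul_assoc, hzc u hu, ← mul_assoc, h1, mul_assoc]
    have hZ : (Subgroup.zpowers w).Normal := by
      refine ⟨fun m hm g => ?_⟩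
      obtain ⟨k, rfl⟩ := hm
      have : g * w ^ k * g⁻¹ = w ^ k := by
        rw [(Commute.zpow_right (hcen g) k).eq]
        group
      simp only [this]
      exact ⟨k, rfl⟩
    have h5 := hmin _ hZ (by simpa using hz1)
    have : n0 ∈ N ⊓ P := ⟨hn0, (Subgroup.zpowers_le.2 hwP) (h5 hn0)⟩
    rw [hdisj] at this
    exact hn2 (Subgroup.mem_bot.1 this)
  refine ⟨w, hwP, hz2, hzc, fun n hn => ?_⟩
  have hwi : w⁻¹ = w := inv_eq_of_mul_eq_one_right hz2
  have hm := hN.conj_mem n hn w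
  have := hfix _ (N.mul_mem hn hm) (by
    rw [hc n hn _ hm]
    calc w * n * w⁻¹ * n * w = w * (n * (w * n * w⁻¹)) := by rw [hwi]; group
      _ = w * (w * n * w⁻¹ * n) := by rw [hc n hn _ hm])
  exact eq_inv_of_mul_eq_one_right this

theorem main [Fintype G] (N P : Subgroup G) [hN : N.Normal] (hP : IsPGroup 2 P) (hP1 : P ≠ ⊥)
    (hdisj : N ⊓ P = ⊥) (hprod : N ⊔ P = ⊤) (hc : ∀ a ∈ N, ∀ b ∈ N, a * b = b * a)
    (hodd : ∀ n ∈ N, Odd (orderOf n)) (hN1 : N ≠ ⊥)
    (hmin : ∀ M : Subgroup G, M.Normal → M ≠ ⊥ → N ≤ M) :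
    ∃ (χ0 : G → ℂ) (K : Subgroup G), IsIrrCharacter G χ0 ∧ charDegree χ0 = K.index ∧
      2 ∣ K.index ∧ fsInd χ0 = 1 ∧ ∀ ν : G →* ℂˣ, (∀ g, ν g ^ 2 = 1) →
        (fun g => (ν g : ℂ) * χ0 g) = χ0 → ∀ k ∈ K, ν k = 1 := by
  classical
  obtain ⟨z, hzP, hz2, hzc, hzi⟩ := exists_inv N P hP hP1 hdisj hprod hc hmin
  have hzz : z⁻¹ = z := inv_eq_of_mul_eq_one_right hz2
  -- projection onto `P`
  have hb : Function.Bijective ((QuotientGroup.mk' N).comp P.subtype) := by
    constructor
    · rw [injective_iff_map_eq_one]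
      intro a ha
      have : (a : G) ∈ N ⊓ P := ⟨(QuotientGroup.eq_one_iff _).1 ha, a.2⟩
      rw [hdisj] at this
      exact Subtype.ext (Subgroup.mem_bot.1 this)
    · intro x
      obtain ⟨g, rfl⟩ := QuotientGroup.mk_surjective x
      have : g ∈ N ⊔ P := hprod ▸ Subgroup.mem_top g
      rw [← SetLike.mem_coe, Subgroup.normal_mul] at this
      obtain ⟨n, hn, u, hu, e⟩ := this
      refine ⟨⟨u, hu⟩, ?_⟩
      show ((u : G) : G ⧸ N) = g
      rw [← e]
      show _ = ((n * u : G) : G ⧸ N)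
      rw [QuotientGroup.mk_mul, (QuotientGroup.eq_one_iff n).2 hn, one_mul]
  let e := MulEquiv.ofBijective _ hb
  let π : G →* G := P.subtype.comp (e.symm.toMonoidHom.comp (QuotientGroup.mk' N))
  have hπP : ∀ g, π g ∈ P := fun g => (e.symm _).2
  have hπN : ∀ g, g * (π g)⁻¹ ∈ N := by
    intro g
    have : ((π g : G) : G ⧸ N) = g := e.apply_symm_apply (g : G ⧸ N)
    rw [← QuotientGroup.eq_one_iff, QuotientGroup.mk_mul, QuotientGroup.mk_inv, this,
      mul_inv_cancel]
  have hπu : ∀ u ∈ P, π u = u := fun u hu =>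
    congrArg Subtype.val (e.symm_apply_apply ⟨u, hu⟩)
  have hπn : ∀ n ∈ N, π n = 1 := by
    intro n hn
    show ((e.symm (n : G ⧸ N) : P) : G) = 1
    rw [(QuotientGroup.eq_one_iff n).2 hn, map_one]
    rfl
  -- a nontrivial linear character of `N`
  obtain ⟨lam, n0, hlam⟩ : ∃ (lam : N →* ℂˣ) (n0 : N), lam n0 ≠ 1 := by
    letI : CommGroup N := { (inferInstance : Group N) with
      mul_comm := fun a b => Subtype.ext (hc a a.2 b b.2) }
    obtain ⟨n0, hn0⟩ := Subgroup.ne_bot_iff_exists_ne_one.1 hN1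
    haveI : NeZero (Monoid.exponent N) := ⟨Monoid.exponent_ne_zero_of_finite⟩
    obtain ⟨lam, h⟩ := CommGroup.exists_apply_ne_one_of_hasEnoughRootsOfUnity N ℂ hn0
    exact ⟨lam, n0, h⟩
  let E := NormalEmb.sub N
  have hθ := irr_linear lam
  set K := E.inertia (fun n => (lam n : ℂ)) with hK
  have hmem : ∀ g, g ∈ K ↔ ∀ n : N, lam ⟨g * n * g⁻¹, hN.conj_mem n n.2 g⟩ = lam n := by
    intro g
    rw [hK, NormalEmb.mem_inertia']
    exact forall_congr' fun n => Units.val_inj
  have hNK : N ≤ K := fun n hn => E.ι_mem_inertia (irr_isClassFunction hθ) ⟨n, hn⟩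
  have hπK : ∀ k ∈ K, π k ∈ K := by
    intro k hk
    have : π k = (k * (π k)⁻¹)⁻¹ * k := by group
    rw [this]
    exact K.mul_mem (K.inv_mem (hNK (hπN k))) hk
  let ψ : K →* ℂˣ :=
    { toFun := fun k => lam ⟨k * (π k)⁻¹, hπN k⟩
      map_one' := by
        rw [← map_one lam]
        congr 1
        ext
        simp
      map_mul' := fun a b => by
        rw [← (hmem _).1 (hπK a a.2) ⟨b * (π b)⁻¹, hπN b⟩, ← map_mul]
        congr 1
        ext
        simp only [Subgroup.coe_mul, map_mul]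
        group }
  have hψ : ∀ n : N, ψ ⟨n, hNK n.2⟩ = lam n := by
    intro n
    show lam ⟨n * (π n)⁻¹, _⟩ = _
    congr 1
    ext
    simp [hπn n n.2]
  have hzK : z ∉ K := by
    intro h
    have h1 := (hmem z).1 h n0
    have h2 : (⟨z * n0 * z⁻¹, hN.conj_mem _ n0.2 z⟩ : N) = n0⁻¹ := Subtype.ext (hzi _ n0.2)
    rw [h2, map_inv] at h1
    obtain ⟨k, hk⟩ := hodd _ n0.2
    have h3 : lam n0 ^ (2 * k + 1) = 1 := by
      rw [← map_pow, ← hk, Subgroup.orderOf_coe, pow_orderOf_eq_one, map_one]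
    have h4 : lam n0 ^ 2 = 1 := by
      rw [sq]
      nth_rewrite 1 [← h1]
      exact inv_mul_cancel _
    rw [pow_succ, pow_mul, h4, one_pow, one_mul] at h3
    exact hlam h3
  let E' := E.restrict K fun n => hNK n.2
  have hT : E.inertia (fun n => (lam n : ℂ)) ≤ K.subtype.range := by
    rw [Subgroup.range_subtype]
  have hov : classInner (fun n => ((ψ (E'.ι n) : ℂˣ) : ℂ)) (fun n => (lam n : ℂ)) ≠ 0 := by
    have : (fun n => ((ψ (E'.ι n) : ℂˣ) : ℂ)) = fun n => (lam n : ℂ) :=
      funext fun n => congrArg Units.val (hψ n)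
    rw [this, inner_irr_self hθ]
    exact one_ne_zero
  have hirr := E.corr_irr E' K.subtype K.subtype_injective (fun _ => rfl) hθ hT (irr_linear ψ) hov
  refine ⟨_, K, hirr, ?_, ?_, ?_, ?_⟩
  · apply deg_of_eq
    rw [ind_subtype, indFun_one_eq]
    simp
  · have h1 : K.index ∣ N.index := Subgroup.index_dvd_of_le hNK
    have h2 : N.index = Nat.card P := (Nat.card_congr e.toEquiv).symm
    haveI : Fact (Nat.Prime 2) := ⟨Nat.prime_two⟩
    obtain ⟨k, hk⟩ := hP.exists_card_eq
    rw [h2, hk] at h1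
    obtain ⟨i, -, hi⟩ := (Nat.dvd_prime_pow Nat.prime_two).1 h1
    rw [hi]
    refine dvd_pow_self 2 ?_
    rintro rfl
    rw [pow_zero, Subgroup.index_eq_one] at hi
    exact hzK (hi ▸ Subgroup.mem_top z)
  · rw [ind_subtype]
    have hconj : ∀ g, z * g ∈ K → ∀ n : N,
        lam ⟨g * n * g⁻¹, hN.conj_mem n n.2 g⟩ = (lam n)⁻¹ := by
      intro g hg n
      rw [← (hmem _).1 hg n, ← map_inv]
      congr 1
      ext
      have := hzi _ (hN.conj_mem n n.2 g)
      simp only [InvMemClass.coe_inv]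
      rw [show z * g * n * (z * g)⁻¹ = z * (g * n * g⁻¹) * z⁻¹ by group, this, inv_inv]
    refine fs_ind N K hNK lam ψ hψ z (fun g hg => ?_) (fun g hg => ?_) hc
    · have h1 : g * g ∈ K := by
        rw [hmem]
        intro n
        have := hconj g hg ⟨g * n * g⁻¹, hN.conj_mem n n.2 g⟩
        rw [hconj g hg n, inv_inv] at this
        rw [← this]
        congr 1
        ext
        simp only
        group
      refine ⟨h1, ?_⟩
      have h2 : z * π g ∈ K := by
        have := hπK _ hg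
        rwa [map_mul, hπu z hzP] at this
      have h3 := hconj _ h2 ⟨g * (π g)⁻¹, hπN g⟩
      have h4 := mul_eq_one_iff_eq_inv.2 h3
      rw [mul_comm, ← map_mul] at h4
      rw [← h4]
      show lam ⟨g * g * (π (g * g))⁻¹, _⟩ = _
      congr 1
      ext
      simp only [Subgroup.coe_mul, map_mul]
      group
    · rw [hmem]
      intro n
      rw [← inv_inv (lam n), ← hg n, ← map_inv]
      congr 1
      ext
      have := hzi _ (hN.conj_mem n n.2 g)
      simp only [InvMemClass.coe_inv]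
      rw [show z * g * n * (z * g)⁻¹ = z * (g * n * g⁻¹) * z⁻¹ by group, this]
  · intro ν hν h k hk
    have hνN : ∀ n ∈ N, ν n = 1 := by
      intro n hn
      obtain ⟨k, hk⟩ := hodd _ hn
      have h3 : ν n ^ (2 * k + 1) = 1 := by rw [← map_pow, ← hk, pow_orderOf_eq_one, map_one]
      rwa [pow_succ, pow_mul, hν, one_pow, one_mul] at h3
    have h1 := irr_linear (ν.comp K.subtype * ψ)
    have hov' : classInner (fun n => (((ν.comp K.subtype * ψ) (E'.ι n) : ℂˣ) : ℂ))
        (fun n => (lam n : ℂ)) ≠ 0 := by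
      convert hov using 3 with n
      show ((ν n * ψ (E'.ι n) : ℂˣ) : ℂ) = _
      rw [hνN n n.2, one_mul]
    have h2 := E.corr_inj E' K.subtype K.subtype_injective (fun _ => rfl) hθ hT h1
      (irr_linear ψ) hov' hov (by
        have := ind_comp_mul K.subtype (fun k => (ψ k : ℂ)) (irr_isClassFunction (irr_linear ν))
        exact Eq.trans this h)
    have h3 : ((ν k * ψ ⟨k, hk⟩ : ℂˣ) : ℂ) = ψ ⟨k, hk⟩ := congrFun h2 ⟨k, hk⟩
    exact mul_eq_right.1 (Units.ext h3)

end CF.Crit.Acd
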