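import Cfsg.Agent.Fgs1.FPF8

/-!
# The binary octahedral group as a Frobenius complement
-/

namespace CF.Crit

open Subgroup CF.Fgs1 CF.Fgs1.Fpf Equiv

variable {H : Type*} [Group H] [Finite H] {g x y : H}

omit [Finite H] in
theorem not_comm (ho : ∀ x : H, orderOf x ≠ 12) (hx : orderOf x = 4) (hy : orderOf y = 3) :
    ¬ Commute x y := fun c =>
  ho (x * y) (by rw [c.orderOf_mul_eq_mul_orderOf_of_coprime (by rw [hx, hy]; decide), hx, hy])

theorem not_norm (ho : ∀ x : H, orderOf x ≠ 12) (hg : orderOf g = 8) (hy : orderOf y = 3) :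
    g ∉ normalizer (zpowers y : Set H) := fun hn => by
  classical
  have y3 : y ^ 3 = 1 := hy ▸ pow_orderOf_eq_one y
  obtain ⟨k, hk, e⟩ := Finset.mem_image.1 (mem_zpowers_iff_mem_range_orderOf.1
    ((mem_normalizer_iff.1 hn y).1 (mem_zpowers y)))
  refine not_comm ho (x := g ^ 2) (by rw [orderOf_pow, hg]; rfl) hy ?_
  have e2 : g ^ 2 * y * (g ^ 2)⁻¹ = y ^ (k * k) := by
    rw [pow_mul, e, conj_pow, e, sq]; group
  rw [hy, Finset.mem_range] at hk
  refine mul_inv_eq_iff_eq_mul.1 (e2.trans ?_)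
  interval_cases k
  · have : y = 1 := by simpa using e.symm
    simp [this]
  · simp
  · rw [show 2 * 2 = 3 + 1 from rfl, pow_succ, y3, one_mul]

theorem oct (hF : FPF H) [Group.IsSolvable H]
    (ho : ∀ x : H, orderOf x ∈ ({1, 2, 3, 4, 6, 8} : Set ℕ)) (hg : orderOf g = 8)
    (hy : orderOf y = 3) : ∃ f : H →* Perm (Fin 4), Function.Surjective f ∧
      ∀ x, f x = 1 ↔ x = 1 ∨ x = g ^ 4 := by
  have := Fact.mk Nat.prime_two
  have := Fact.mk Nat.prime_three
  have h12 : ∀ x : H, orderOf x ≠ 12 := fun x e => by simpa [e] using ho x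
  obtain ⟨N, hN, hZ, h⟩ := hF.solvable_struct
  have k3 : ∀ y ∈ N, orderOf y ≠ 3 := fun y yN hy => by
    obtain ⟨M, _, m1, m2⟩ : ∃ M : Subgroup N, M.Normal ∧ ¬ 2 ∣ Nat.card M ∧
        ∀ x : N, orderOf x = 3 → x ∈ M := by
      by_cases e : 2 ∣ Nat.card N
      · let P : Sylow 2 N := default
        have hp : (Nat.card N).minFac = 2 := (Nat.minFac_eq_two_iff _).2 e
        have hc : IsCyclic P := inferInstance
        refine ⟨_, inferInstance, MonoidHom.not_dvd_card_ker_transferSylow P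
          (hc.normalizer_le_centralizer hp), fun x hx => ?_⟩
        obtain ⟨k, hk⟩ := P.isPGroup' (MonoidHom.transferSylow P
          (hc.normalizer_le_centralizer hp) x)
        exact orderOf_eq_one_iff.1 (Nat.eq_one_of_dvd_coprimes
          (Nat.Coprime.pow_left k (by decide : Nat.Coprime 2 3)) (orderOf_dvd_of_pow_eq_one hk)
          (hx ▸ orderOf_map_dvd _ x))
      · exact ⟨⊤, inferInstance, by simpa using e, fun _ _ => mem_top _⟩
    have p3 : IsPGroup 3 (M.map N.subtype) := by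
      rintro ⟨_, x, hx, rfl⟩
      refine ⟨1, Subtype.ext ?_⟩
      have d := mt (fun d : 2 ∣ orderOf x => d.trans (M.orderOf_dvd_natCard hx)) m1
      have := ho x
      rw [orderOf_coe] at this
      refine orderOf_dvd_iff_pow_eq_one.1 ?_
      change orderOf (x : H) ∣ 3 ^ 1
      rw [orderOf_coe]
      rcases this with e | e | e | e | e | e <;> rw [e] at d ⊢ <;> simp at d ⊢
    refine not_norm h12 hg hy (hF.mem_normalizer Nat.prime_three hy (hF.comm_of_pgroup (by decide) p3
      ⟨⟨y, yN⟩, m2 _ (by rwa [← orderOf_coe]), rfl⟩ ⟨⟨_, hN.conj_mem y yN g⟩, m2 _ ?_, rfl⟩))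
    rw [← orderOf_coe, ← hy]
    exact (SemiconjBy.orderOf_eq g (by simp [SemiconjBy])).symm
  have p2 : IsPGroup 2 N := fun x => ⟨3, orderOf_dvd_iff_pow_eq_one.1 (by
    have := ho x
    have a := k3 x x.2
    have b := k3 _ (pow_mem x.2 2)
    rw [orderOf_pow] at b
    rw [orderOf_coe] at this a b
    rcases this with e | e | e | e | e | e <;> rw [e] at a b ⊢ <;> simp at a b ⊢)⟩
  have hc : IsCyclic N := topEquiv.isCyclic.1
    (IsPGroup.isCyclic_of_isZGroup (P := ⊤) (p2.to_subgroup ⊤))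
  have yc := hF.mem_centralizer (Q := N) (x := y) (hy ▸ Nat.prime_three) (le_normalizer_of_normal
    (mem_top _)) (by
      obtain ⟨k, hk⟩ := IsPGroup.iff_card.1 p2
      rw [hy, hk]; exact Nat.Coprime.pow_right k (by decide))
  have sq : ∀ x ∈ N, x * x = 1 := fun x hx => by
    have a := mt (not_comm h12 · hy) (not_not.2 (yc x hx))
    have b := mt (not_comm h12 · hy) (not_not.2 (yc _ (pow_mem hx 2)))
    have c := k3 x hx
    have d := k3 _ (pow_mem hx 2)
    rw [orderOf_pow] at b d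
    rw [← pow_two, ← orderOf_dvd_iff_pow_eq_one]
    rcases ho x with e | e | e | e | e | e <;> rw [e] at a b c d ⊢ <;> simp at a b c d ⊢
  have g8 : g ^ 8 = 1 := hg ▸ pow_orderOf_eq_one g
  have g4 : g ^ 4 ≠ 1 := fun e => by simpa [hg] using orderOf_dvd_of_pow_eq_one e
  have y3 : y ^ 3 = 1 := hy ▸ pow_orderOf_eq_one y
  rcases h with rfl | ⟨f, -, rfl⟩ | ⟨f, -, rfl⟩ | ⟨f, hf, rfl⟩
  · exact absurd hy (k3 y trivial)
  · refine absurd hy (k3 y ?_)
    have := congrArg f y3
    rw [map_pow, map_one] at this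
    rw [MonoidHom.mem_ker]
    revert this; generalize f y = u; revert u; decide
  · have := sq (g ^ 6) (by rw [MonoidHom.mem_ker, map_pow]; generalize f g = u; revert u; decide +kernel)
    rw [← pow_add, ← orderOf_dvd_iff_pow_eq_one, hg] at this
    simp at this
  refine ⟨f, hf, fun x => ⟨fun e => or_iff_not_imp_left.2 fun x1 =>
    hF.eq_of_sq x1 g4 (sq x e) (by rw [← pow_add, g8]), ?_⟩⟩
  rintro (rfl | rfl)
  · exact map_one f
  · have : g ^ 4 = g ^ 12 := by rw [show 12 = 8 + 4 from rfl, pow_add, g8, one_mul]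
    rw [this, map_pow]; generalize f g = u; revert u; decide +kernel

instance fact13 : Fact (Nat.Prime 13) := ⟨by norm_num⟩

theorem exists_four {V : Type*} [AddCommGroup V] [Module (ZMod 13) V] [Nontrivial V]
    {ρ : H →* Module.End (ZMod 13) V} (hρ : NZ ρ) {f : H →* Perm (Fin 4)}
    (hf : Function.Surjective f) {z : H} (z1 : z ≠ 1) (hz : ∀ x, f x = 1 ↔ x = 1 ∨ x = z) :
    ∃ W : Submodule (ZMod 13) V, W ≠ ⊥ ∧ Module.finrank (ZMod 13) W ≤ 4 ∧ Module.Finite (ZMod 13) W ∧
      ∀ h, ∀ w ∈ W, ρ h w ∈ W := by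
  classical
  have fz : f z = 1 := (hz z).2 (.inr rfl)
  have zz : z * z = 1 := ((hz (z * z)).1 (by simp [fz])).resolve_right (by simpa using z1)
  have rz := hρ.invol zz z1
  have sq : ∀ h, f h ≠ 1 → f h * f h = 1 → ρ h * ρ h = -1 := fun h a b => by
    rcases (hz (h * h)).1 (by rwa [map_mul]) with e | e
    · have h1 : h ≠ 1 := fun e => a (by simp [e])
      have c : h * z = z * h := by
        rcases (hz (h * z * h⁻¹)).1 (by simp [fz]) with e | e
        · exact absurd (by simpa using e) z1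
        · exact mul_inv_eq_iff_eq_mul.1 e
      have := hρ.invol (z := h * z) (by rw [mul_assoc, ← mul_assoc z, ← c, mul_assoc, zz, mul_one, e])
        fun e => a (by simpa [fz] using congrArg f e)
      rw [map_mul, hρ.invol e h1, rz, neg_mul_neg, one_mul] at this
      obtain ⟨v, hv⟩ := exists_ne (0 : V)
      have := congrArg (fun T : Module.End (ZMod 13) V => (7 : ZMod 13) • (T v + v)) this
      simp only [Module.End.one_apply, LinearMap.neg_apply, neg_add_cancel, smul_zero, ← two_smul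
        (ZMod 13) v, smul_smul] at this
      exact absurd (by simpa [show (7 : ZMod 13) * 2 = 1 from rfl] using this) hv
    · rw [← map_mul, e, rz]
  have eq : ∀ a b, f a = f b → ρ a = ρ b ∨ ρ a = -ρ b := fun a b e => by
    rcases (hz (b⁻¹ * a)).1 (by simp [e]) with e | e <;> rw [inv_mul_eq_iff_eq_mul] at e <;>
      simp [e, rz]
  have th : ∀ h, f h ≠ 1 → f h ^ 3 = 1 → ∃ ε : ZMod 13, ρ h + ρ h⁻¹ = ε • 1 := fun h a b => by
    rcases (hz (h ^ 3)).1 (by rwa [map_pow]) with e | e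
    · exact ⟨-1, by rw [hρ.three_inv e fun e => a (by simp [e])]; simp⟩
    · have c : Commute z h := e ▸ (Commute.refl h).pow_left 3
      have := hρ.three_inv (e := z * h) (by rw [c.mul_pow, e, pow_succ, pow_two, zz, one_mul, zz])
        fun e => a (by simpa [fz] using congrArg f e)
      rw [mul_inv_rev, inv_eq_of_mul_eq_one_right zz, map_mul, map_mul, rz] at this
      refine ⟨1, ?_⟩
      simp only [mul_neg, mul_one, neg_mul, one_mul] at this
      rw [neg_eq_iff_eq_neg.1 this]; simp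
  obtain ⟨s, hs⟩ := hf (finRotate 4)
  obtain ⟨w, hw⟩ := hf (swap 0 1 * swap 1 2)
  set I := ρ s * ρ s with hI
  set J := ρ (w * (s * s) * w⁻¹) with hJ
  have ii : I * I = -1 := by rw [hI, ← map_mul]; exact sq _ (by simp [hs]; decide) (by simp [hs]; decide)
  have jj : J * J = -1 := sq _ (by simp [hs, hw]; decide) (by simp [hs, hw]; decide)
  have kk : I * J * (I * J) = -1 := by
    rw [hI, hJ, ← map_mul, ← map_mul]
    exact sq _ (by simp [hs, hw]; decide) (by simp [hs, hw]; decide)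
  have ij : I * J = -(J * I) := by
    have : I * J * (I * J) * (J * I) = I * J := by
      rw [mul_assoc (I * J), mul_assoc I J (J * I), ← mul_assoc J J, jj, neg_mul, one_mul, mul_neg,
        ii]; simp
    rw [← this, kk]; simp
  have wi : ρ w * I = J * ρ w := by rw [hI, hJ, ← map_mul, ← map_mul, ← map_mul]; simp
  have sj : ρ s * J = I * J * ρ s ∨ ρ s * J = -(I * J * ρ s) := by
    rw [hI, hJ, ← map_mul, ← map_mul, ← map_mul, ← map_mul]
    exact eq _ _ (by simp [hs, hw]; decide)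
  obtain ⟨a, ha⟩ := th w (by rw [hw]; decide) (by rw [hw]; decide)
  obtain ⟨b, hb⟩ := th (s * s * w) (by simp [hs, hw]; decide) (by simp [hs, hw]; decide)
  have hi : ρ (s * s)⁻¹ = -I := by
    have : ρ (s * s)⁻¹ * I = 1 := by rw [hI, ← map_mul, ← map_mul]; simp
    rw [← neg_eq_iff_eq_neg, ← mul_neg_one, ← ii, ← mul_assoc, this, one_mul]
  rw [mul_inv_rev, map_mul, map_mul, map_mul, hi, ← hI, eq_sub_of_add_eq' ha] at hb
  have e1 : (I + J) * ρ w = b • 1 + a • I := by
    rw [← hb, add_mul, ← wi]; simp [sub_mul, add_assoc]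
  have e2 : ρ w = (6 : ZMod 13) • ((I + J) * (b • 1 + a • I)) := by
    rw [← e1, ← mul_assoc, show (I + J) * (I + J) = (-2 : ZMod 13) • 1 by
      rw [add_mul, mul_add, mul_add, ii, jj, ij, neg_smul, two_smul]; abel, smul_mul_assoc, smul_smul,
      one_mul, show (6 : ZMod 13) * -2 = 1 from rfl, one_smul]
  obtain ⟨v, c, v0, hv⟩ : ∃ (v : V) (c : ZMod 13), v ≠ 0 ∧ I v = c • v := by
    obtain ⟨u, hu⟩ := exists_ne (0 : V)
    by_cases e : I u + (5 : ZMod 13) • u = 0
    · exact ⟨u, -5, hu, by rw [neg_smul]; exact eq_neg_of_add_eq_zero_left e⟩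
    · refine ⟨_, 5, e, ?_⟩
      rw [map_add, ← Module.End.mul_apply, ii, map_smul, smul_add, smul_smul, add_comm,
        show (5 : ZMod 13) * 5 = -1 from rfl]
      simp
  have is : I (ρ s v) = c • ρ s v := by
    rw [← map_smul, ← hv, ← Module.End.mul_apply, ← Module.End.mul_apply, hI, mul_assoc]
  let W := Submodule.span (ZMod 13) (({v, J v, ρ s v, J (ρ s v)} : Finset V) : Set V)
  have m1 : v ∈ W := Submodule.subset_span (by simp)
  have m2 : J v ∈ W := Submodule.subset_span (by simp)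
  have m3 : ρ s v ∈ W := Submodule.subset_span (by simp)
  have m4 : J (ρ s v) ∈ W := Submodule.subset_span (by simp)
  have gen : ∀ T : Module.End (ZMod 13) V, T v ∈ W → T (J v) ∈ W → T (ρ s v) ∈ W →
      T (J (ρ s v)) ∈ W → ∀ x ∈ W, T x ∈ W := fun T a b c d =>
    Submodule.span_le (p := W.comap T).2 (by
      intro x hx
      simp only [Finset.coe_insert, Finset.coe_singleton, Set.mem_insert_iff,
        Set.mem_singleton_iff] at hx
      rcases hx with rfl | rfl | rfl | rfl <;> assumption)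
  have ij' : ∀ x, I (J x) = -J (I x) := fun x => congrArg (· x) (congrArg DFunLike.coe ij)
  have jj' : ∀ x, J (J x) = -x := fun x => congrArg (· x) (congrArg DFunLike.coe jj)
  have wI := gen I (hv ▸ W.smul_mem _ m1) (by rw [ij', hv, map_smul]; exact neg_mem (W.smul_mem _ m2))
    (is ▸ W.smul_mem _ m3) (by rw [ij', is, map_smul]; exact neg_mem (W.smul_mem _ m4))
  have wJ := gen J m2 (by rw [jj']; exact neg_mem m1) m4 (by rw [jj']; exact neg_mem m3)
  have sJ : ∀ x, ρ s x ∈ W → ρ s (J x) ∈ W := fun x hx => by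
    rw [← Module.End.mul_apply]
    rcases sj with e | e <;> rw [e]
    exacts [wI _ (wJ _ hx), neg_mem (wI _ (wJ _ hx))]
  have wS := gen (ρ s) m3 (sJ _ m3) (wI _ m1) (sJ _ (wI _ m1))
  have wW : ∀ x ∈ W, ρ w x ∈ W := fun x hx => by
    have : (b • 1 + a • I : Module.End (ZMod 13) V) x ∈ W := add_mem (W.smul_mem _ hx)
      (W.smul_mem _ (wI _ hx))
    rw [e2]
    exact W.smul_mem _ (add_mem (wI _ this) (wJ _ this))
  have wP : ∀ h, (∀ x ∈ W, ρ h x ∈ W) → ∀ n : ℕ, ∀ x ∈ W, ρ (h ^ n) x ∈ W := fun h hh n => by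
    induction n with
    | zero => simp
    | succ n ih => intro x hx; rw [pow_succ, map_mul]; exact ih _ (hh _ hx)
  refine ⟨W, (Submodule.ne_bot_iff _).2 ⟨v, m1, v0⟩, (finrank_span_finset_le_card _).trans
    Finset.card_le_four, .span_of_finite _ (Finset.finite_toSet _), fun h x hx => ?_⟩
  obtain ⟨a, b, c, d, e⟩ := (by decide : ∀ u : Perm (Fin 4), ∃ (a : Fin 4) (b : Fin 3) (c : Fin 4)
    (d : Fin 3), u = finRotate 4 ^ (a : ℕ) * (swap 0 1 * swap 1 2) ^ (b : ℕ) * finRotate 4 ^ (c : ℕ) *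
      (swap 0 1 * swap 1 2) ^ (d : ℕ)) (f h)
  have : ρ (s ^ (a : ℕ) * w ^ (b : ℕ) * s ^ (c : ℕ) * w ^ (d : ℕ)) x ∈ W := by
    rw [map_mul, map_mul, map_mul]
    exact wP _ wS _ _ (wP _ wW _ _ (wP _ wS _ _ (wP _ wW _ _ hx)))
  rcases eq h (s ^ (a : ℕ) * w ^ (b : ℕ) * s ^ (c : ℕ) * w ^ (d : ℕ)) (by simp [e, hs, hw]) with
    e | e <;> rw [e]
  exacts [this, neg_mem this]

end CF.Crit
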