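import Cfsg.Agent.Coprime.Action

/-!
# An elementary abelian group of order `8` acting on a `p`-group
-/

namespace CF.Crit.E8

open Subgroup CF.Coprime

variable {P : Type*} [Group P] {S T U j : MulAut P} {a b g : P} {p : ℕ}

/-- the fixed points of `T` form a cyclic group -/
abbrev Cy (T : MulAut P) : Prop := ∃ g : P, ∀ x : P, (T x = x ↔ x ∈ zpowers g)

theorem sign (hp : p.Prime) (h2 : p ≠ 2) (hP : IsPGroup p P) (tt : T * T = 1) (c : j * T = T * j)
    (h : ∀ x : P, j x = x ↔ x ∈ zpowers g) : T g = g ∨ T g = g⁻¹ := by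
  have := Fact.mk hp
  obtain ⟨k, hk⟩ := (h (T g)).1 (by
    rw [← MulAut.mul_apply, c, MulAut.mul_apply, (h g).2 (mem_zpowers g)])
  obtain ⟨n, hn⟩ := IsPGroup.iff_orderOf.1 hP g
  simp only at hk
  have d : (p : ℤ) ^ n ∣ (k - 1) * (k + 1) := by
    rw [← Nat.cast_pow, ← hn, orderOf_dvd_iff_zpow_eq_one, show (k - 1) * (k + 1) = k * k - 1 by ring,
      zpow_sub_one, zpow_mul, hk, ← map_zpow, hk, ← MulAut.mul_apply, tt]
    simp
  have pp := Nat.prime_iff_prime_int.1 hp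
  by_cases e : (p : ℤ) ∣ k - 1
  · have := pp.pow_dvd_of_dvd_mul_right n (fun f => h2 ((Nat.prime_dvd_prime_iff_eq hp Nat.prime_two).1
      (Int.natCast_dvd_natCast.1 (by simpa using dvd_sub f e)))) d
    rw [← Nat.cast_pow, ← hn, orderOf_dvd_iff_zpow_eq_one, zpow_sub_one, hk] at this
    exact .inl (mul_inv_eq_one.1 this)
  · have := pp.pow_dvd_of_dvd_mul_left n e d
    rw [← Nat.cast_pow, ← hn, orderOf_dvd_iff_zpow_eq_one, zpow_add_one, hk] at this
    exact .inr (eq_inv_of_mul_eq_one_left this)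

theorem inv_of_mem (h : T g = g⁻¹) (ha : a ∈ zpowers g) : T a = a⁻¹ := by
  obtain ⟨k, rfl⟩ := ha
  simp [h]

theorem not_cy (hp : p.Prime) (h2 : p ≠ 2) (hP : IsPGroup p P) (tt : T * T = 1) (c : S * T = T * S)
    (sa : S a = a) (sb : S b = b) (ta : T a = a⁻¹) (tb : T b = b) (na : a⁻¹ ≠ a) (nb : b⁻¹ ≠ b) :
    ¬ Cy S := fun ⟨g, h⟩ => by
  rcases sign hp h2 hP tt c h with e | e
  · obtain ⟨k, rfl⟩ := (h a).1 sa
    exact na (by simpa [e] using ta.symm)
  · exact nb ((inv_of_mem e ((h b).1 sb)).symm.trans tb)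

theorem eq_one (hp : p.Prime) (h2 : p ≠ 2) (hP : IsPGroup p P) (h : a⁻¹ = a) : a = 1 := by
  obtain ⟨n, hn⟩ := hP a
  exact orderOf_eq_one_iff.1 (Nat.eq_one_of_dvd_coprimes (((Nat.coprime_primes hp Nat.prime_two).2
    h2).pow_left n) (orderOf_dvd_of_pow_eq_one hn) (orderOf_dvd_of_pow_eq_one
      (by rw [sq, ← h, mul_inv_eq_one, h])))

theorem comm (hp : p.Prime) (h2 : p ≠ 2) (hP : IsPGroup p P) (h : ∀ x : P, j x = x ↔ x ∈ zpowers g)
    (ja : j a = a⁻¹) (jb : j b = b⁻¹) (ta : T a = a) (tb : T b = b) (tg : T g = g⁻¹) :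
    a * b = b * a := by
  obtain ⟨n, hn⟩ := hP (b * a * a * b)
  obtain ⟨m, hm⟩ := (hp.odd_of_ne_two h2).pow (n := n)
  set u := b * a * a * b with hu
  have e : u ^ (m + 1) * u ^ (m + 1) = u := by
    rw [← pow_add, show m + 1 + (m + 1) = 2 * m + 1 + 1 by ring, ← hm, pow_succ, hn, one_mul]
  have ju : j (u ^ (m + 1)) = (u ^ (m + 1))⁻¹ := by
    rw [map_pow, ← inv_pow]; simp [hu, ja, jb, mul_assoc]
  have tu : T (u ^ (m + 1)) = u ^ (m + 1) := by rw [map_pow]; simp [hu, ta, tb]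
  set v := u ^ (m + 1)
  have c : j (a * b * v⁻¹) = a * b * v⁻¹ := by
    rw [map_mul, map_mul, map_inv, ja, jb, ju, inv_inv, eq_mul_inv_iff_mul_eq, mul_assoc, e, hu]
    group
  have := eq_one hp h2 hP ((inv_of_mem tg ((h _).1 c)).symm.trans (by simp [ta, tb, tu]))
  rw [mul_inv_eq_one] at this
  rw [← this, map_mul, ja, jb] at ju
  exact inv_injective (by rw [← ju, mul_inv_rev])

theorem exists_four [Finite P] {I I₀ : Subgroup (MulAut P)} (sq : ∀ T ∈ I, T * T = 1)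
    (cm : ∀ S ∈ I, ∀ T ∈ I, S * T = T * S) (h8 : Nat.card I = 8) (h : I₀ < I)
    (hd : ∀ T ∈ I₀, T ≠ 1 → Cy T)
    (hp : ∀ T ∈ I, ∀ T' ∈ I, T ≠ 1 → T' ≠ 1 → ¬ Cy T → ¬ Cy T' → T * T' ∈ I₀) :
    ∃ J ≤ I, IsKleinFour J ∧ ∀ T ∈ J, T ≠ 1 → Cy T := by
  obtain ⟨t, tI, t0, ht⟩ : ∃ t ∈ I, t ∉ I₀ ∧ ∀ T ∈ I, T ≠ 1 → ¬ Cy T → T * t ∈ I₀ := by
    by_cases e : ∃ t ∈ I, t ≠ 1 ∧ ¬ Cy t
    · obtain ⟨t, a, b, c⟩ := e
      exact ⟨t, a, fun d => c (hd t d b), fun T u v w => hp T u t a v b w c⟩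
    · obtain ⟨t, a, b⟩ := SetLike.exists_of_lt h
      exact ⟨t, a, b, fun T u v w => (e ⟨T, u, v, w⟩).elim⟩
  obtain ⟨J, ⟨j0, jI, tJ⟩, m⟩ := Set.exists_max_image {J | I₀ ≤ J ∧ J ≤ I ∧ t ∉ J}
    (fun J => Nat.card J) (Set.toFinite _) ⟨I₀, le_rfl, h.le, t0⟩
  have x : ∀ b ∈ I, b * t ∈ J → b ∉ J := fun b _ u v => tJ ((mul_mem_cancel_left v).1 u)
  have i : (J.subgroupOf I).index = 2 := index_eq_two_iff.2 ⟨⟨t, tI⟩, fun ⟨b, hb⟩ => by
    by_cases e : b ∈ J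
    · exact .inr ⟨e, fun u => x b hb u e⟩
    refine .inl ⟨?_, e⟩
    let K : Subgroup (MulAut P) :=
      { carrier := {y | y ∈ I ∧ (y ∈ J ∨ b * y ∈ J)}
        one_mem' := ⟨one_mem _, .inl (one_mem _)⟩
        mul_mem' := by
          rintro y z ⟨a, c | c⟩ ⟨d, f | f⟩ <;> refine ⟨mul_mem a d, ?_⟩
          · exact .inl (mul_mem c f)
          · exact .inr (by rw [← mul_assoc, cm b hb y a, mul_assoc]; exact mul_mem c f)
          · exact .inr (by rw [← mul_assoc]; exact mul_mem c f)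
          · have := mul_mem c f
            rw [cm b hb y a, mul_assoc, ← mul_assoc b, sq b hb, one_mul] at this
            exact .inl this
        inv_mem' := by rintro y ⟨a, c⟩; rw [inv_eq_of_mul_eq_one_right (sq y a)]; exact ⟨a, c⟩ }
    have l : J ≤ K := fun y hy => ⟨jI hy, .inl hy⟩
    by_contra f
    exact e (eq_of_le_of_card_ge l (m K ⟨j0.trans l, fun _ h => h.1, fun h => h.2.elim tJ f⟩) ▸
      (⟨hb, .inr (sq b hb ▸ one_mem J)⟩ : b ∈ K))⟩
  have c := (J.subgroupOf I).card_mul_index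
  rw [i, h8, Nat.card_congr (subgroupOfEquivOfLe jI).toEquiv] at c
  have : Nontrivial J := Finite.one_lt_card_iff_nontrivial.1 (by omega)
  exact ⟨J, jI, ⟨by omega, (Monoid.exponent_eq_prime_iff Nat.prime_two).2 fun y y1 =>
    orderOf_eq_prime (Subtype.ext (by rw [coe_pow, pow_two]; exact sq _ (jI y.2))) y1⟩,
    fun T u v => by_contra fun w => x T (jI u) (j0 (ht T (jI u) v w)) u⟩

theorem not_two {P : Type*} [CommGroup P] (hp : p.Prime) (h2 : p ≠ 2) (hP : IsPGroup p P)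
    {x : Fin 3 → P} {j : Fin 3 → MulAut P} (x1 : ∀ i, x i ≠ 1) (jj : ∀ i, j i * j i = 1)
    (h : ∀ i y, j i y = y ↔ y ∈ zpowers (x i)) (v : ∀ i k, i ≠ k → j i (x k) = (x k)⁻¹) {a b : P}
    (e : closure {a, b} = ⊤) : False := by
  have := Fact.mk hp
  have f : ∀ i y, ∃ k : ℤ, x i ^ k = y * j i y := fun i y => (h i _).1 (by
    rw [map_mul, ← MulAut.mul_apply, jj, mul_comm]; rfl)
  choose α hα using fun i => f i a
  choose β hβ using fun i => f i b
  choose m n hm using fun i => mem_closure_pair.1 (e ▸ mem_top (x i))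
  have k : ∀ i k, ((α i * m k + β i * n k : ℤ) : ZMod p) = if i = k then 2 else 0 := fun i k => by
    have d : p ∣ orderOf (x i) := by
      obtain ⟨r, hr⟩ := IsPGroup.iff_orderOf.1 hP (x i)
      exact hr ▸ dvd_pow_self p fun e => x1 i (orderOf_eq_one_iff.1 (by simpa [e] using hr))
    have : x i ^ (α i * m k + β i * n k) = x i ^ (if i = k then 2 else 0 : ℤ) := by
      rw [zpow_add, zpow_mul, zpow_mul, hα, hβ, mul_zpow, mul_zpow, mul_mul_mul_comm, ← map_zpow,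
        ← map_zpow, ← map_mul, hm]
      split_ifs with e
      · rw [← e, (h i _).2 (mem_zpowers _), zpow_two]
      · simp [v i k e]
    have := (ZMod.intCast_eq_intCast_iff _ _ p).2 ((zpow_eq_zpow_iff_modEq.1 this).of_dvd
      (Int.natCast_dvd_natCast.2 d))
    rw [this]; split_ifs <;> simp
  have d : (Matrix.of fun i k => ((α i * m k + β i * n k : ℤ) : ZMod p)).det = 0 := by
    simp only [Matrix.det_fin_three, Matrix.of_apply]; push_cast; ring
  simp only [Matrix.det_fin_three, Matrix.of_apply, k] at d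
  have : ((2 ^ 3 : ℕ) : ZMod p) = 0 := by rw [← d]; simp; norm_num
  exact h2 ((Nat.prime_dvd_prime_iff_eq hp Nat.prime_two).1 (hp.dvd_of_dvd_pow
    ((ZMod.natCast_eq_zero_iff _ _).1 this)))

end CF.Crit.E8
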