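import Cfsg.Agent.Clifford.Extend
import Cfsg.Agent.BlockB.Gen

/-!
# A lower bound for the number of characters over an invariant character (good classes)
-/

set_option autoImplicit false

namespace CF.Crit.Good
open Subgroup Cfsg CF.Char CF.Clifford CF.BlockB
open scoped ComplexConjugate commutatorElement

/-- a criterion for being good with respect to every central extension -/
def Nice {E : Type*} [Group E] (g : E) : Prop :=
  ∀ y, Commute g y → ∃ k : ℕ, k.Coprime (orderOf g) ∧ ∃ w, g ∈ zpowers w ∧ y ^ k ∈ zpowers w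

theorem Nice.comm {Γ E : Type*} [Group Γ] [Group E] (ρ : Γ →* E) (hs : Function.Surjective ρ)
    (hk : ρ.ker ≤ center Γ) {a b : Γ} (h : Nice (ρ a)) (hc : Commute (ρ a) (ρ b)) :
    Commute a b := by
  obtain ⟨k, hkc, w, ⟨i, hi⟩, ⟨j, hj⟩⟩ := h _ hc
  obtain ⟨w, rfl⟩ := hs w
  have hz : ⁅a, b⁆ ∈ center Γ := hk (by
    rw [MonoidHom.mem_ker, map_commutatorElement, commutatorElement_eq_one_iff_commute]; exact hc)
  set z := ⁅a, b⁆ with hz'
  have e1 : a * b * a⁻¹ = z * b := by rw [hz', commutatorElement_def]; group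
  have e2 : b⁻¹ * a * b = z * a := by
    rw [← mem_center_iff.1 hz a, mul_assoc, inv_mul_eq_iff_eq_mul, ← mul_assoc,
      mem_center_iff.1 hz, hz', commutatorElement_def]
    group
  have c1 : ∀ x, Commute z x := fun x => (mem_center_iff.1 hz x).symm
  have cen : ∀ {x y : Γ}, ρ x = ρ y → ∃ u ∈ center Γ, y = x * u := fun {x y} e =>
    ⟨x⁻¹ * y, hk (by simp [MonoidHom.mem_ker, e]), by simp⟩
  have h1 : z ^ k = 1 := by
    obtain ⟨u, hu, e3⟩ := cen (x := w ^ i) (y := a) (by rw [map_zpow]; exact hi)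
    obtain ⟨v, hv, e4⟩ := cen (x := w ^ j) (y := b ^ k) (by rw [map_zpow, map_pow]; exact hj)
    have : Commute a (b ^ k) := by
      rw [e4]
      refine Commute.mul_right ?_ (mem_center_iff.1 hv a)
      rw [e3]
      exact ((Commute.refl w).zpow_zpow i j).mul_left (mem_center_iff.1 hu _).symm
    have h2 := congrArg (· ^ k) e1
    simp only [conj_pow, (c1 b).mul_pow, this.eq, mul_inv_cancel_right] at h2
    simpa using h2.symm
  have h2 : z ^ orderOf (ρ a) = 1 := by
    have h3 : a ^ orderOf (ρ a) ∈ center Γ := hk (by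
      rw [MonoidHom.mem_ker, map_pow, pow_orderOf_eq_one])
    have h2 := congrArg (· ^ orderOf (ρ a)) e2
    simp only [(c1 a).mul_pow] at h2
    rw [← inv_inv b, inv_inv b⁻¹, conj_pow, mem_center_iff.1 h3, mul_inv_cancel_right] at h2
    simpa using h2.symm
  have h3 := Nat.dvd_gcd (orderOf_dvd_of_pow_eq_one h1) (orderOf_dvd_of_pow_eq_one h2)
  rw [hkc, Nat.dvd_one, orderOf_eq_one_iff] at h3
  exact commutatorElement_eq_one_iff_commute.1 h3

theorem nice_one {E : Type*} [Group E] : Nice (1 : E) := fun y _ =>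
  ⟨1, Nat.coprime_one_left _, y, one_mem _, by simp⟩

theorem sum_coset_zero {N Γ : Type*} [Group N] [Group Γ] [Fintype N] [Finite Γ]
    (E : NormalEmb N Γ) {α : Γ → ℂ} (hα : IsCharacter Γ α) (h : ∑ n, α (E.ι n) = 0) (x : Γ) :
    ∑ n, α (E.ι n * x) = 0 := by
  classical
  have := Fintype.ofFinite Γ
  have key : ∀ F : Γ → ℂ, ∑ n, F (E.ι n) = ∑ n : E.ι.range, F n := fun F =>
    Fintype.sum_equiv (MonoidHom.ofInjective E.inj).toEquiv _ _ fun _ => rfl
  rw [classFun_eq_sum (char_isClassFunction hα)]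
  simp only [Finset.sum_apply, Pi.smul_apply, smul_eq_mul]
  rw [Finset.sum_comm]
  refine Finset.sum_eq_zero fun ψ _ => ?_
  rw [← Finset.mul_sum]
  by_cases k : classInner α ψ = 0
  · rw [k, zero_mul]
  rw [key fun y => (ψ : Γ → ℂ) (y * x), sum_coset_eq_zero ψ.2 _ fun hk => ?_, mul_zero]
  refine inner_comp_ne_zero_of_constituent E.ι hα ψ.2 char_const_one k
    ((E.inner_res_one_ne_zero_iff ψ.2).2 ((E.range_le_charKer_iff (irr_isCharacter ψ.2)).1 hk)) ?_
  simp [classInner, h]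

variable {T C Q : Type*} [Group T] [Fintype T] [Group C] [Fintype C] [Group Q]
  {E : NormalEmb C T} {θ : C → ℂ} {ρ : T →* Q}

/-- the irreducible characters over `θ` -/
def ovr (E : NormalEmb C T) (θ : C → ℂ) : Set (IrrCharacter T) :=
  {χ | classInner (fun n : C => (χ : T → ℂ) (E.ι n)) θ ≠ 0}

theorem exists_fun (hθ : IsIrrCharacter C θ) (hinv : E.Invariant θ) (hρ : Function.Surjective ρ)
    (hk : ρ.ker = E.ι.range) {g : T} (hg : Nice (ρ g)) : ∃ f : T → ℂ, InSpan (ovr E θ) f ∧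
      (∃ x : T, ρ x = ρ g ∧ f x ≠ 0) ∧ ∀ x, f x ≠ 0 → IsConj (ρ x) (ρ g) := by
  classical
  obtain ⟨Γ, _, _, E', π, θ', lam, L⟩ := NormalEmb.exists_isLift _ hθ hinv
  have := Fintype.ofFinite Γ
  obtain ⟨γ, rfl⟩ := L.surj g
  have hι : ∀ c : C, π (E'.ι c) = E.ι c := L.π_ι
  have hι' : ∀ c : C, (E'.ι c : Γ ⧸ E'.ι.range) = 1 := fun c =>
    (QuotientGroup.eq_one_iff _).2 ⟨c, rfl⟩
  have hρι : ∀ c : C, ρ (E.ι c) = 1 := fun c => hk.ge ⟨c, rfl⟩
  let F : T → ℂ := fun x => Function.extend E.ι (fun c => θ' (E'.ι c * γ)) 0 (x * (π γ)⁻¹)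
  have F1 : ∀ c : C, F (E.ι c * π γ) = θ' (E'.ι c * γ) := fun c => by
    simp only [F, mul_inv_cancel_right, E.inj.extend_apply]
  have F2 : ∀ x, F x ≠ 0 → ∃ c : C, x = E.ι c * π γ := fun x hx => by
    by_contra! k
    exact hx (Function.extend_apply' _ _ _ fun ⟨c, h⟩ => k c (by simp [h]))
  have inv : ∀ (y : T) (c : C), Commute (ρ (π γ)) (ρ y) →
      F (y * (E.ι c * π γ) * y⁻¹) = F (E.ι c * π γ) := fun y c hy => by
    obtain ⟨δ, rfl⟩ := L.surj y
    let σ : Γ ⧸ E'.ι.range →* Q := QuotientGroup.lift _ (ρ.comp π) (by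
      rintro _ ⟨n, rfl⟩
      simp [MonoidHom.mem_ker, hι, hρι])
    have h1 := Nice.comm σ (fun x => by
      obtain ⟨x, rfl⟩ := hρ x
      obtain ⟨x, rfl⟩ := L.surj x
      exact ⟨x, rfl⟩) (fun x hx => by
        obtain ⟨x, rfl⟩ := QuotientGroup.mk_surjective x
        obtain ⟨d, h2⟩ : π x ∈ E.ι.range := hk.le hx
        have h3 : (E'.ι d)⁻¹ * x ∈ center Γ := L.central (by simp [MonoidHom.mem_ker, hι, h2])
        have h4 : (x : Γ ⧸ E'.ι.range) = ((E'.ι d)⁻¹ * x : Γ) := by
          rw [QuotientGroup.mk_mul, QuotientGroup.mk_inv, hι', inv_one, one_mul]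
        rw [h4, mem_center_iff]
        intro y
        obtain ⟨y, rfl⟩ := QuotientGroup.mk_surjective y
        rw [← QuotientGroup.mk_mul, mem_center_iff.1 h3, QuotientGroup.mk_mul]) (a := γ) (b := δ) hg hy
    obtain ⟨d, hd⟩ : δ * (E'.ι c * γ) * δ⁻¹ * γ⁻¹ ∈ E'.ι.range := by
      rw [← QuotientGroup.eq_one_iff]
      simp only [QuotientGroup.mk_mul, QuotientGroup.mk_inv]
      rw [hι', one_mul, ← h1.eq]
      group
    have h2 : π δ * (E.ι c * π γ) * (π δ)⁻¹ = E.ι d * π γ := by rw [← hι d, hd, ← hι c]; simp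
    rw [h2, F1, F1, hd, inv_mul_cancel_right, irr_isClassFunction L.irr]
  have sumF : ∀ H : T → ℂ, ∑ x, F x * H x = ∑ c : C, θ' (E'.ι c * γ) * H (E.ι c * π γ) :=
    fun H => by
    symm
    refine Finset.sum_of_injOn (fun c : C => E.ι c * π γ) (fun a _ b _ e => ?_) (by simp)
      (fun x _ hx => ?_) fun c _ => by rw [F1]
    · exact E.inj (mul_right_cancel e)
    · rw [mul_eq_zero]
      left
      by_contra k
      obtain ⟨c, rfl⟩ := F2 x k
      exact hx ⟨c, by simp, rfl⟩
  refine ⟨fun x => ∑ y, F (y * x * y⁻¹), inSpan_iff.2 ⟨fun x z => ?_, fun χ hχ => ?_⟩, ?_, ?_⟩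
  · exact Fintype.sum_equiv (Equiv.mulRight z) _ _ fun y => by simp [mul_assoc]
  · have h1 : ∀ y, ∑ x, F (y * x * y⁻¹) * conj ((χ : T → ℂ) x) = 0 := fun y => by
      rw [← Equiv.sum_comp (MulAut.conj y⁻¹).toEquiv]
      simp only [MulEquiv.toEquiv_eq_coe, EquivLike.coe_coe, MulAut.conj_apply, inv_inv, mul_assoc,
        mul_inv_cancel, mul_one, mul_inv_cancel_left]
      simp only [← mul_assoc, classFun_conj' (irr_isClassFunction χ.2)]
      rw [sumF]
      have := sum_coset_zero E' (char_mul (irr_isCharacter L.irr)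
        (char_conj (char_comp (irr_isCharacter χ.2) π))) (by
          have h2 : classInner θ (fun n : C => (χ : T → ℂ) (E.ι n)) = 0 := by
            by_contra k
            exact hχ (inner_irr_ne_zero_comm.1 k)
          simpa [classInner, L.ext, hι] using h2) γ
      simpa [hι] using this
    simp only [classInner, Finset.sum_mul]
    rw [Finset.sum_comm, Finset.sum_eq_zero fun y _ => h1 y, mul_zero]
  · have h1 := sum_coset_zero E' (char_sub_of_inner_ne_zero (char_mul (irr_isCharacter L.irr)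
      (char_conj (irr_isCharacter L.irr))) irr_one (by
        have := inner_irr_self L.irr
        simpa [classInner] using this.trans_ne one_ne_zero)) (by
          have := inner_irr_self hθ
          rw [classInner, inv_mul_eq_one₀ (by simp)] at this
          simp [L.ext, ← this]) γ
    obtain ⟨c, hc⟩ : ∃ c : C, θ' (E'.ι c * γ) ≠ 0 := by
      by_contra! k
      simp [k] at h1
    refine ⟨E.ι c * π γ, by simp [hρι], ?_⟩
    have h2 : ∀ y : T, F (y * (E.ι c * π γ) * y⁻¹) =
        if Commute (ρ (π γ)) (ρ y) then θ' (E'.ι c * γ) else 0 := fun y => by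
      split_ifs with k
      · rw [inv y c k, F1]
      · by_contra k'
        obtain ⟨d, hd⟩ := F2 _ k'
        have := congrArg ρ hd
        simp only [map_mul, map_inv, hρι, one_mul] at this
        exact k (mul_inv_eq_iff_eq_mul.1 this).symm
    simp only [h2, ← Finset.sum_filter, Finset.sum_const, nsmul_eq_mul]
    refine mul_ne_zero (Nat.cast_ne_zero.2 (Finset.card_ne_zero.2 ⟨1, by simp⟩)) hc
  · intro x hx
    obtain ⟨y, -, hy⟩ := Finset.exists_ne_zero_of_sum_ne_zero hx
    obtain ⟨c, hc⟩ := F2 _ hy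
    exact isConj_iff.2 ⟨ρ y, by rw [← map_inv, ← map_mul, ← map_mul, hc]; simp [hρι]⟩

/-- pairwise non-conjugate nice elements give a lower bound for the number of characters over `θ` -/
theorem card_le (hθ : IsIrrCharacter C θ) (hinv : E.Invariant θ) (hρ : Function.Surjective ρ)
    (hk : ρ.ker = E.ι.range) {ι : Type*} [Fintype ι] (g : ι → Q) (hg : ∀ i, Nice (g i))
    (hc : ∀ i j, IsConj (g i) (g j) → i = j) : Fintype.card ι ≤ Nat.card (ovr E θ) := by
  classical
  have : ∀ i, ∃ f : T → ℂ, InSpan (ovr E θ) f ∧ (∃ x : T, ρ x = g i ∧ f x ≠ 0) ∧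
      ∀ x, f x ≠ 0 → IsConj (ρ x) (g i) := fun i => by
    obtain ⟨x, hx⟩ := hρ (g i)
    rw [← hx]
    exact exists_fun hθ hinv hρ hk (hx ▸ hg i)
  choose f h1 h2 h3 using this
  choose x h4 h5 using h2
  have hli : LinearIndependent ℂ f := by
    refine Fintype.linearIndependent_iff.2 fun c hc' i => ?_
    have := congrFun hc' (x i)
    rw [Finset.sum_apply, Finset.sum_eq_single i (fun j _ hj => ?_) (by simp)] at this
    · simpa [h5 i] using this
    · by_contra k
      exact hj (hc _ _ (h4 i ▸ h3 j (x i) (right_ne_zero_of_mul k))).symm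
  have := Fintype.ofFinite (ovr E θ)
  rw [Nat.card_eq_fintype_card]
  refine linearIndependent_le_span_aux' f hli (Set.range fun χ : ovr E θ => (χ.1 : T → ℂ)) ?_ |>.trans
    (Fintype.card_range_le _)
  rintro _ ⟨i, rfl⟩
  rw [(h1 i).eq_sum]
  exact Submodule.sum_mem _ fun χ hχ => Submodule.smul_mem _ _
    (Submodule.subset_span ⟨⟨χ, by simpa using hχ⟩, rfl⟩)

end CF.Crit.Good
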