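import Cfsg.Agent.Crit.Good
import Cfsg.Agent.BN.Singer
import Cfsg.Agent.BG2.Rep
import Cfsg.Agent.Solv.CyclicMax
import Cfsg.Agent.Classical.Klein
import Cfsg.Agent.S3430
import Cfsg.Agent.Char.PermLemma

/-!
# Transitive linear groups with a single class of nice elements
-/

set_option autoImplicit false

namespace CF.Crit.Good
open Subgroup Matrix CF.BN

variable {E : Type*} [Group E] [Finite E]

theorem orderOf_eq_of_isConj {x y : E} (h : IsConj x y) : orderOf x = orderOf y := by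
  obtain ⟨g, rfl⟩ := isConj_iff.1 h
  exact ((MulAut.conj g).orderOf_eq x).symm

theorem nice_of_cyc {q : ℕ} [hq : Fact q.Prime] {u : E} (hu : IsPGroup q (zpowers u))
    (h : ∀ A : Subgroup E, IsPGroup q A → IsMulCommutative A → IsCyclic A) : Nice u := by
  intro y hy
  obtain ⟨i, k, hk, e⟩ := Nat.exists_eq_pow_mul_and_not_dvd (orderOf_pos y).ne' q hq.out.ne_one
  have h1 : IsPGroup q (zpowers (y ^ k)) := .of_card (n := i) (by
    rw [Nat.card_zpowers, orderOf_pow_of_dvd (by rintro rfl; simp at hk) (e ▸ dvd_mul_left _ _), e,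
      Nat.mul_div_cancel _ (Nat.pos_of_ne_zero (by rintro rfl; simp at hk))])
  have c := hy.pow_right k
  have h2 := hu.to_sup_of_normal_right' h1 (zpowers_le.2 (centralizer_le_normalizer _ (by
    rintro _ ⟨j, rfl⟩; exact (c.zpow_right j).symm)))
  have h3 : IsMulCommutative (zpowers u ⊔ zpowers (y ^ k) : Subgroup E) := by
    rw [zpowers_eq_closure, zpowers_eq_closure, ← Subgroup.closure_union]
    refine isMulCommutative_closure ?_
    rintro _ (rfl | rfl) _ (rfl | rfl)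
    exacts [rfl, c, c.symm, rfl]
  obtain ⟨w, hw⟩ := (h _ h2 h3).exists_generator
  obtain ⟨j, hj⟩ := hu.exists_card_eq
  refine ⟨k, ?_, w, ?_, ?_⟩
  · rw [← Nat.card_zpowers, hj]
    exact ((Nat.Prime.coprime_iff_not_dvd hq.out).2 hk).symm.pow_right _
  · obtain ⟨a, ha⟩ := hw ⟨u, mem_sup_left (mem_zpowers u)⟩
    exact ⟨a, congrArg Subtype.val ha⟩
  · obtain ⟨a, ha⟩ := hw ⟨_, mem_sup_right (mem_zpowers _)⟩
    exact ⟨a, congrArg Subtype.val ha⟩

theorem exists_central {q : ℕ} [hq : Fact q.Prime] (h : q ∣ Nat.card E) (P : Sylow q E) :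
    ∃ x : E, orderOf x = q ∧ (P : Subgroup E) ≤ centralizer {x} := by
  have : Nontrivial P := (nontrivial_iff_ne_bot _).2 (P.ne_bot_of_dvd_card h)
  have := P.isPGroup'.center_nontrivial
  obtain ⟨n, hn, e⟩ := (P.isPGroup'.to_subgroup (center P)).nontrivial_iff_card.1 this
  obtain ⟨x, hx⟩ := exists_prime_orderOf_dvd_card' (G := center P) q (e ▸ dvd_pow_self _ hn.ne')
  exact ⟨x.1.1, by rw [orderOf_coe, orderOf_coe, hx], fun y hy => mem_centralizer_singleton_iff.2
    (congrArg Subtype.val (mem_center_iff.1 x.2 ⟨y, hy⟩))⟩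

variable {p n : ℕ} [hp : Fact p.Prime] {f : E →* Matrix (Fin n) (Fin n) (ZMod p)}

theorem ppd (hf : Function.Injective f)
    (H : ∀ g h : E, g ≠ 1 → h ≠ 1 → Nice g → Nice h → IsConj g h) {r : ℕ} (hr : IsPpd r p n)
    (hd : r ∣ Nat.card E) : ∃ x : E, orderOf x = r ∧ Nice x ∧ Nat.card (centralizer {x}) = r ∧
      ¬ r ^ 2 ∣ Nat.card E ∧ r ≤ n + 1 := by
  have : Fact r.Prime := ⟨hr.1⟩
  obtain ⟨P⟩ : Nonempty (Sylow r E) := inferInstance
  obtain ⟨x, hx, hP⟩ := exists_central hd P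
  have hr' : IsPpd r (Nat.card (ZMod p)) (Fintype.card (Fin n)) := by simpa using hr
  have x1 : x ≠ 1 := by rintro rfl; exact hr.1.one_lt.ne (by simpa using hx)
  have xr : x ^ r = 1 := hx ▸ pow_orderOf_eq_one x
  obtain ⟨y, hy⟩ := (hr'.isCyclic_centralizer hf xr x1).exists_generator
  have hy' : ∀ z ∈ centralizer {x}, z ∈ zpowers (y : E) := fun z hz => by
    obtain ⟨a, ha⟩ := hy ⟨z, hz⟩
    exact ⟨a, congrArg Subtype.val ha⟩
  have nice : ∀ u ∈ centralizer {x}, x ∈ zpowers u → Nice u := fun u hu ⟨j, hj⟩ z hz =>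
    ⟨1, Nat.coprime_one_left _, y, hy' u hu, hy' _ (by
      rw [pow_one, mem_centralizer_singleton_iff, ← hj]; exact (hz.zpow_left j).symm)⟩
  have xx : x ∈ centralizer {x} := mem_centralizer_singleton_iff.2 rfl
  have nx := nice x xx (mem_zpowers x)
  have h1 : Nat.card (centralizer {x}) = r := by
    rw [← orderOf_eq_card_of_forall_mem_zpowers hy, ← orderOf_coe, ← hx]
    exact orderOf_eq_of_isConj (H _ _ (fun e => x1 (by simpa [e] using hy' x xx)) x1
      (nice y y.2 (hy' x xx)) nx)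
  refine ⟨x, hx, nx, h1, fun k => ?_, ?_⟩
  · have h2 := card_dvd_of_le hP
    rw [h1, P.card_eq_multiplicity] at h2
    have h3 := (hr.1.pow_dvd_iff_le_factorization Nat.card_pos.ne').1 k
    have := (Nat.pow_dvd_pow_iff_le_right hr.1.one_lt).1 (h2.trans (pow_one r).symm.dvd)
    omega
  · have h2 := hr'.card_isConj_le hf xr x1
    have h3 : zpowers x = centralizer {x} :=
      eq_of_le_of_card_ge (zpowers_le.2 xx) (by rw [h1, Nat.card_zpowers, hx])
    have h4 : Nat.card {u : centralizer ({x} : Set E) // u ≠ 1} ≤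
        Nat.card {y : E // IsConj x y ∧ y ∈ centralizer ({x} : Set E)} :=
      Nat.card_le_card_of_injective (fun u => ⟨u.1, H _ _ x1 (fun e => u.2 (Subtype.ext e)) nx
        (nice _ u.1.2 (by
          have : Fact (Nat.card (centralizer ({x} : Set E))).Prime := ⟨h1 ▸ hr.1⟩
          obtain ⟨a, ha⟩ := mem_zpowers_of_prime_card rfl u.2 (g' := ⟨x, xx⟩)
          exact ⟨a, congrArg Subtype.val ha⟩)), u.1.2⟩)
        fun a b e => Subtype.ext (Subtype.ext (congrArg Subtype.val e :))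
    have := Fintype.ofFinite (centralizer ({x} : Set E))
    classical
    rw [Nat.card_eq_fintype_card, Fintype.card_subtype_compl, Fintype.card_subtype_eq,
      ← Nat.card_eq_fintype_card, h1] at h4
    rw [Fintype.card_fin] at h2
    omega

omit [Finite E] in
theorem eq_neg_one {t : E} (ht : t * t = 1) (h : ∀ v, f t *ᵥ v = v → v = 0) : f t = -1 := by
  refine Matrix.ext_iff_mulVec.2 fun v => ?_
  rw [neg_mulVec, one_mulVec, eq_neg_iff_add_eq_zero]
  refine h _ ?_
  rw [mulVec_add, mulVec_mulVec, ← map_mul, ht, map_one, one_mulVec, add_comm]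

theorem card_nonzero (W : Submodule (ZMod p) (Fin n → ZMod p)) :
    ((W : Set (Fin n → ZMod p)) \ {0}).ncard = p ^ Module.finrank (ZMod p) W - 1 := by
  rw [Set.ncard_sdiff_singleton_of_mem W.zero_mem, ← BG2.card_submodule_zmod]
  rfl

omit [Finite E] in
theorem index_stab (hf : Function.Injective f)
    (tr : ∀ v w : Fin n → ZMod p, v ≠ 0 → w ≠ 0 → ∃ g, f g *ᵥ v = w) {v : Fin n → ZMod p}
    (hv : v ≠ 0) : letI := MulAction.compHom (Fin n → ZMod p) f
      (MulAction.stabilizer E v).index = p ^ n - 1 := by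
  letI := MulAction.compHom (Fin n → ZMod p) f
  have := card_nonzero (⊤ : Submodule (ZMod p) (Fin n → ZMod p))
  rw [finrank_top, Module.finrank_fin_fun] at this
  rw [MulAction.index_stabilizer, ← this]
  congr 1
  ext w
  exact ⟨fun ⟨g, e⟩ => ⟨trivial, fun k => hv (by
    have : g • v = g • (0 : Fin n → ZMod p) := e.trans (k.trans (mulVec_zero (f g)).symm)
    exact smul_left_cancel g this)⟩, fun k => tr v w hv k.2⟩

theorem exists_neg_one (hf : Function.Injective f)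
    (tr : ∀ v w : Fin n → ZMod p, v ≠ 0 → w ≠ 0 → ∃ g, f g *ᵥ v = w) (h2 : 2 ∣ Nat.card E) {a : ℕ}
    (ha : 2 ^ a ∣ p ^ n - 1) (ha' : ∀ k, 0 < k → k < n → ¬ 2 ^ a ∣ p ^ k - 1) :
    ∃ z : E, orderOf z = 2 ∧ f z = -1 := by
  letI := MulAction.compHom (Fin n → ZMod p) f
  obtain ⟨P⟩ : Nonempty (Sylow 2 E) := inferInstance
  obtain ⟨z, hz, hP⟩ := exists_central h2 P
  have zz : z * z = 1 := by rw [← pow_two, ← hz, pow_orderOf_eq_one]
  refine ⟨z, hz, eq_neg_one zz fun v hv => ?_⟩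
  let W := LinearMap.ker (Matrix.toLin' (f z - 1))
  have hW : ∀ v, v ∈ W ↔ f z *ᵥ v = v := fun v => by simp [W, sub_mulVec, sub_eq_zero]
  by_contra v0
  refine ha' (Module.finrank (ZMod p) W) (Module.finrank_pos_iff_exists_ne_zero.2
    ⟨⟨v, (hW v).2 hv⟩, fun e => v0 (congrArg Subtype.val e)⟩) ?_ ?_
  · refine (Submodule.finrank_lt fun e => ?_).trans_eq (Module.finrank_fin_fun _)
    have : f z = f 1 := Matrix.ext_iff_mulVec.2 fun w => by
      rw [(hW w).1 (e ▸ trivial), map_one, one_mulVec]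
    rw [hf this] at hz
    simp at hz
  rw [← card_nonzero]
  refine CF.Classical.dvd_ncard_of_orbits (H := P) _ (Set.toFinite _) (fun g w hw => (Set.mem_sdiff _).2 ⟨?_, ?_⟩) _
    fun w hw => ?_
  · refine (hW _).2 ?_
    change f z *ᵥ f g *ᵥ w = f g *ᵥ w
    rw [mulVec_mulVec, ← map_mul, ← mem_centralizer_singleton_iff.1 (hP g.2), map_mul,
      ← mulVec_mulVec, (hW w).1 hw.1]
  · intro k
    have : g • w = g • (0 : Fin n → ZMod p) := k.trans (mulVec_zero (f g)).symm
    exact hw.2 (smul_left_cancel g this)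
  · rw [← MulAction.index_stabilizer]
    have h1 := index_stab hf tr (show w ≠ 0 from hw.2)
    have h3 : (MulAction.stabilizer P w).index = (MulAction.stabilizer E w).relIndex P := rfl
    rw [h3, ← inf_relIndex_right]
    refine Nat.Coprime.dvd_of_dvd_mul_right (n := (P : Subgroup E).index)
      (((Nat.Prime.coprime_iff_not_dvd Nat.prime_two).2 P.not_dvd_index).pow_left a) ?_
    rw [relIndex_mul_index inf_le_right]
    exact (h1 ▸ ha).trans (index_dvd_of_le inf_le_left)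

theorem card_dvd_GL (hf : Function.Injective f) :
    Nat.card E ∣ ∏ i : Fin n, (p ^ n - p ^ (i : ℕ)) := by
  have := card_dvd_of_injective f.toHomUnits fun a b e => hf (congrArg Units.val e)
  rwa [Matrix.card_GL_field, ZMod.card] at this

theorem exists_nice_sq (hf : Function.Injective f) {m : ℕ} (hc : Nat.card E = (p ^ n - 1) * m ^ 2)
    {s : ℕ} (hs : s.Prime) (h2 : s ∣ p ^ n - 1) (h4 : ¬ s ^ 2 ∣ p ^ n - 1)
    (h5 : ¬ s ^ 3 ∣ ∏ i : Fin n, (p ^ n - p ^ (i : ℕ))) : ∃ y : E, orderOf y = s ∧ Nice y := by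
  have : Fact s.Prime := ⟨hs⟩
  obtain ⟨y, hy⟩ := exists_prime_orderOf_dvd_card' (G := E) s (h2.trans (hc ▸ dvd_mul_right _ _))
  have h6 : ¬ s ^ 2 ∣ Nat.card E := fun k => by
    by_cases hm : s ∣ m
    · exact h5 (.trans (by rw [hc, pow_succ']; exact mul_dvd_mul h2 (pow_dvd_pow_of_dvd hm 2))
        (card_dvd_GL hf))
    · exact h4 ((((Nat.Prime.coprime_iff_not_dvd hs).2 hm).pow 2 2).dvd_of_dvd_mul_right (hc ▸ k))
  refine ⟨y, hy, nice_of_cyc (q := s) (.of_card (n := 1) (by simp [hy])) fun A hA _ => ?_⟩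
  obtain ⟨j, hj⟩ := hA.exists_card_eq
  refine isCyclic_of_card_dvd_prime (p := s) ?_
  rw [hj]
  refine (pow_dvd_pow s ?_).trans (pow_one s).dvd
  by_contra! k
  exact h6 ((pow_dvd_pow s k).trans (hj ▸ card_subgroup_dvd_card A))

theorem mk_ppd (n0 : n ≠ 0) {r : ℕ} (hr : r.Prime) (h1 : r ∣ p ^ n - 1)
    (h2 : ∀ i, 1 ≤ i → i < n → ¬ r ∣ p ^ i - 1) : IsPpd r p n :=
  ⟨hr, fun k => hr.one_lt.ne' (Nat.dvd_one.1
      ((Nat.dvd_sub_iff_right (Nat.one_le_pow _ _ hp.out.pos) (dvd_pow k n0)).1 h1)),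
    fun d h4 h5 k => h2 d h4 h5 ((Nat.modEq_iff_dvd' (Nat.one_le_pow _ _ hp.out.pos)).1 k.symm)⟩

theorem lin (hp2 : p ≠ 2) (hf : Function.Injective f)
    (tr : ∀ v w : Fin n → ZMod p, v ≠ 0 → w ≠ 0 → ∃ g, f g *ᵥ v = w) {m : ℕ}
    (hc : Nat.card E = (p ^ n - 1) * m ^ 2)
    (H : ∀ g h : E, g ≠ 1 → h ≠ 1 → Nice g → Nice h → IsConj g h) : p ^ n ≤ 3 := by
  classical
  by_contra! h3
  have hd : p ^ n - 1 ∣ Nat.card E := hc ▸ dvd_mul_right _ _
  have hG := card_dvd_GL hf
  have po := hp.out.odd_of_ne_two hp2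
  have cz : ∀ {z : E}, f z = -1 → ∀ x, z ∈ centralizer {x} := fun e x =>
    mem_centralizer_singleton_iff.2 (hf (by simp [e]))
  have neg : ∀ {a r : ℕ}, 2 ^ a ∣ p ^ n - 1 → (∀ k, 0 < k → k < n → ¬ 2 ^ a ∣ p ^ k - 1) →
      IsPpd r p n → r ∣ p ^ n - 1 → r ≠ 2 → False := fun h1 h2 hr h4 h5 => by
    obtain ⟨z, hz, e⟩ := exists_neg_one hf tr ((Nat.Odd.sub_odd po.pow odd_one).two_dvd.trans hd)
      h1 h2
    obtain ⟨x, -, -, hx, -⟩ := ppd hf H hr (h4.trans hd)
    have := orderOf_dvd_natCard (⟨z, cz e x⟩ : centralizer {x})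
    rw [orderOf_mk, hz, hx] at this
    exact h5 ((Nat.prime_dvd_prime_iff_eq Nat.prime_two hr.1).1 this).symm
  have two : ∀ {s : ℕ}, s.Prime → s ≠ 7 → IsPpd 7 p n → 7 ∣ p ^ n - 1 → s ∣ p ^ n - 1 →
      ¬ s ^ 2 ∣ p ^ n - 1 → ¬ s ^ 3 ∣ ∏ i : Fin n, (p ^ n - p ^ (i : ℕ)) → False :=
    fun {s} hs s7 hr h1 h2 h4 h5 => by
    obtain ⟨x, hx, nx, -⟩ := ppd hf H hr (h1.trans hd)
    obtain ⟨y, hy, ny⟩ := exists_nice_sq hf hc hs h2 h4 h5
    have := orderOf_eq_of_isConj (H x y (by rintro rfl; simp at hx)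
      (by rintro rfl; exact hs.one_lt.ne (by simpa using hy)) nx ny)
    exact s7 (by rw [← hy, ← this, hx])
  have mk : ∀ {r : ℕ}, r.Prime → r ∣ p ^ n - 1 → (∀ i, 1 ≤ i → i < n → ¬ r ∣ p ^ i - 1) →
      IsPpd r p n := mk_ppd (by rintro rfl; simp at h3)
  rcases n with _ | _ | n
  · simp at h3
  · have : IsCyclic E := isCyclic_of_injective_ringHom (detMonoidHom.comp f) fun a b e => hf (by
      ext i j
      rw [Fin.fin_one_eq_zero i, Fin.fin_one_eq_zero j]
      simpa using e)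
    obtain ⟨w, hw⟩ := this.exists_generator
    have nice : ∀ g : E, Nice g := fun g y _ => ⟨1, Nat.coprime_one_left _, w, hw _, hw _⟩
    have := Fintype.ofFinite E
    have h4 := Nat.le_of_dvd Nat.card_pos hd
    have h5 : ∀ a b : E, a ≠ 1 → b ≠ 1 → a = b := fun a b ha hb => by
      obtain ⟨g, rfl⟩ := isConj_iff.1 (H a b ha hb (nice a) (nice b))
      rw [IsCyclic.isMulCommutative.1.1 g a, mul_inv_cancel_right]
    obtain ⟨a, b, c, ab, ac, bc⟩ := (Fintype.two_lt_card_iff (α := E)).1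
      (by rw [← Nat.card_eq_fintype_card]; omega)
    by_cases a1 : a = 1
    · exact bc (h5 b c (a1 ▸ ab.symm) (a1 ▸ ac.symm))
    by_cases b1 : b = 1
    exacts [ac (h5 a c a1 (b1 ▸ bc.symm)), ab (h5 a b a1 b1)]
  have hp3 : 3 ≤ p := by have := hp.out.two_le; omega
  rcases eq_or_ne n 0 with rfl | n0
  · obtain ⟨b, rfl⟩ := po
    have e1 : (2 * b + 1) ^ (0 + 1 + 1) - 1 = 2 * b * (2 * b + 1 + 1) :=
      Nat.sub_eq_of_eq_add (by ring)
    have b0 : b ≠ 0 := by omega
    have g1 : 2 ^ ((2 * b).factorization 2 + 1) ∣ (2 * b + 1) ^ (0 + 1 + 1) - 1 := by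
      rw [e1, pow_succ]
      exact mul_dvd_mul (Nat.ordProj_dvd _ _) (by omega)
    have g2 : ∀ k, 0 < k → k < 0 + 1 + 1 →
        ¬ 2 ^ ((2 * b).factorization 2 + 1) ∣ (2 * b + 1) ^ k - 1 := fun k k0 k1 => by
      obtain rfl : k = 1 := by omega
      simpa using Nat.pow_succ_factorization_not_dvd (by omega : 2 * b ≠ 0) Nat.prime_two
    have h4 := Nat.eq_prime_pow_of_unique_prime_dvd (n := 2 * b + 1 + 1) (p := 2) (by omega)
      fun {r} hr h1 => by
        by_contra k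
        refine neg g1 g2 (mk hr (e1 ▸ h1.mul_left _) fun i i0 i1 k' => k ?_) (e1 ▸ h1.mul_left _) k
        obtain rfl : i = 1 := by omega
        rw [pow_one, Nat.add_sub_cancel] at k'
        exact (Nat.prime_dvd_prime_iff_eq hr Nat.prime_two).1 ((Nat.dvd_add_right k').1 h1)
    have h5 : 4 ∣ 2 * b + 1 + 1 := by
      generalize (2 * b + 1 + 1).primeFactorsList.length = s at h4
      rcases s with _ | _ | s
      · omega
      · omega
      · rw [h4]; exact pow_dvd_pow 2 (by omega : 2 ≤ s + 1 + 1)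
    have mo : ¬ 2 ∣ m := fun k => by
      rw [hc, Fin.prod_univ_two] at hG
      have h6 := (pow_dvd_pow_of_dvd k 2).trans (Nat.dvd_of_mul_dvd_mul_left (by omega) hG)
      rw [show (2 * b + 1) ^ (0 + 1 + 1) - (2 * b + 1) ^ ((1 : Fin 2) : ℕ) = 2 * ((2 * b + 1) * b)
        from Nat.sub_eq_of_eq_add (by simp; ring)] at h6
      have : 2 ∣ (2 * b + 1) * b := Nat.dvd_of_mul_dvd_mul_left two_pos h6
      rcases (Nat.prime_two.dvd_mul).1 this with k | k <;> omega
    have inv : ∀ t : E, t * t = 1 → t ≠ 1 → f t = -1 := fun t ht t1 => eq_neg_one ht fun v hv => by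
      letI := MulAction.compHom (Fin (0 + 1 + 1) → ZMod (2 * b + 1)) f
      by_contra v0
      have h6 := (MulAction.stabilizer E v).index_mul_card
      rw [index_stab hf tr v0, hc] at h6
      have h7 := (MulAction.stabilizer E v).orderOf_dvd_natCard (x := t) hv
      rw [orderOf_eq_prime (p := 2) (by rw [pow_two, ht]) t1,
        Nat.eq_of_mul_eq_mul_left (by omega) h6] at h7
      exact mo (Nat.prime_two.dvd_of_dvd_pow h7)
    have nice : ∀ u : E, IsPGroup 2 (zpowers u) → Nice u := fun u hu => nice_of_cyc hu fun A hA _ =>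
      CF.Solv.isCyclic_of_abelian_of_omega hA fun x _ y _ hx hy x1 => by
        by_cases y1 : y = 1
        · simp [y1]
        rw [hf ((inv y (by rwa [← pow_two]) y1).trans (inv x (by rwa [← pow_two]) x1).symm)]
        exact mem_zpowers x
    obtain ⟨P, hP⟩ := Sylow.exists_subgroup_card_pow_prime 2 (G := E) (n := 2)
      (.trans (e1 ▸ h5.mul_left _) hd)
    have hP' : ∀ u ∈ P, Nice u := fun u hu => nice u ((IsPGroup.of_card hP).to_le (zpowers_le.2 hu))
    obtain ⟨z, hz⟩ := exists_prime_orderOf_dvd_card' (G := P) 2 (by rw [hP]; norm_num)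
    have z1 : (z : E) ≠ 1 := fun e => by rw [show z = 1 from Subtype.ext e] at hz; simp at hz
    have zc := cz (inv z (by rw [← pow_two, ← hz, ← coe_pow, pow_orderOf_eq_one]; rfl) z1)
    have : (⊤ : Subgroup P) ≤ zpowers z := fun u _ => by
      by_cases u1 : u = 1
      · simp [u1]
      obtain ⟨g, hg⟩ := isConj_iff.1 (H z u z1 (fun e => u1 (Subtype.ext e)) (hP' _ z.2) (hP' _ u.2))
      rw [← mem_centralizer_singleton_iff.1 (zc g), mul_inv_cancel_right] at hg
      rw [← Subtype.ext hg]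
      exact mem_zpowers z
    have := card_le_of_le this
    rw [card_top, hP, Nat.card_zpowers, hz] at this
    omega
  by_cases c3 : p = 3 ∧ (n + 1 + 1 = 4 ∨ n + 1 + 1 = 6)
  · obtain ⟨rfl, k | k⟩ := c3
    · obtain rfl : n = 2 := by omega
      exact neg (a := 4) (r := 5) (by norm_num) (fun k _ _ => by interval_cases k <;> norm_num)
        (mk (by norm_num) (by norm_num) fun k _ _ => by interval_cases k <;> norm_num)
        (by norm_num) (by norm_num)
    · obtain rfl : n = 4 := by omega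
      exact two (s := 13) (by norm_num) (by norm_num)
        (mk (by norm_num) (by norm_num) fun k _ _ => by interval_cases k <;> norm_num)
        (by norm_num) (by norm_num) (by norm_num) (by decide)
  by_cases c4 : p = 5 ∧ n + 1 + 1 = 6
  · obtain ⟨rfl, k⟩ := c4
    obtain rfl : n = 4 := by omega
    exact two (s := 31) (by norm_num) (by norm_num)
      (mk (by norm_num) (by norm_num) fun k _ _ => by interval_cases k <;> norm_num)
      (by norm_num) (by norm_num) (by norm_num) (by decide)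
  obtain ⟨r, hr, h1, h2, h4⟩ := Cfsg.Agent.S3430.result p (n + 1 + 1) hp.out.two_le (by omega)
    (by omega) (fun k => hp2 k.1) c3 c4
  obtain ⟨x, -, -, -, h5, h6⟩ := ppd hf H (mk hr h1 h2) (h1.trans hd)
  exact h4.elim (by omega) fun k => h5 (k.trans hd)

theorem Nice.inv {g : E} (h : Nice g) : Nice g⁻¹ := fun y hy => by
  obtain ⟨k, h1, w, h2, h3⟩ := h y (by simpa using hy.inv_left)
  exact ⟨k, by rwa [orderOf_inv], w, inv_mem h2, h3⟩

theorem lin' (hf : Function.Injective f) (hpE : ¬ p ∣ Nat.card E)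
    (tr : ∀ v w : Fin n → ZMod p, v ≠ 0 → w ≠ 0 → ∃ g, f g *ᵥ v = w) {m : ℕ}
    (hc : Nat.card E = (p ^ n - 1) * m ^ 2)
    (H : ∀ g h : E, g ≠ 1 → h ≠ 1 → Nice g → Nice h → IsConj g h) : p ^ n ≤ 3 := by
  rcases ne_or_eq p 2 with hp2 | rfl
  · exact lin hp2 hf tr hc H
  by_contra! h3
  have n2 : 2 ≤ n := by
    rcases n with _ | _ | n
    · simp at h3
    · simp at h3
    · omega
  have key : ∀ {r : ℕ}, r.Prime → ¬ ∃ x : E, orderOf x = r ∧ Nice x := fun hr ⟨x, h1, h2⟩ => by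
    have x1 : x ≠ 1 := by rintro rfl; exact hr.one_lt.ne (by simpa using h1)
    exact x1 (CF.Char.eq_one_of_isConj_inv_of_odd (Nat.odd_iff.2 (by omega))
      (H _ _ x1 (inv_ne_one.2 x1) h2 h2.inv))
  rcases eq_or_ne n 6 with rfl | n6
  · exact key (r := 7) (by norm_num) (exists_nice_sq hf hc (by norm_num) (by norm_num)
      (by norm_num) (by decide))
  obtain ⟨r, hr, h1, h2⟩ := CF.Fgs2.zsigmondy le_rfl n2 (fun k => n6 k.2) (by
    rintro ⟨-, _ | _ | k, e⟩ <;> omega)
  obtain ⟨x, h4, h5, -⟩ := ppd hf H (mk_ppd (by omega) hr h1 h2) (h1.trans (hc ▸ dvd_mul_right _ _))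
  exact key hr ⟨x, h4, h5⟩

/-- a `p'`-group of automorphisms of an abelian `p`-group, transitive on the nonidentity elements -/
theorem aut {A : Type*} [Group A] [Finite A] [IsMulCommutative A] (hA : IsPGroup p A)
    (φ : E →* MulAut A) (hφ : Function.Injective φ) (hpE : ¬ p ∣ Nat.card E)
    (tr : ∀ a b : A, a ≠ 1 → b ≠ 1 → ∃ g, φ g a = b) {m : ℕ}
    (hc : Nat.card E = (Nat.card A - 1) * m ^ 2)
    (H : ∀ g h : E, g ≠ 1 → h ≠ 1 → Nice g → Nice h → IsConj g h) : Nat.card A ≤ 3 := by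
  rcases subsingleton_or_nontrivial A with k | k
  · simp
  obtain ⟨j, j0, hj⟩ := hA.nontrivial_iff_card.1 k
  obtain ⟨a, ha⟩ := exists_prime_orderOf_dvd_card' (G := A) p (hj ▸ dvd_pow_self _ j0.ne')
  have a1 : a ≠ 1 := by rintro rfl; exact hp.out.one_lt.ne (by simpa using ha)
  obtain ⟨n, e, f, h1, h2, h3⟩ := BG2.exists_zmod_rep (p := p) (fun b => by
    by_cases b1 : b = 1
    · simp [b1]
    obtain ⟨g, rfl⟩ := tr a b a1 b1
    rw [← map_pow, ← ha, pow_orderOf_eq_one, map_one]) φ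
  have e1 : e 1 = 0 := by simpa using h2 1 1
  rw [h1] at hc ⊢
  refine lin' (f := f) (fun g h k => hφ (MulEquiv.ext fun x => e.injective (by rw [h3, h3, k])))
    hpE (fun v w hv hw => ?_) hc H
  obtain ⟨v, rfl⟩ := e.surjective v
  obtain ⟨w, rfl⟩ := e.surjective w
  obtain ⟨g, hg⟩ := tr v w (by rintro rfl; exact hv e1) (by rintro rfl; exact hw e1)
  exact ⟨g, by rw [← h3, hg]⟩

end CF.Crit.Good
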