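import Cfsg.Agent.Crit.K3a

/-!
# Character-theoretic core: few characters over a family indexed by `Irr(A)`
-/

set_option autoImplicit false

namespace CF.Crit.Good
open Subgroup Cfsg CF.Char CF.Clifford
open scoped ComplexConjugate

theorem trans_of_irr {T A : Type*} [Group T] [Fintype T] [Group A] [Finite A]
    (hA : ∀ a b : A, a * b = b * a) (φ : T →* MulAut A)
    (h : ∀ ζ ξ : IrrCharacter A, (ζ : A → ℂ) ≠ (fun _ => 1) → (ξ : A → ℂ) ≠ (fun _ => 1) →
      ∃ t, ∀ a, (ζ : A → ℂ) (φ t a) = (ξ : A → ℂ) a) {a b : A} (ha : a ≠ 1) (hb : b ≠ 1) :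
    ∃ t, φ t a = b := by
  classical
  by_contra! k
  let o : IrrCharacter A := ⟨fun _ => 1, irr_one⟩
  have h1 : ∀ {c : A}, c ≠ 1 → ∑ ζ ∈ Finset.univ.erase o, (ζ : A → ℂ) c = -1 := fun {c} hc => by
    have := sum_irr_one_mul_of_ne hc
    simp only [irr_one_eq_one_of_comm hA (Subtype.property _), one_mul] at this
    rw [← Finset.add_sum_erase _ _ (Finset.mem_univ o)] at this
    exact eq_neg_of_add_eq_zero_right this
  obtain ⟨ζ, hζ, -⟩ := Finset.exists_ne_zero_of_sum_ne_zero ((h1 ha).trans_ne (by simp))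
  have ne : ∀ {ξ : IrrCharacter A}, ξ ∈ Finset.univ.erase o → (ξ : A → ℂ) ≠ fun _ => 1 :=
    fun hξ e => (Finset.mem_erase.1 hξ).1 (Subtype.ext e)
  set s := ∑ t, (ζ : A → ℂ) (φ t a) with hs
  have h2 : ∀ ξ ∈ Finset.univ.erase o, ∑ t, (ξ : A → ℂ) (φ t a) = s := fun ξ hξ => by
    obtain ⟨g, hg⟩ := h ζ ξ (ne hζ) (ne hξ)
    exact Fintype.sum_equiv (Equiv.mulLeft g) _ _ fun t => by simp [← hg]
  have h3 : ((Finset.univ.erase o).card : ℂ) * s = -Fintype.card T := by
    rw [← nsmul_eq_mul, ← Finset.sum_const, ← Finset.sum_congr rfl h2, Finset.sum_comm,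
      Finset.sum_congr rfl fun t _ => h1 (by simpa using ha)]
    simp
  have h4 : s = Fintype.card T := by
    have h5 : ∑ t, ∑ ξ : IrrCharacter A, (ξ : A → ℂ) (φ t a) * conj ((ξ : A → ℂ) b) = 0 :=
      Finset.sum_eq_zero fun t _ => sum_irr_mul_conj_of_not_isConj fun e => by
        obtain ⟨c, hc⟩ := isConj_iff.1 e
        exact k t (by rw [← hc, hA c, mul_inv_cancel_right])
    rw [Finset.sum_comm, ← Finset.add_sum_erase _ _ (Finset.mem_univ o),
      Finset.sum_congr (s₁ := Finset.univ.erase o) rfl fun ξ hξ => by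
        rw [← Finset.sum_mul, h2 ξ hξ], ← Finset.mul_sum (Finset.univ.erase o), ← map_sum,
      h1 hb] at h5
    simp only [o, map_one, mul_one, Finset.sum_const, Finset.card_univ, nsmul_eq_mul, map_neg,
      mul_neg] at h5
    exact (add_neg_eq_zero.1 h5).symm
  rw [h4, eq_neg_iff_add_eq_zero, ← add_one_mul] at h3
  norm_cast at h3
  simp at h3

theorem core {X C A : Type*} [Group X] [Fintype X] [Group C] [Fintype C] [Group A] [Finite A]
    {p : ℕ} [Fact p.Prime] (hA : ∀ a b : A, a * b = b * a) (hpA : IsPGroup p A)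
    (E : NormalEmb C X) (F : NormalEmb A X) (hk : F.c.ker = E.ι.range) (tw : (A → ℂ) → C → ℂ)
    (h1 : ∀ ζ, IsIrrCharacter A ζ → IsIrrCharacter C (tw ζ)) (h2 : Function.Injective tw)
    (h3 : ∀ g ∈ E.inertia (tw fun _ => 1), ∀ ζ, E.cj (tw ζ) g = tw (F.cj ζ g))
    (h4 : ∀ ζ ξ g, IsIrrCharacter A ζ → IsIrrCharacter A ξ → E.cj (tw ζ) g = tw ξ →
      g ∈ E.inertia (tw fun _ => 1))
    (h5 : ¬ p ∣ E.ι.range.relIndex (E.inertia (tw fun _ => 1)))
    (h6 : Nat.card (ovr E (tw fun _ => 1)) ≤ 2) {χ₀ : IrrCharacter X}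
    (h7 : ∀ ζ, IsIrrCharacter A ζ → ζ ≠ (fun _ => 1) → ∀ χ ∈ ovr E (tw ζ), χ = χ₀) :
    Nat.card A ≤ 3 := by
  classical
  set θ := tw fun _ => 1 with hθ'
  have hθ : IsIrrCharacter C θ := h1 _ irr_one
  set T := E.inertia θ
  have hT : ∀ n, E.ι n ∈ T := E.ι_mem_inertia (irr_isClassFunction hθ)
  let E' := E.restrict T hT
  let ψ : T →* MulAut A := F.c.comp T.subtype
  have hk' : ψ.rangeRestrict.ker = E'.ι.range := by
    rw [MonoidHom.ker_rangeRestrict]
    ext t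
    exact ⟨fun h => (hk.le h).imp fun n e => Subtype.ext e,
      fun ⟨n, e⟩ => hk.ge ⟨n, congrArg Subtype.val e⟩⟩
  have hQ : Nat.card ψ.range = E.ι.range.relIndex T := by
    rw [← index_ker, ← MonoidHom.ker_rangeRestrict, hk', ← E.index_restrict T hT]
    rfl
  have ov : ∀ {ζ}, IsIrrCharacter A ζ → ζ ≠ (fun _ => 1) →
      classInner (fun n => (χ₀ : X → ℂ) (E.ι n)) (tw ζ) ≠ 0 := fun {ζ} a b => by
    obtain ⟨χ, c, d⟩ := exists_irr_over E.ι E.inj (h1 ζ a)
    rw [← h7 ζ a b ⟨χ, c⟩ d]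
    exact d
  have tr : ∀ ζ ξ : IrrCharacter A, (ζ : A → ℂ) ≠ (fun _ => 1) → (ξ : A → ℂ) ≠ (fun _ => 1) →
      ∃ t : T, F.cj ζ t = ξ := fun ζ ξ a b => by
    obtain ⟨g, hg⟩ := E.exists_cj_eq χ₀.2 (h1 _ ζ.2) (h1 _ ξ.2) (ov ζ.2 a) (ov ξ.2 b)
    have := h4 _ _ g ζ.2 ξ.2 hg
    exact ⟨⟨g, this⟩, h2 ((h3 g this _).symm.trans hg)⟩
  let o : IrrCharacter A := ⟨fun _ => 1, irr_one⟩
  have hcard : (Finset.univ.erase o).card = Nat.card A - 1 := by
    rw [Finset.card_erase_of_mem (Finset.mem_univ _), Finset.card_univ, ← Nat.card_eq_fintype_card,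
      card_irr_of_comm hA]
  by_contra! h3'
  obtain ⟨ζ, hζ⟩ : (Finset.univ.erase o).Nonempty := Finset.card_pos.1 (by omega)
  have ζ1 : (ζ : A → ℂ) ≠ fun _ => 1 := fun e => (Finset.mem_erase.1 hζ).1 (Subtype.ext e)
  have hη := h1 _ ζ.2
  have hI : E.inertia (tw ζ) ≤ T := fun g hg => h4 _ _ g ζ.2 ζ.2 hg
  obtain ⟨m, hm⟩ := inner_char_eq_nat (ind_isCharacter E.ι (irr_isCharacter hη))
    (irr_isCharacter χ₀.2)
  have i1 : E.ι.range.relIndex (E.inertia (tw ζ)) = m ^ 2 := by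
    have e1 := eq_smul_of_unique_constituent (ind_isClassFunction E.ι (tw ζ)) χ₀.2 fun χ a b =>
      congrArg Subtype.val (h7 _ ζ.2 ζ1 ⟨χ, a⟩ (by
        rw [inner_ind_left _ _ (irr_isClassFunction a)] at b
        exact inner_irr_ne_zero_comm.1 b))
    have e2 := E.inner_ind_self' hη
    rw [e1, hm, Char.inner_smul_left, Char.inner_smul_right, inner_irr_self χ₀.2] at e2
    exact_mod_cast (by simpa [pow_two] using e2.symm : ((_ : ℕ) : ℂ) = (m : ℂ) ^ 2)
  have i2 : (E.inertia (tw ζ)).relIndex T = Nat.card A - 1 := by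
    let act : T → A → ℂ := fun t => F.cj ζ t
    have e1 : (Finset.univ.image fun t : T => E'.cj (tw ζ) t) =
        (Finset.univ.erase o).image fun ξ : IrrCharacter A => tw ξ := by
      ext f
      simp only [Finset.mem_image, Finset.mem_univ, true_and, Finset.mem_erase, and_true]
      constructor
      · rintro ⟨t, rfl⟩
        refine ⟨⟨F.cj ζ t, F.cj_irr ζ.2 t⟩, fun e => ζ1 ?_, (h3 t t.2 _).symm⟩
        exact F.cj_injective t (congrArg Subtype.val e)
      · rintro ⟨ξ, a, rfl⟩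
        obtain ⟨t, ht⟩ := tr ζ ξ ζ1 fun e => a (Subtype.ext e)
        exact ⟨t, (h3 t t.2 _).trans (by rw [ht])⟩
    have e2 := E'.card_image_cj (tw ζ)
    rw [E.inertia_comap E' T.subtype fun _ => rfl] at e2
    rw [← hcard, ← Finset.card_image_of_injective _ (h2.comp Subtype.val_injective)]
    exact e2.symm.trans (congrArg _ e1)
  have : IsMulCommutative A := ⟨⟨hA⟩⟩
  refine h3'.not_ge (aut hpA ψ.range.subtype ψ.range.subtype_injective (hQ ▸ h5)
    (fun a b ha hb => ?_) (m := m) ?_ fun g h g1 h1' ng nh => ?_)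
  · obtain ⟨t, ht⟩ := trans_of_irr hA ψ (fun ζ ξ c d => (tr ζ ξ c d).imp fun t e => congrFun e)
      ha hb
    exact ⟨⟨_, t, rfl⟩, ht⟩
  · rw [hQ, ← i1, ← i2, mul_comm,
      relIndex_mul_relIndex _ _ _ (E.range_le_inertia (irr_isClassFunction hη)) hI]
  by_contra k
  have e1 := card_le hθ (E.invariant_restrict_inertia hT) ψ.rangeRestrict_surjective hk' ![1, g, h]
    (fun i => by fin_cases i; exacts [nice_one, ng, nh]) fun i j e => by
      fin_cases i <;> fin_cases j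
      exacts [rfl, (g1 (isConj_one_right.1 e)).elim, (h1' (isConj_one_right.1 e)).elim,
        (g1 (isConj_one_left.1 e)).elim, rfl, (k e).elim, (h1' (isConj_one_left.1 e)).elim,
        (k e.symm).elim, rfl]
  have e2 : Nat.card (ovr E' θ) ≤ Nat.card (ovr E θ) :=
    Nat.card_le_card_of_injective (fun χ => ⟨⟨ind T.subtype χ.1, E.corr_irr E' T.subtype
      T.subtype_injective (fun _ => rfl) hθ T.range_subtype.ge χ.1.2 χ.2⟩, by
        have := E.corr_inner E' T.subtype T.subtype_injective (fun _ => rfl) hθ T.range_subtype.ge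
          χ.1.2 χ.2
        exact this.trans_ne χ.2⟩) fun a b e => Subtype.ext (Subtype.ext (E.corr_inj E' T.subtype
          T.subtype_injective (fun _ => rfl) hθ T.range_subtype.ge a.1.2 b.1.2 a.2 b.2
          (congrArg (fun x => x.1.1) e)))
  exact absurd (e1.trans (e2.trans h6)) (by simp)

end CF.Crit.Good
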