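import Cfsg.Agent.Crit.K3b
import Cfsg.Agent.Block.CoverRed
import Cfsg.Agent.Block.Abel
import Cfsg.Agent.BlockB.Central
import Cfsg.Agent.Coprime.Glauberman
import Cfsg.Agent.S4648

/-!
# Blocks with at most three characters and a normal abelian defect group
-/

set_option autoImplicit false

namespace CF.Crit.Good
open Subgroup Cfsg CF.Char CF.Clifford CF.BlockB CF.Block
open scoped Pointwise

variable {X : Type*} [Group X] [Finite X] {p : ℕ} {M : Ideal AlgInt} {A : Subgroup X}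
  [hn : A.Normal] {c : Set (IrrCharacter X)}

theorem isConj_mul_of_reg (hp : p.Prime) (hA : IsPGroup p A) {a g : X} (ha : a ∈ A)
    (hg : ¬ p ∣ orderOf g) (h : ¬ p ∣ orderOf (a * g)) : IsConj g (a * g) := by
  have := Fact.mk hp
  obtain ⟨n, e⟩ := hA.exists_card_eq
  have cop : ∀ {x : X}, ¬ p ∣ orderOf x → (Nat.card (zpowers x)).Coprime (Nat.card A) :=
    fun hx => by
      rw [e, Nat.card_zpowers]
      exact ((Nat.Prime.coprime_iff_not_dvd hp).2 hx).symm.pow_right n
  obtain ⟨k, hk, e⟩ := CF.Coprime.exists_conj_le_of_le_sup (zpowers g) (zpowers (a * g)) A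
    (le_normalizer_of_normal' _ _)
    (zpowers_le.2 (mul_mem (mem_sup_left ha) (mem_sup_right (mem_zpowers g)))) (cop h)
    (.inl (Group.isSolvable_of_comm IsCyclic.isMulCommutative.1.1))
  have h1 : k * (a * g) * k⁻¹ ∈ zpowers g := e (smul_mem_pointwise_smul _ _ _ (mem_zpowers _))
  have h2 : k * (a * g) * k⁻¹ * g⁻¹ ∈ zpowers g ⊓ A := mem_inf.2
    ⟨mul_mem h1 (inv_mem (mem_zpowers g)), by
    simpa [mul_assoc] using mul_mem hk (mul_mem ha (hn.conj_mem _ (inv_mem hk) g))⟩
  rw [(disjoint_of_coprime_natCard (cop hg)).eq_bot, mem_bot, mul_inv_eq_one] at h2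
  exact (isConj_iff.2 ⟨k, h2⟩).symm

theorem rank_le (hM : IsPModular p M) (hc : IsPBlock M c) (hA : IsPGroup p A) :
    blockRank p c ≤ {χ | χ ∈ c ∧ A ≤ charKer (χ : X → ℂ)}.ncard := by
  classical
  have := Fintype.ofFinite X
  set S := {χ | χ ∈ c ∧ A ≤ charKer (χ : X → ℂ)}
  let L : LinearMap.range (regProj p c) →ₗ[ℂ] (S → ℂ) :=
    { toFun := fun φ χ => classInner φ.1 (χ.1 : X → ℂ)
      map_add' := fun a b => funext fun χ => Char.inner_add_left _ _ _
      map_smul' := fun a b => funext fun χ => Char.inner_smul_left _ _ _ }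
  rw [blockRank_eq_finrank, ← Nat.card_coe_set_eq, Nat.card_eq_fintype_card,
    ← Module.finrank_fintype_fun_eq_card ℂ]
  refine LinearMap.finrank_le_finrank_of_injective (f := L)
    ((injective_iff_map_eq_zero L).2 fun φ hφ => Subtype.ext (funext fun g => ?_))
  obtain ⟨h1, h2⟩ := (mem_range_regProj_iff hM (nrm_eSet_le_one hM hc)).1 φ.2
  by_cases hg : p ∣ orderOf g
  · exact h2 g hg
  have h3 : ∑ a : A, φ.1 (a * g) = 0 := by
    rw [h1.eq_sum]
    simp only [Finset.sum_apply, Pi.smul_apply, smul_eq_mul]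
    rw [Finset.sum_comm]
    refine Finset.sum_eq_zero fun χ hχ => ?_
    rw [← Finset.mul_sum]
    by_cases k : A ≤ charKer (χ : X → ℂ)
    · exact mul_eq_zero_of_left (congrFun hφ ⟨χ, by simpa using hχ, k⟩) _
    · rw [sum_coset_eq_zero χ.2 A k, mul_zero]
  have h4 : ∀ a : A, φ.1 (a * g) = if p ∣ orderOf (a * g) then 0 else φ.1 g := fun a => by
    split_ifs with k
    · exact h2 _ k
    · obtain ⟨y, hy⟩ := isConj_iff.1 (isConj_mul_of_reg hM.1 hA a.2 hg k)
      rw [← hy, h1.classFun]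
  simp only [h4, Finset.sum_ite, Finset.sum_const_zero, zero_add, Finset.sum_const,
    nsmul_eq_mul] at h3
  exact (mul_eq_zero.1 h3).resolve_left
    (Nat.cast_ne_zero.2 (Finset.card_ne_zero.2 ⟨1, by simpa using hg⟩))

theorem key (hM : IsPModular p M) (hc : IsPBlock M c) (hA : IsDefectGroup p M c A)
    (hab : A ≤ centralizer (A : Set X)) (h3 : Nat.card c ≤ 3) : Nat.card A ≤ 3 := by
  classical
  have hp := hM.1
  have := Fact.mk hp
  have := charP_k hM
  have := Fintype.ofFinite X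
  have hA' := (isDefectGroup_iff hM hc A).1 hA
  rcases eq_or_ne A ⊥ with rfl | A1
  · simp
  have ne : c.Nonempty := by
    obtain ⟨χ, rfl⟩ := hc
    exact ⟨χ, mem_blockOf_self hM χ⟩
  rcases eq_or_ne (blockRank p c) 1 with r1 | r1
  · rw [(Cfsg.Agent.S4648.result p M hM c hc A hA A1 r1 (by omega)).2.1]
    exact h3
  have r2 := blockRank_pos hp ne
  have r3 := rank_le hM hc hA'.isP
  set S := {χ | χ ∈ c ∧ A ≤ charKer (χ : X → ℂ)}
  obtain ⟨χ₀, h0, h0'⟩ : ∃ χ ∈ c, ¬ A ≤ charKer (χ : X → ℂ) := by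
    by_contra! k
    obtain ⟨a, a1⟩ := (ne_bot_iff_exists_ne_one).1 A1
    refine regB_one_ne_zero ne ?_
    obtain ⟨j, hj⟩ := exists_orderOf_of_mem hp hA'.isP a.2
    rw [← regB_eq_zero hM (nrm_eSet_le_one hM hc) (g := a) (hj ▸ dvd_pow_self p (by
      rintro rfl; exact a1 (Subtype.ext (orderOf_eq_one_iff.1 hj)))), regB_apply, regB_apply]
    exact Finset.sum_congr rfl fun χ hχ => by
      rw [(mem_charKer_iff (irr_isCharacter χ.2)).1 (k χ (by simpa using hχ) a.2)]
  rw [Nat.card_coe_set_eq] at h3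
  have s0 : χ₀ ∉ S := fun k => h0' k.2
  have s1 : insert χ₀ S ⊆ c := Set.insert_subset h0 fun _ k => k.1
  have s2 := Set.ncard_le_ncard s1
  rw [Set.ncard_insert_of_notMem s0] at s2
  have s3 : ∀ χ ∈ c, ¬ A ≤ charKer (χ : X → ℂ) → χ = χ₀ := fun χ a b => by
    by_contra k
    have := Set.ncard_le_ncard (Set.insert_subset a s1)
    rw [Set.ncard_insert_of_notMem (by simp [S, k, b]), Set.ncard_insert_of_notMem s0] at this
    omega
  set C := centralizer (A : Set X)
  have hC : Cz ⊤ A = C := Cz_top A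
  have hcb := isBlk_eb hM hc
  obtain ⟨e, he⟩ := hA'.exists_maxPair hcb
  have he1 : IsBlk C e := hC ▸ he.bpair.pair.blk
  obtain ⟨β, hβ, rfl⟩ := exists_ebs_eq hM he1
  set D := A.subgroupOf C
  have hD : IsDefectGroup p M β D := (isDefectGroup_iff_subgroupOf hM hβ hab).2
    (by simpa only [hC] using he.isDefGrp_Cz (PLE.refl _ _ _) hab)
  obtain ⟨θ, hθ, hker, can⟩ := BlockB.exists_canon hM hβ hD (sup_centralizer_of_le_center
    fun d hd => mem_center_iff.2 fun g => Subtype.ext (g.2 d hd).symm)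
  have hβθ := block_eq_blockOf hM hβ hθ
  have cov : ∀ ζ, IsIrrCharacter D ζ → ∀ χ ∈ ovr (NormalEmb.sub C) (tw p D ζ θ), χ ∈ c :=
    fun ζ hζ χ hχ => by
    have h1 := covers_blockOf hM (isPBlock_blockOf χ) (mem_blockOf_self hM χ)
      (θ := can.twIrr hp ⟨ζ, hζ⟩) hχ
    rw [(mem_iff_ebs_blockOf hM hβ).1 (hβθ ▸ (can.mem_iff hM).2 ⟨⟨ζ, hζ⟩, rfl⟩)] at h1
    have orb : ∀ {B : Set (IrrCharacter X)}, IsPBlock M B → eb M B * ebs M C β ≠ 0 →
        eb M B = orb ⊤ (ebs M C β) := fun hB h =>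
      (isBlk_eb hM hB).eq_orb he1 (le_normalizer_of_normal' _ _) le_top
        ((isBlk_eb hM hB).mem_sub_centralizer hA'.isP le_top (le_normalizer_of_normal' _ _)) h
    have h2 := he.bpair.eq
    rw [hcb.Br_eq_self hA'.isP le_top (le_normalizer_of_normal' _ _)] at h2
    exact (mem_iff_eb_blockOf hM hc).2
      ((orb (isPBlock_blockOf χ) h1).trans (orb hc (h2.trans_ne he1.ne)).symm)
  have rg : (C.subtype.comp D.subtype).range = A := by
    rw [MonoidHom.range_comp, range_subtype, map_subgroupOf_subtype hab]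
  have : (C.subtype.comp D.subtype).range.Normal := rg.symm ▸ hn
  let F := NormalEmb.ofInjective (C.subtype.comp D.subtype)
    (C.subtype_injective.comp D.subtype_injective)
  let E := NormalEmb.sub C
  have FE : ∀ g d, (F.c g d : C) = E.c g d := fun g d => Subtype.ext (F.ι_c g d)
  have cjtw : ∀ ζ φ g, E.cj (tw p D ζ φ) g = tw p D (F.cj ζ g) (E.cj φ g) := fun ζ φ g => by
    ext x
    simp only [NormalEmb.cj_apply, tw]
    rw [show pPart p (E.c g x) = _ from (map_pPart hp (E.c g).toMonoidHom x).symm,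
      show pReg p (E.c g x) = _ from (map_pReg hp (E.c g).toMonoidHom x).symm]
    congr 1
    generalize pPart p x = y
    by_cases hy : y ∈ D
    · lift y to D using hy
      exact (congrArg _ (FE g y).symm).trans (by rw [extendByZero_coe, extendByZero_coe]; rfl)
    · rw [Char.extendByZero_of_not_mem _ _ hy, Char.extendByZero_of_not_mem _ _ fun k => hy ?_]
      have := hn.conj_mem (g * y * g⁻¹) k g⁻¹
      simpa [mul_assoc, D, mem_subgroupOf] using this
  have θ1 : tw p D (fun _ => 1) θ = θ :=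
    (eq_tw_one hker fun g hg => irr_eq_zero_of_pPart_notMem hM hβ hD hθ hg).symm
  have comm : ∀ a b : D, a * b = b * a := fun a b => Subtype.ext (Subtype.ext (hab b.2 _ a.2))
  have coe : ∀ ζ (u : D), tw p D ζ θ u = ζ u * (θ : C → ℂ) 1 := fun ζ u =>
    tw_coe hp ζ θ u (exists_orderOf_of_mem hp can.pgroup u.2)
  rw [← Nat.card_congr (subgroupOfEquivOfLe hab).toEquiv]
  refine core comm can.pgroup E F ?_ (fun ζ => tw p D ζ θ) (fun ζ => can.irr_tw hp)
    (fun ζ ξ h => funext fun u => ?_) (fun g hg ζ => ?_) (fun ζ ξ g a b h => ?_) ?_ ?_ (χ₀ := χ₀)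
    fun ζ a b χ hχ => s3 χ (cov ζ a χ hχ) fun k => b (funext fun u => ?_)
  · ext g
    rw [MonoidHom.mem_ker, NormalEmb.sub_ι, range_subtype]
    refine ⟨fun h a ha => ?_, fun h => MulEquiv.ext fun d => F.inj ?_⟩
    · have := F.ι_c g ⟨⟨a, hab ha⟩, ha⟩
      rw [h] at this
      exact eq_mul_inv_iff_mul_eq.1 this
    · exact (F.ι_c g d).trans (mul_inv_eq_iff_eq_mul.2 (h _ d.2).symm)
  · exact mul_right_cancel₀ (irr_one_ne_zero θ.2) (by rw [← coe, ← coe]; exact congrFun h u)
  · rw [θ1] at hg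
    rw [cjtw, E.mem_inertia.1 hg]
  · rw [cjtw] at h
    rw [NormalEmb.mem_inertia, cjtw]
    ext x
    have := congrFun h (pReg p x)
    rw [tw_reg hp _ _ (pReg_pRegular hp x), tw_reg hp _ _ (pReg_pRegular hp x), F.cj_apply_one,
      irr_one_eq_one_of_comm comm a, irr_one_eq_one_of_comm comm b, one_mul, one_mul] at this
    simp only [tw, this]
    rfl
  · have h1 := he.not_dvd_relIndex_of_comm hab
    rw [Cz_top, Nz_top, normalizer_eq_top] at h1
    rw [θ1, NormalEmb.sub_ι, range_subtype]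
    refine fun k => h1 (k.trans ?_)
    exact ⟨_, (relIndex_mul_relIndex _ _ _ (C.range_subtype.ge.trans (E.range_le_inertia
      (irr_isClassFunction θ.2))) (inertia_le_stab hM hβ hθ)).symm⟩
  · rw [Nat.card_coe_set_eq]
    refine (Set.ncard_le_ncard (t := S) fun χ hχ => ⟨cov _ irr_one χ hχ, fun a ha => ?_⟩).trans
      (by omega)
    rw [θ1] at hχ
    have h1 := ((NormalEmb.sub D).inner_res_one_ne_zero_iff θ.2).2 fun n =>
      (mem_charKer_iff (irr_isCharacter θ.2)).1 (hker n.2)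
    have h2 := inner_comp_ne_zero_of_constituent D.subtype (char_comp (irr_isCharacter χ.2) E.ι)
      θ.2 char_const_one hχ h1
    exact (mem_charKer_iff (irr_isCharacter χ.2)).2 ((F.inner_res_one_ne_zero_iff χ.2).1 h2
      ⟨⟨a, hab ha⟩, ha⟩)
  · have h1 := charKer_le_of_inner_ne_zero (char_comp (irr_isCharacter χ.2) E.ι)
      (can.irr_tw hp a) hχ (show (u : C) ∈ _ from fun x => k u.2 x)
    rw [mem_charKer_iff (irr_isCharacter (can.irr_tw hp a)), coe, tw_one hp,
      irr_one_eq_one_of_comm comm a] at h1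
    exact mul_right_cancel₀ (irr_one_ne_zero θ.2) h1

end CF.Crit.Good
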