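import Cfsg.Agent.Crit.K3c
import Cfsg.Agent.S4434
import Cfsg.Agent.Transfer.Frobenius
import Cfsg.Agent.Clifford.Small

/-!
# Blocks with a normal defect group and at most three characters of height zero
-/

set_option autoImplicit false

namespace CF.Crit.Good
open Subgroup Cfsg CF.Char CF.Clifford CF.BlockB CF.Block

theorem key' {G : Type*} [Group G] [Finite G] {p : ℕ} {M : Ideal AlgInt} {D : Subgroup G}
    [D.Normal] {B : Set (IrrCharacter G)} (hM : IsPModular p M) (hB : IsPBlock M B)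
    (hD : IsDefectGroup p M B D)
    (h3 : Nat.card {χ : IrrCharacter G // χ ∈ B ∧ blockHeight p B (χ : G → ℂ) = 0} ≤ 3) :
    Nat.card D ≤ 3 := by
  have hp := hM.1
  have := Fact.mk hp
  have hDp := ((isDefectGroup_iff hM hB D).1 hD).isP
  have hD' : ⁅D, D⁆ ≤ D := commutator_le_left _ _
  obtain ⟨c, hc, h1, h2⟩ := Cfsg.Agent.S4434.result p M hM ⁅D, D⁆ (hDp.to_le hD') B hB
  set φ := QuotientGroup.mk' ⁅D, D⁆
  have hφ : Function.Surjective φ := QuotientGroup.mk'_surjective _
  have : (D.map φ).Normal := Normal.map inferInstance _ hφ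
  have hker : φ.ker = ⁅D, D⁆ := QuotientGroup.ker_mk' _
  have hab : D.map φ ≤ centralizer (D.map φ : Set (G ⧸ ⁅D, D⁆)) := by
    rw [← commutator_eq_bot_iff_le_centralizer, ← map_commutator, Subgroup.map_eq_bot_iff, hker]
  let f : c → {χ : IrrCharacter G // χ ∈ B ∧ blockHeight p B (χ : G → ℂ) = 0} := fun χ =>
    ⟨⟨_, irr_inflate ⁅D, D⁆ χ.1.2⟩, h1 _ χ.2 _ rfl, by
      have hψ := h1 _ χ.2 ⟨_, irr_inflate ⁅D, D⁆ χ.1.2⟩ rfl
      refine (BlockB.height_zero_iff hψ).2 (le_antisymm ?_ (minExp_le hψ))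
      have h3 := irr_one_dvd_index_of_normal_comm (D.map φ)
        (fun a ha b hb => mem_centralizer_iff.1 (hab hb) a ha) χ.1.2 (irr_charDegree_eq χ.1).symm
      rw [index_map_eq _ hφ (hker.trans_le hD')] at h3
      have h4 := blockDefect_add_minExp (p := p) ⟨_, hψ⟩
      rw [← D.card_mul_index, Nat.factorization_mul Nat.card_pos.ne' FiniteIndex.index_ne_zero,
        card_defectGroup hM hB hD, Finsupp.add_apply, hp.factorization_pow,
        Finsupp.single_eq_same, add_right_inj] at h4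
      rw [h4]
      exact (Nat.factorization_le_iff_dvd (irr_charDegree_ne_zero χ.1)
        FiniteIndex.index_ne_zero).2 h3 p⟩
  have h4 := key hM hc ((h2 _).2 ⟨D, hD, rfl⟩) hab (.trans (Nat.card_le_card_of_injective f
    fun a b e => Subtype.ext (Subtype.ext (funext fun x => by
      obtain ⟨x, rfl⟩ := hφ x
      exact congrFun (congrArg (fun y => y.1.1) e) x))) h3)
  have : IsCyclic (D.map φ) := by
    have := Nat.card_pos (α := D.map φ)
    have : Fact (Nat.Prime 3) := ⟨by norm_num⟩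
    interval_cases e : Nat.card (D.map φ)
    · exact isCyclic_of_card_dvd_prime (p := 2) (e ▸ one_dvd 2)
    · exact isCyclic_of_prime_card e
    · exact isCyclic_of_prime_card e
  obtain ⟨⟨_, x, hx, rfl⟩, h5⟩ := this.exists_generator
  have h6 : zpowers x = D := CF.Transfer.eq_of_le_sup_commutator_of_nilpotent hDp.isNilpotent
    (zpowers_le.2 hx) fun y hy => by
      obtain ⟨k, hk⟩ := h5 ⟨_, y, hy, rfl⟩
      have h7 : (x ^ k)⁻¹ * y ∈ φ.ker := by
        rw [MonoidHom.mem_ker, map_mul, map_inv, map_zpow, inv_mul_eq_one]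
        exact congrArg Subtype.val hk
      rw [hker] at h7
      simpa using mul_mem (mem_sup_left (zpow_mem (mem_zpowers x) k)) (mem_sup_right h7)
  have h7 : φ.ker = ⊥ := by
    rw [hker, commutator_eq_bot_iff_le_centralizer, ← h6]
    rintro _ ⟨i, rfl⟩ _ ⟨j, rfl⟩
    exact (Commute.refl x).zpow_zpow j i
  rwa [card_map_of_injective ((MonoidHom.ker_eq_bot_iff _).1 h7)] at h4

end CF.Crit.Good
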