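import Cfsg.Agent.Fgs2.Base2
import Cfsg.Agent.Solv.CyclicMax

/-! Real vectors for nilpotent linear groups in coprime characteristic. -/

set_option autoImplicit false

namespace CF.Crit.Kr

open Subgroup CF.Perm CF.Fgs2.Base
open scoped Pointwise

universe u

section forms

variable {G V : Type*} [Group G] [AddCommGroup V] [DistribMulAction G V] {p : ℕ}

/-- a nondegenerate `H`-invariant bilinear form on `U` -/
structure IsF (p : ℕ) (H : Subgroup G) (U : AddSubgroup V) (β : V → V → ZMod p) : Prop where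
  l : ∀ a ∈ U, ∀ b ∈ U, ∀ c ∈ U, β (a + b) c = β a c + β b c
  r : ∀ a ∈ U, ∀ b ∈ U, ∀ c ∈ U, β a (b + c) = β a b + β a c
  nd : ∀ a ∈ U, (∀ b ∈ U, β a b = 0) → a = 0
  inv : ∀ g ∈ H, ∀ a ∈ U, ∀ b ∈ U, β (g • a) (g • b) = β a b

/-- `U` contains a real vector for `H` -/
def RV (p : ℕ) (H : Subgroup G) (U : AddSubgroup V) : Prop :=
  ∃ v ∈ U, ∃ β, IsF p (H ⊓ MulAction.stabilizer G v) U β

theorem IsF.zero {H : Subgroup G} {U : AddSubgroup V} {β : V → V → ZMod p} (h : IsF p H U β)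
    {a : V} (ha : a ∈ U) : β a 0 = 0 := by
  have := h.r a ha 0 U.zero_mem 0 U.zero_mem
  rw [add_zero] at this
  exact left_eq_add.1 this

theorem exists_pr {X W : AddSubgroup V} (h : X ⊓ W = ⊥) : ∃ π : V → V,
    (∀ a ∈ X ⊔ W, π a ∈ X ∧ a - π a ∈ W) ∧ ∀ a, ∀ x ∈ X, a - x ∈ W → π a = x := by
  classical
  have h1 : ∀ a, ∃ x, a ∈ X ⊔ W → x ∈ X ∧ a - x ∈ W := fun a => by
    by_cases ha : a ∈ X ⊔ W
    · obtain ⟨x, hx, w, hw, rfl⟩ := AddSubgroup.mem_sup.1 ha
      exact ⟨x, fun _ => ⟨hx, by rwa [add_sub_cancel_left]⟩⟩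
    · exact ⟨0, fun h => absurd h ha⟩
  choose π hπ using h1
  refine ⟨π, hπ, fun a x hx hw => ?_⟩
  obtain ⟨h2, h3⟩ := hπ a (by
    rw [← add_sub_cancel x a]; exact AddSubgroup.add_mem_sup hx hw)
  have h4 : π a - x ∈ X ⊓ W := ⟨X.sub_mem h2 hx, by
    have := W.sub_mem hw h3
    rwa [sub_sub_sub_cancel_left] at this⟩
  rw [h, AddSubgroup.mem_bot] at h4
  exact sub_eq_zero.1 h4

theorem RV.add {H : Subgroup G} {X W : AddSubgroup V} (hX : InvOn H X) (hW : InvOn H W)
    (h : X ⊓ W = ⊥) (h1 : RV p H X) (h2 : RV p H W) : RV p H (X ⊔ W) := by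
  obtain ⟨x, hx, β, hβ⟩ := h1
  obtain ⟨w, hw, γ, hγ⟩ := h2
  obtain ⟨π, p1, p2⟩ := exists_pr h
  have pa : ∀ a ∈ X ⊔ W, ∀ b ∈ X ⊔ W, π (a + b) = π a + π b := fun a ha b hb =>
    p2 _ _ (X.add_mem (p1 a ha).1 (p1 b hb).1) (by
      rw [add_sub_add_comm]; exact W.add_mem (p1 a ha).2 (p1 b hb).2)
  have pg : ∀ g ∈ H, ∀ a ∈ X ⊔ W, π (g • a) = g • π a := fun g hg a ha =>
    p2 _ _ (hX g hg _ (p1 a ha).1) (by rw [← smul_sub]; exact hW g hg _ (p1 a ha).2)
  refine ⟨x + w, AddSubgroup.add_mem_sup hx hw,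
    fun a b => β (π a) (π b) + γ (a - π a) (b - π b), fun a ha b hb c hc => ?_,
    fun a ha b hb c hc => ?_, fun a ha h0 => ?_, fun g hg a ha b hb => ?_⟩
  · rw [pa a ha b hb, add_sub_add_comm, hβ.l _ (p1 a ha).1 _ (p1 b hb).1 _ (p1 c hc).1,
      hγ.l _ (p1 a ha).2 _ (p1 b hb).2 _ (p1 c hc).2]
    ring
  · rw [pa b hb c hc, add_sub_add_comm, hβ.r _ (p1 a ha).1 _ (p1 b hb).1 _ (p1 c hc).1,
      hγ.r _ (p1 a ha).2 _ (p1 b hb).2 _ (p1 c hc).2]
    ring
  · have h3 : π a = 0 := hβ.nd _ (p1 a ha).1 fun b hb => by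
      have := h0 b (AddSubgroup.mem_sup_left hb)
      rwa [p2 b b hb (by rw [sub_self]; exact W.zero_mem), sub_self, hγ.zero (p1 a ha).2,
        add_zero] at this
    have h4 : a - π a = 0 := hγ.nd _ (p1 a ha).2 fun b hb => by
      have := h0 b (AddSubgroup.mem_sup_right hb)
      rwa [p2 b 0 X.zero_mem (by rwa [sub_zero]), sub_zero, hβ.zero (p1 a ha).1,
        zero_add] at this
    rwa [h3, sub_zero] at h4
  · have h3 : π (x + w) = x := p2 _ _ hx (by rwa [add_sub_cancel_left])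
    have h4 : g • x = x := by
      have := pg g hg.1 _ (AddSubgroup.add_mem_sup hx hw)
      rw [MulAction.mem_stabilizer_iff.1 hg.2, h3] at this
      exact this.symm
    have h5 : g • w = w := by
      have := MulAction.mem_stabilizer_iff.1 hg.2
      rwa [smul_add, h4, add_right_inj] at this
    rw [pg g hg.1 a ha, pg g hg.1 b hb, ← smul_sub, ← smul_sub,
      hβ.inv g ⟨hg.1, h4⟩ _ (p1 a ha).1 _ (p1 b hb).1,
      hγ.inv g ⟨hg.1, h5⟩ _ (p1 a ha).2 _ (p1 b hb).2]

theorem RV.imp [Finite V] {W : AddSubgroup V} (h : Imp G W)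
    (hirr : IrrOn (⊤ : Subgroup G) (⊤ : AddSubgroup V))
    (h1 : RV p (MulAction.stabilizer G W) W) : RV p (⊤ : Subgroup G) (⊤ : AddSubgroup V) := by
  classical
  haveI : Finite (AddSubgroup V) := Finite.of_injective _ SetLike.coe_injective
  haveI := Fintype.ofFinite (MulAction.orbit G W)
  obtain ⟨w, hw, β, hβ⟩ := h1
  choose r hr using fun X : MulAction.orbit G W => X.2
  replace hr : ∀ X, r X • W = X := hr
  let W0 : MulAction.orbit G W := ⟨W, MulAction.mem_orbit_self W⟩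
  let W' : AddSubgroup V := ⨆ j : MulAction.orbit G W, ⨆ (_ : j ≠ W0), (j : AddSubgroup V)
  have hW' : ∀ g : G, g • W ≠ W → g • W ≤ W' := fun g hg =>
    le_iSup₂_of_le (f := fun (j : MulAction.orbit G W) (_ : j ≠ W0) => (j : AddSubgroup V))
      ⟨g • W, g, rfl⟩ (fun e => hg (congrArg Subtype.val e)) le_rfl
  have htop : ∀ a : V, a ∈ W ⊔ W' := fun a => by
    have : a ∈ ⨆ g : G, g • W := sup_orbit hirr h.ne_bot ▸ trivial
    refine (iSup_le fun g => ?_ : (⨆ g : G, g • W) ≤ W ⊔ W') this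
    by_cases hg : g • W = W
    · rw [hg]; exact le_sup_left
    · exact (hW' g hg).trans le_sup_right
  have hinv : InvOn (MulAction.stabilizer G W) W' := fun g hg v hv => by
    induction hv using AddSubgroup.iSup_induction' with
    | hp j v hv =>
      induction hv using AddSubgroup.iSup_induction' with
      | hp hj v hv =>
        obtain ⟨_, k, rfl⟩ := j
        refine hW' (g * k) (fun e => hj (Subtype.ext ?_)) ?_
        · rw [mul_smul, ← eq_inv_smul_iff] at e
          exact e.trans (MulAction.mem_stabilizer_iff.1 (inv_mem hg))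
        · rw [mul_smul]; exact AddSubgroup.smul_mem_pointwise_smul _ _ _ hv
      | h1 => rw [smul_zero]; exact zero_mem _
      | hadd x y _ _ hx hy => rw [smul_add]; exact add_mem hx hy
    | h1 => rw [smul_zero]; exact zero_mem _
    | hadd x y _ _ hx hy => rw [smul_add]; exact add_mem hx hy
  obtain ⟨π, p1, p2⟩ := exists_pr (X := W) (W := W') (h.ind W0).eq_bot
  replace p1 := fun a => p1 a (htop a)
  have pa : ∀ a b, π (a + b) = π a + π b := fun a b =>
    p2 _ _ (W.add_mem (p1 a).1 (p1 b).1) (by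
      rw [add_sub_add_comm]; exact W'.add_mem (p1 a).2 (p1 b).2)
  have pg : ∀ g ∈ MulAction.stabilizer G W, ∀ a, π (g • a) = g • π a := fun g hg a =>
    p2 _ _ (invOn_stab W g hg _ (p1 a).1) (by rw [← smul_sub]; exact hinv g hg _ (p1 a).2)
  -- components of vectors in a block
  have pb : ∀ (X Y : MulAction.orbit G W), ∀ a ∈ (Y : AddSubgroup V),
      π ((r X)⁻¹ • a) = if X = Y then (r X)⁻¹ • a else 0 := fun X Y a ha => by
    split_ifs with e
    · subst e
      exact p2 _ _ (mem_smul.1 (by rw [hr]; exact ha)) (by rw [sub_self]; exact W'.zero_mem)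
    · refine p2 _ _ W.zero_mem ?_
      rw [sub_zero]
      refine hW' ((r X)⁻¹ * r Y) (fun e' => e (Subtype.ext ?_)) ?_
      · rw [mul_smul, hr, inv_smul_eq_iff, hr] at e'
        exact e'.symm
      · rw [mul_smul, hr]; exact AddSubgroup.smul_mem_pointwise_smul _ _ _ ha
  have hm : ∀ (X : MulAction.orbit G W), ∀ c ∈ W, r X • c ∈ (X : AddSubgroup V) := fun X c hc => by
    rw [← hr X]; exact AddSubgroup.smul_mem_pointwise_smul _ _ _ hc
  have hsum : ∀ a : V, ∑ X, r X • π ((r X)⁻¹ • a) = a := fun a => by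
    have : a ∈ ⨆ g : G, g • W := sup_orbit hirr h.ne_bot ▸ trivial
    induction this using AddSubgroup.iSup_induction' with
    | hp k a ha =>
      rw [Finset.sum_eq_single (⟨k • W, k, rfl⟩ : MulAction.orbit G W) (fun X _ hX => by
        rw [pb X ⟨k • W, k, rfl⟩ a ha, if_neg hX, smul_zero]) (fun h => absurd (Finset.mem_univ _) h),
        pb _ ⟨k • W, k, rfl⟩ a ha, if_pos rfl, smul_inv_smul]
    | h1 =>
      refine Finset.sum_eq_zero fun X _ => ?_
      rw [pb X X 0 (zero_mem _), if_pos rfl, smul_inv_smul]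
    | hadd x y _ _ hx hy =>
      conv_rhs => rw [← hx, ← hy, ← Finset.sum_add_distrib]
      exact Finset.sum_congr rfl fun X _ => by rw [smul_add, pa, smul_add]
  refine ⟨∑ X, r X • w, trivial, fun a b => ∑ X, β (π ((r X)⁻¹ • a)) (π ((r X)⁻¹ • b)),
    fun a _ b _ c _ => ?_, fun a _ b _ c _ => ?_, fun a _ h0 => ?_, fun g hg a _ b _ => ?_⟩
  · rw [← Finset.sum_add_distrib]
    exact Finset.sum_congr rfl fun X _ => by
      rw [smul_add, pa, hβ.l _ (p1 _).1 _ (p1 _).1 _ (p1 _).1]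
  · rw [← Finset.sum_add_distrib]
    exact Finset.sum_congr rfl fun X _ => by
      rw [smul_add, pa, hβ.r _ (p1 _).1 _ (p1 _).1 _ (p1 _).1]
  · rw [← hsum a]
    refine Finset.sum_eq_zero fun Y _ => ?_
    rw [hβ.nd _ (p1 ((r Y)⁻¹ • a)).1 fun c hc => ?_, smul_zero]
    have := h0 (r Y • c) trivial
    rwa [Finset.sum_eq_single Y (fun X _ hX => by
      rw [pb X Y _ (hm Y c hc), if_neg hX, hβ.zero (p1 _).1]) (fun h => absurd (Finset.mem_univ _) h),
      pb Y Y _ (hm Y c hc), if_pos rfl, inv_smul_smul] at this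
  · have h1 : ∀ X, g • r X • w = r (g • X) • w := fun X => by
      have h2 := MulAction.mem_stabilizer_iff.1 hg.2
      rw [Finset.smul_sum, ← Equiv.sum_comp (MulAction.toPerm g⁻¹), ← sub_eq_zero,
        ← Finset.sum_sub_distrib] at h2
      have h3 := eq_zero_of_sum h.ind _ (fun Y => AddSubgroup.sub_mem _ ?_ (hm Y _ hw)) h2 (g • X)
      · simpa only [MulAction.toPerm_apply, inv_smul_smul, sub_eq_zero] using h3
      · have h4 := mem_smul.1 (hm (g⁻¹ • Y) w hw)
        rwa [inv_inv] at h4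
    have hn : ∀ X, (r (g • X))⁻¹ * g * r X ∈ MulAction.stabilizer G W := fun X => by
      rw [MulAction.mem_stabilizer_iff, mul_smul, mul_smul, hr, inv_smul_eq_iff, hr]; rfl
    have h2 : ∀ X, ((r (g • X))⁻¹ * g * r X) • w = w := fun X => by
      rw [mul_smul, mul_smul, h1, inv_smul_smul]
    have h3 : ∀ X (a : V), π ((r (g • X))⁻¹ • g • a) =
        ((r (g • X))⁻¹ * g * r X) • π ((r X)⁻¹ • a) := fun X a => by
      rw [← pg _ (hn X), mul_smul, mul_smul, smul_inv_smul]
    rw [← Equiv.sum_comp (MulAction.toPerm g)]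
    refine Finset.sum_congr rfl fun X _ => ?_
    rw [MulAction.toPerm_apply, h3, h3, hβ.inv _ ⟨hn X, h2 X⟩ _ (p1 _).1 _ (p1 _).1]

/-- Galois descent gives an invariant form -/
theorem exists_form [Finite G] [Finite V] [Nontrivial V] [hp : Fact p.Prime]
    (hV : ∀ v : V, p • v = 0) {K : Type*} [Field K] [Module K V] (σ : G →* RingAut K)
    (semi : ∀ (g : G) (k : K) (v : V), g • k • v = σ g k • g • v) (S : Subgroup G)
    (hS : ¬ p ∣ Nat.card S) (hσ : ∀ s ∈ S, σ s = 1 → s = 1) :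
    ∃ β, IsF p S (⊤ : AddSubgroup V) β := by
  classical
  haveI := Fintype.ofFinite S
  obtain ⟨v0, hv0⟩ := exists_ne (0 : V)
  have hK : (p : K) = 0 := by
    have := hV v0
    rw [← Nat.cast_smul_eq_nsmul K] at this
    exact (smul_eq_zero.1 this).resolve_right hv0
  haveI : CharP K p := (CharP.charP_iff_prime_eq_zero hp.out).2 hK
  letI : Algebra (ZMod p) K := ZMod.algebra K p
  obtain ⟨l, hl⟩ : ∃ l : Module.Dual (ZMod p) K, l 1 ≠ 0 := by
    by_contra h
    push Not at h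
    exact one_ne_zero ((Module.forall_dual_apply_eq_zero_iff (ZMod p) (1 : K)).1 h)
  let τ : K → ZMod p := fun k => ∑ s : S, l (σ s k)
  have τa : ∀ a b, τ (a + b) = τ a + τ b := fun a b => by
    simp only [τ, map_add, Finset.sum_add_distrib]
  have τs : ∀ (s : S) a, τ (σ s a) = τ a := fun s a => by
    simp only [τ]
    rw [← Equiv.sum_comp (Equiv.mulRight s) (fun t : S => l (σ t a))]
    refine Finset.sum_congr rfl fun t _ => ?_
    rw [Equiv.coe_mulRight, Subgroup.coe_mul, map_mul]; rfl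
  have τ1 : τ 1 ≠ 0 := by
    simp only [τ, map_one, Finset.sum_const, Finset.card_univ, nsmul_eq_mul]
    refine mul_ne_zero (fun e => hS ?_) hl
    rw [Nat.card_eq_fintype_card]
    exact (ZMod.natCast_eq_zero_iff _ _).1 e
  let T : Set V := {v | ∀ s ∈ S, s • v = v}
  have hT : Submodule.span K T = ⊤ := by
    by_contra h
    obtain ⟨f, hf, hle⟩ := Submodule.exists_le_ker_of_lt_top _ (lt_top_iff_ne_top.2 h)
    refine hf (LinearMap.ext fun v => ?_)
    let e : S → K →* K := fun s => (σ s : K ≃+* K).toRingHom.toMonoidHom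
    have he : Function.Injective e := fun s t hst => by
      have h1 : σ s = σ t := RingEquiv.ext fun k => DFunLike.congr_fun hst k
      have h2 := hσ _ (S.mul_mem (S.inv_mem s.2) t.2) (by rw [map_mul, map_inv, h1, inv_mul_cancel])
      exact Subtype.ext (inv_mul_eq_one.1 h2)
    have h1 := Fintype.linearIndependent_iff.1 ((linearIndependent_monoidHom K K).comp e he)
      (fun s => f ((s : G) • v)) (funext fun k => ?_) 1
    · simpa using h1
    have h2 : ∑ s : S, (s : G) • k • v ∈ T := fun t ht => by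
      rw [Finset.smul_sum, ← Equiv.sum_comp (Equiv.mulLeft (⟨t, ht⟩ : S)) (fun s : S => (s : G) • k • v)]
      exact Finset.sum_congr rfl fun s _ => by rw [Equiv.coe_mulLeft, Subgroup.coe_mul, mul_smul]
    have h3 : f (∑ s : S, (s : G) • k • v) = 0 := hle (Submodule.subset_span h2)
    rw [map_sum] at h3
    rw [Finset.sum_apply, Pi.zero_apply, ← h3]
    refine Finset.sum_congr rfl fun s _ => ?_
    rw [semi, f.map_smul, Pi.smul_apply, smul_eq_mul, smul_eq_mul, mul_comm]; rfl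
  obtain ⟨b, hb, h1, h2⟩ := exists_linearIndependent K T
  haveI := Fintype.ofFinite b
  let B : Module.Basis b K V := Module.Basis.mk h2 (by rw [Subtype.range_coe, h1, hT])
  have hB : ∀ s ∈ S, ∀ a i, B.repr (s • a) i = σ s (B.repr a i) := fun s hs a i => by
    conv_lhs => rw [← B.sum_repr a, Finset.smul_sum]
    rw [Finset.sum_congr rfl fun j _ => show s • B.repr a j • B j = σ s (B.repr a j) • B j by
      rw [semi, Module.Basis.mk_apply, hb j.2 s hs], B.repr_sum_self]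
  refine ⟨fun a c => τ (∑ i, B.repr a i * B.repr c i), fun a _ b _ c _ => ?_,
    fun a _ b _ c _ => ?_, fun a _ h0 => ?_, fun g hg a _ c _ => ?_⟩
  · simp only [map_add, Finsupp.add_apply, add_mul, Finset.sum_add_distrib, τa]
  · simp only [map_add, Finsupp.add_apply, mul_add, Finset.sum_add_distrib, τa]
  · by_contra ha
    obtain ⟨i, hi⟩ : ∃ i, B.repr a i ≠ 0 := by
      by_contra h
      push Not at h
      exact ha (B.ext_elem fun i => by rw [h, map_zero, Finsupp.zero_apply])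
    have := h0 ((B.repr a i)⁻¹ • B i) trivial
    rw [Finset.sum_eq_single i (fun j _ hj => by simp [Finsupp.single_eq_of_ne hj])
      (fun h => absurd (Finset.mem_univ _) h)] at this
    simp only [map_smul, Module.Basis.repr_self, Finsupp.smul_apply, Finsupp.single_eq_same,
      smul_eq_mul, mul_one, mul_inv_cancel₀ hi] at this
    exact τ1 this
  · simp only [hB g hg, ← map_mul, ← map_sum]
    exact τs ⟨g, hg⟩ _

end forms

/-- real vectors exist for completely reducible modules of order `< n` -/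
def RP (p n : ℕ) : Prop :=
  ∀ (G V : Type u) [Group G] [Finite G] [Group.IsNilpotent G] [AddCommGroup V] [Finite V]
    [DistribMulAction G V], (∀ v : V, p • v = 0) → ¬ p ∣ Nat.card G →
    CROn (⊤ : Subgroup G) (⊤ : AddSubgroup V) → Nat.card V < n →
    RV p (⊤ : Subgroup G) (⊤ : AddSubgroup V)

theorem RP.rel {p n : ℕ} (h : RP.{u} p n) {G V : Type u} [Group G] [Finite G]
    [Group.IsNilpotent G] [AddCommGroup V] [Finite V] [DistribMulAction G V]
    (hV : ∀ v : V, p • v = 0) (hG : ¬ p ∣ Nat.card G) {H : Subgroup G} {U : AddSubgroup V}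
    (hU : InvOn H U) (hcr : CROn H U) (hn : Nat.card U < n) : RV p H U := by
  classical
  letI := subAct hU
  obtain ⟨v, -, β, hβ⟩ := h H U (fun v => Subtype.ext (hV v.1))
    (fun e => hG (e.trans (card_subgroup_dvd_card H)))
    (fun X _ hX => by
      obtain ⟨W, h1, h2, h3, h4⟩ := hcr (X.map U.subtype) (AddSubgroup.map_subtype_le X)
        (by rintro g hg _ ⟨v, hv, rfl⟩; exact ⟨_, hX ⟨g, hg⟩ trivial v hv, rfl⟩)
      refine ⟨W.addSubgroupOf U, le_top, fun g _ v hv => h2 g.1 g.2 v.1 hv, ?_, ?_⟩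
      · refine eq_bot_iff.2 fun v hv => ?_
        have : v.1 ∈ X.map U.subtype ⊓ W := ⟨⟨v, hv.1, rfl⟩, hv.2⟩
        rw [h3] at this
        exact Subtype.ext this
      · refine eq_top_iff.2 fun v _ => ?_
        obtain ⟨_, ⟨x, hx, rfl⟩, w, hw, e⟩ := AddSubgroup.mem_sup.1 (h4.ge v.2)
        exact AddSubgroup.mem_sup.2 ⟨x, hx, ⟨w, h1 hw⟩, hw, Subtype.ext e⟩) hn
  let π : V → U := fun a => if h : a ∈ U then ⟨a, h⟩ else 0
  have hπ : ∀ a (h : a ∈ U), π a = ⟨a, h⟩ := fun a h => dif_pos h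
  refine ⟨v.1, v.2, fun a b => β (π a) (π b), fun a ha b hb c hc => ?_, fun a ha b hb c hc => ?_,
    fun a ha h0 => ?_, fun g hg a ha b hb => ?_⟩
  · rw [hπ _ (U.add_mem ha hb), hπ a ha, hπ b hb, ← hβ.l _ trivial _ trivial _ trivial]; rfl
  · rw [hπ _ (U.add_mem hb hc), hπ c hc, hπ b hb, ← hβ.r _ trivial _ trivial _ trivial]; rfl
  · refine congrArg Subtype.val (hβ.nd ⟨a, ha⟩ trivial fun b _ => ?_)
    have := h0 b.1 b.2
    rwa [hπ a ha, hπ _ b.2] at this
  · rw [hπ _ (hU g hg.1 a ha), hπ _ (hU g hg.1 b hb), hπ a ha, hπ b hb]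
    exact hβ.inv ⟨g, hg.1⟩ ⟨trivial, Subtype.ext hg.2⟩ ⟨a, ha⟩ trivial ⟨b, hb⟩ trivial

theorem RP.step {p n : ℕ} [Fact p.Prime] (h : RP.{u} p n) (R V : Type u) [Group R] [Finite R]
    [Group.IsNilpotent R] [AddCommGroup V] [Finite V] [Nontrivial V] [DistribMulAction R V]
    [FaithfulSMul R V] (hV : ∀ v : V, p • v = 0) (hR : ¬ p ∣ Nat.card R)
    (hirr : IrrOn (⊤ : Subgroup R) (⊤ : AddSubgroup V)) (hn : Nat.card V ≤ n) :
    RV p (⊤ : Subgroup R) (⊤ : AddSubgroup V) := by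
  obtain ⟨A, h1, h2, -, h3⟩ := CF.Solv.exists_selfCentralizing_normal_ge (⊥ : Subgroup R)
  rcases fs_or_imp hirr A h2 with ⟨K, _, _, _, σ, hF⟩ | ⟨W, hW⟩
  · obtain ⟨v, hv⟩ := exists_ne (0 : V)
    refine ⟨v, trivial, exists_form hV σ hF.semi _
      (fun e => hR (e.trans (card_subgroup_dvd_card _))) fun s hs h4 => ?_⟩
    have h5 : s ∈ A := by rw [← h3, ← hF.ker]; exact h4
    obtain ⟨k, hk⟩ := hF.scal s h5
    have h6 : (k - 1) • v = 0 := by
      rw [sub_smul, one_smul, ← hk, MulAction.mem_stabilizer_iff.1 hs.2, sub_self]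
    rw [smul_eq_zero, sub_eq_zero] at h6
    refine FaithfulSMul.eq_of_smul_eq_smul (α := V) fun w => ?_
    rw [hk, h6.resolve_right hv, one_smul, one_smul]
  · exact RV.imp hW hirr (h.rel hV hR (invOn_stab W) ((hW.irr hirr).cr (invOn_stab W))
      (hW.card_lt.trans_le hn))

theorem rp (p : ℕ) [Fact p.Prime] (n : ℕ) : RP.{u} p n := by
  induction n with
  | zero => intro G V _ _ _ _ _ _ _ _ _ h; exact absurd h (Nat.not_lt_zero _)
  | succ n h =>
  intro G V _ _ _ _ _ _ hV hG hcr hn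
  rcases subsingleton_or_nontrivial V with hV | hV1
  · exact ⟨0, trivial, fun _ _ => 0, by simp, by simp, fun _ _ _ => Subsingleton.elim _ _, by simp⟩
  have hlt : ∀ Y : AddSubgroup V, Y ≠ ⊤ → Nat.card Y < n := fun Y hY =>
    ((AddSubgroup.card_le_card_addGroup Y).lt_of_ne fun e =>
      hY (Y.eq_top_of_card_eq e)).trans_le (Nat.lt_succ_iff.1 hn)
  by_cases hirr : IrrOn (⊤ : Subgroup G) (⊤ : AddSubgroup V)
  · letI := rangeAct G V
    haveI : FaithfulSMul (MulAction.toPermHom G V).range V :=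
      ⟨fun h => Subtype.ext (Equiv.ext h)⟩
    haveI : Group.IsNilpotent (MulAction.toPermHom G V).range :=
      Group.nilpotent_of_surjective _ (MonoidHom.rangeRestrict_surjective _)
    obtain ⟨v, -, β, hβ⟩ := h.step (MulAction.toPermHom G V).range V hV
      (fun e => hG (e.trans (card_range_dvd _)))
      (fun X hX hi => hirr X hX fun g _ v hv => hi ⟨_, g, rfl⟩ trivial v hv) (Nat.lt_succ_iff.1 hn)
    exact ⟨v, trivial, β, hβ.l, hβ.r, hβ.nd, fun g hg => hβ.inv ⟨_, g, rfl⟩ ⟨trivial, hg.2⟩⟩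
  · simp only [IrrOn, not_forall, not_or] at hirr
    obtain ⟨X, -, h1, h2, h3⟩ := hirr
    obtain ⟨W, -, h4, h5, h6⟩ := hcr X le_top h1
    exact h6 ▸ RV.add h1 h4 h5 (h.rel hV hG h1 (hcr.mono le_top h1) (hlt X h3))
      (h.rel hV hG h4 (hcr.mono le_top h4) (hlt W fun e => h2 (by rwa [e, inf_top_eq] at h5)))

end CF.Crit.Kr
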