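import Cfsg.Agent.Crit.Kr3
import Cfsg.Agent.Crit.Kr4
import Cfsg.Agent.Crit.Tr1
import Cfsg.Agent.S4959
import Cfsg.Agent.S4492
import Cfsg.Agent.Block.Deg
import Cfsg.Agent.Block.Extra
import Cfsg.Agent.Char.Triple

/-! Class numbers of solvable groups with `O_{p'} = 1` and blocks of solvable groups. -/

set_option autoImplicit false

namespace CF.Crit.Kr

open Subgroup Cfsg CF.Fgs2 CF.Fgs2.HK CF.Fgs2.Base

universe u

theorem exists_char_mod {G W : Type*} [Group G] [Finite G] [AddCommGroup W] [Finite W]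
    [DistribMulAction G W] {p : ℕ} [hp : Fact p.Prime] [Module (ZMod p) W]
    (hG : ¬ p ∣ Nat.card G) {r : ℕ} (hr : Nat.card W = p ^ r)
    (hf : ∀ g : G, (∀ w : W, g • w = w) → g = 1) :
    ∃ θ : G → ℂ, IsCharacter G θ ∧ (∀ g, θ g = θ 1 → g = 1) ∧ charDegree θ ≤ r := by
  haveI : SMulCommClass G (ZMod p) W :=
    ⟨fun g c w => ZMod.map_smul (DistribSMul.toAddMonoidHom W g) c w⟩
  obtain ⟨θ, h1, h2, h3⟩ := Tr.exists_char (DistribMulAction.toModuleEnd (ZMod p) W)
    ((injective_iff_map_eq_one _).2 fun g hg => hf g fun w => LinearMap.congr_fun hg w) hG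
  have h4 : Module.finrank (ZMod p) W = r := by
    have := Module.natCard_eq_pow_finrank (K := ZMod p) (V := W)
    rw [Nat.card_zmod] at this
    exact Nat.pow_right_injective hp.out.two_le (this.symm.trans hr)
  exact ⟨θ, h1, h2, h4 ▸ h3⟩

theorem exists_char_add {G W : Type*} [Group G] [Finite G] [AddCommGroup W] [Finite W]
    [DistribMulAction G W] {p : ℕ} [hp : Fact p.Prime] (hW : ∀ w : W, p • w = 0)
    (hG : ¬ p ∣ Nat.card G) {r : ℕ} (hr : Nat.card W = p ^ r)
    (hf : ∀ g : G, (∀ w : W, g • w = w) → g = 1) :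
    ∃ θ : G → ℂ, IsCharacter G θ ∧ (∀ g, θ g = θ 1 → g = 1) ∧ charDegree θ ≤ r :=
  @exists_char_mod G W _ _ _ _ _ p _ (AddCommGroup.zmodModule hW) hG r hr hf

section coprime

variable {X : Type u} [Group X] [Finite X] {p : ℕ} [hp : Fact p.Prime] (V : Subgroup X) [V.Normal]
  (hV : ∀ v ∈ V, v ^ p = 1) (hidx : ¬ p ∣ V.index) (hself : centralizer (V : Set X) = V)

include hV hidx in
theorem exists_compl : ∃ G : Subgroup X, IsComplement' V G ∧ ¬ p ∣ Nat.card G := by
  have h1 : IsPGroup p V := fun v => ⟨1, Subtype.ext (by rw [pow_one]; exact hV v.1 v.2)⟩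
  obtain ⟨n, hn⟩ := IsPGroup.iff_card.1 h1
  obtain ⟨G, hG⟩ := exists_right_complement'_of_coprime (N := V) (by
    rw [hn]; exact Nat.Coprime.pow_left _ ((Nat.Prime.coprime_iff_not_dvd hp.out).2 hidx))
  exact ⟨G, hG, by rwa [← hG.symm.index_eq_card]⟩

include hV hidx hself

/-- the `k(GV)` bound for nilpotent `G` -/
theorem kc_nil {H : Type*} [Group H] [Group.IsNilpotent H] (f : X →* H) (hf : f.ker ≤ V) :
    kc X ≤ Nat.card V := by
  classical
  obtain ⟨G, hG, hpG⟩ := exists_compl V hV hidx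
  have hinj : Function.Injective (f.comp G.subtype) := (injective_iff_map_eq_one _).2 fun g hg =>
    Subtype.ext (mem_bot.1 (hG.disjoint.le_bot ⟨hf hg, g.2⟩))
  haveI : Group.IsNilpotent G := Group.nilpotent_of_mulEquiv (MonoidHom.ofInjective hinj).symm
  have hc : ∀ a b : V, a * b = b * a := fun a b =>
    Subtype.ext ((hself.ge b.2) a a.2)
  letI : CommGroup V := { (inferInstance : Group V) with mul_comm := hc }
  let φ : G →* MulAut V := (MulAut.conjNormal (H := V)).comp G.subtype
  letI := mulAct φ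
  have hel : IsElementaryAbelian p (⊤ : Subgroup V) := CF.Solv.isElementaryAbelian_top_iff.2
    ⟨⟨⟨hc⟩⟩, fun v => Subtype.ext (hV v.1 v.2)⟩
  obtain ⟨n, hn⟩ := IsPGroup.iff_card.1
    (show IsPGroup p V from fun v => ⟨1, Subtype.ext (by rw [pow_one]; exact hV v.1 v.2)⟩)
  have hcop : (Nat.card G).Coprime (Nat.card V) := by
    rw [hn]; exact Nat.Coprime.pow_right _ ((Nat.Prime.coprime_iff_not_dvd hp.out).2 hpG).symm
  obtain ⟨v, -, β, hβ⟩ := rp p _ G (Additive V) (fun v => Subtype.ext (hV v.toMul.1 v.toMul.2))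
    hpG (fun Y _ hY => by
      obtain ⟨W, -, h3, h4⟩ := CF.Solv.exists_complement_of_isElementaryAbelian hel
        (le_top (a := AddSubgroup.toSubgroup' Y))
      obtain ⟨W', h5, h6⟩ := CF.Coprime.exists_invariant_isCompl φ _ W
        (hcop.coprime_dvd_right (card_subgroup_dvd_card _)) (fun g x hx => hY g trivial _ hx)
        (IsCompl.of_eq h3 h4)
      refine ⟨W'.toAddSubgroup, le_top, fun g _ v hv => h6 g _ hv, ?_, ?_⟩
      · apply AddSubgroup.toSubgroup'.injective
        rw [OrderIso.map_inf, OrderIso.map_bot]; exact h5.inf_eq_bot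
      · apply AddSubgroup.toSubgroup'.injective
        rw [OrderIso.map_sup, OrderIso.map_top]; exact h5.sup_eq_top) (Nat.lt_succ_self _)
  let π : X → Additive V := fun a => if h : a ∈ V then Additive.ofMul ⟨a, h⟩ else 0
  have hπ : ∀ a (h : a ∈ V), π a = Additive.ofMul ⟨a, h⟩ := fun a h => dif_pos h
  refine Cfsg.Agent.S4959.result p V hV hidx hself G hG v.toMul.1 v.toMul.2 V le_rfl
    (fun h _ _ u hu => ‹V.Normal›.conj_mem u hu h) (fun h hh _ h1 => ?_)
    (fun a b => β (π a) (π b)) (fun a ha b hb c hc => ?_) (fun a ha b hb c hc => ?_)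
    (fun g hg h1 a ha b hb => ?_) fun a ha h0 => ?_
  · refine mem_bot.1 (hG.disjoint.le_bot ⟨hself.le fun u hu => ?_, hh⟩)
    rw [← mul_inv_eq_iff_eq_mul.1 (h1 u hu)]
  · rw [hπ _ (V.mul_mem ha hb), hπ a ha, hπ b hb, ← hβ.l _ trivial _ trivial _ trivial]; rfl
  · rw [hπ _ (V.mul_mem hb hc), hπ c hc, hπ b hb, ← hβ.r _ trivial _ trivial _ trivial]; rfl
  · rw [hπ _ (‹V.Normal›.conj_mem a ha g), hπ _ (‹V.Normal›.conj_mem b hb g), hπ a ha, hπ b hb]
    exact hβ.inv ⟨g, hg⟩ ⟨trivial, Subtype.ext h1⟩ (Additive.ofMul ⟨a, ha⟩) trivial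
      (Additive.ofMul ⟨b, hb⟩) trivial
  · refine congrArg Subtype.val (hβ.nd (Additive.ofMul ⟨a, ha⟩) trivial fun b _ => ?_)
    have := h0 b.toMul.1 b.toMul.2
    rwa [hπ a ha, hπ _ b.toMul.2] at this

theorem kc_cop [Group.IsSolvable X] {r : ℕ} (hr : Nat.card V = p ^ r) :
    kc X ≤ 3 ^ (r - 1) * p ^ r := by
  obtain ⟨G, hG, hpG⟩ := exists_compl V hV hidx
  have hc : ∀ a b : V, a * b = b * a := fun a b =>
    Subtype.ext ((hself.ge b.2) a a.2)
  letI : CommGroup V := { (inferInstance : Group V) with mul_comm := hc }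
  let φ : G →* MulAut V := (MulAut.conjNormal (H := V)).comp G.subtype
  letI := mulAct φ
  obtain ⟨θ, h1, h2, h3⟩ := exists_char_add (G := G) (W := Additive V)
    (fun v => Subtype.ext (hV v.toMul.1 v.toMul.2)) hpG hr fun g hg => by
      refine Subtype.ext (mem_bot.1 (hG.disjoint.le_bot ⟨hself.le fun u hu => ?_, g.2⟩))
      have : (g : X) * u * (g : X)⁻¹ = u := congrArg Subtype.val (hg (Additive.ofMul ⟨u, hu⟩))
      rw [← mul_inv_eq_iff_eq_mul.1 this]
  have h5 := kb_fit h1 h2 h3
  let f : X →* G := hG.symm.QuotientMulEquiv.toMonoidHom.comp (QuotientGroup.mk' V)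
  have hf : ∀ x, f x = 1 ↔ x ∈ V := fun x =>
    (map_eq_one_iff _ hG.symm.QuotientMulEquiv.injective).trans (QuotientGroup.eq_one_iff x)
  let g := (QuotientGroup.mk' (fittingSubgroup G)).comp f
  have hVF : V ≤ g.ker := fun v hv => by
    change QuotientGroup.mk' _ (f v) = 1; rw [(hf v).2 hv, map_one]
  have h6 : kc g.ker ≤ Nat.card (V.subgroupOf g.ker) :=
    kc_nil (V.subgroupOf g.ker) (fun v hv => Subtype.ext (hV v.1 hv))
      (fun e => hidx (e.trans (relIndex_dvd_index_of_le hVF)))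
      (le_antisymm (fun x hx => hself.le fun u hu => congrArg Subtype.val (hx ⟨u, hVF hu⟩ hu))
        fun x hx u hu => Subtype.ext (hself.ge hx u.1 hu))
      ((f.comp g.ker.subtype).codRestrict (fittingSubgroup G) fun x =>
        (QuotientGroup.eq_one_iff _).1 x.2)
      fun x hx => (hf x.1).1 (congrArg Subtype.val hx)
  rw [Nat.card_congr (subgroupOfEquivOfLe hVF).toEquiv, hr] at h6
  rw [mul_comm]
  exact (kc_le_mul g.ker).trans (Nat.mul_le_mul h6 (KB.ker g h5).top)

end coprime

theorem kc_core {p : ℕ} [hp : Fact p.Prime] {X : Type u} [Group X] [Finite X] [Group.IsSolvable X]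
    (h0 : pPrimeCore p X = ⊥) :
    kc X ≤ 3 ^ ((Nat.card X).factorization p - 1) * p ^ (Nat.card X).factorization p := by
  induction hn : Nat.card X using Nat.strong_induction_on generalizing X with
  | _ n ih =>
  subst hn
  have hfac : ∀ (N : Subgroup X) [N.Normal], (Nat.card X).factorization p =
      (Nat.card N).factorization p + (Nat.card (X ⧸ N)).factorization p := fun N _ => by
    rw [card_eq_card_quotient_mul_card_subgroup N,
      Nat.factorization_mul Nat.card_pos.ne' Nat.card_pos.ne', Finsupp.add_apply, add_comm]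
  have hlt : ∀ (N : Subgroup X) [N.Normal], N ≠ ⊥ → Nat.card (X ⧸ N) < Nat.card X := fun N _ hN => by
    rw [card_eq_card_quotient_mul_card_subgroup N]
    exact lt_mul_of_one_lt_right Nat.card_pos ((one_lt_card_iff_ne_bot N).2 hN)
  set P := pCore p X with hP
  have hPp : IsPGroup p P := CF.Solv.pCore_isPGroup
  have hC : centralizer (P : Set X) ≤ P := CF.Solv.centralizer_pCore_le h0
  by_cases hP1 : P = ⊥
  · have : Nat.card X = 1 := by
      rw [hP1] at hC
      rw [← card_top, card_eq_one, eq_bot_iff]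
      exact fun x _ => hC fun y hy => by rw [mem_bot.1 hy, one_mul, mul_one]
    exact ((Tr.classes_le_card X).trans this.le).trans (Nat.mul_pos (by positivity)
      (pow_pos hp.out.pos _))
  by_cases hΦ : (frattini P).map P.subtype = ⊥
  · have hel := (CF.Solv.map_frattini_eq_bot_iff hPp).1 hΦ
    have := hel.1
    let f := (QuotientGroup.mk' (pPrimeCore p (X ⧸ P))).comp (QuotientGroup.mk' P)
    have hf : Function.Surjective f :=
      (QuotientGroup.mk'_surjective _).comp (QuotientGroup.mk'_surjective _)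
    have hPY : P ≤ f.ker := fun v hv => by
      change QuotientGroup.mk' _ (QuotientGroup.mk' P v) = 1
      rw [QuotientGroup.mk'_apply P, (QuotientGroup.eq_one_iff v).2 hv, map_one]
    obtain ⟨a, ha⟩ := IsPGroup.iff_card.1 hPp
    have ha0 : a ≠ 0 := by
      rintro rfl
      exact hP1 (card_eq_one.1 ha)
    have hY : f.ker = (pPrimeCore p (X ⧸ P)).comap (QuotientGroup.mk' P) := by
      rw [← MonoidHom.comap_ker, QuotientGroup.ker_mk']
    have hidx : ¬ p ∣ P.relIndex f.ker := by
      have := relIndex_ker (K := f.ker) (QuotientGroup.mk' P)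
      rw [QuotientGroup.ker_mk'] at this
      rw [this, hY, map_comap_eq_self_of_surjective (QuotientGroup.mk'_surjective P)]
      exact CF.Solv.not_dvd_card_pPrimeCore
    have h1 : kc f.ker ≤ 3 ^ (a - 1) * p ^ a :=
      kc_cop (P.subgroupOf f.ker) (fun v hv => Subtype.ext (hel.2 v.1 hv)) hidx
        (le_antisymm (fun x hx => hC fun u hu => congrArg Subtype.val (hx ⟨u, hPY hu⟩ hu))
          fun x hx u hu => Subtype.ext (le_centralizer P hx u.1 hu))
        ((Nat.card_congr (subgroupOfEquivOfLe hPY).toEquiv).trans ha)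
    have e := QuotientGroup.quotientKerEquivOfSurjective f hf
    have h2 := ih _ (Nat.card_congr e.toEquiv ▸ hlt f.ker fun e => hP1 (eq_bot_iff.2 (e ▸ hPY)))
      (X := (X ⧸ P) ⧸ pPrimeCore p (X ⧸ P)) CF.Solv.pPrimeCore_quotient_pPrimeCore rfl
    have h3 : (Nat.card f.ker).factorization p = a := by
      rw [← (P.subgroupOf f.ker).card_mul_index,
        Nat.factorization_mul Nat.card_pos.ne' index_ne_zero_of_finite, Finsupp.add_apply,
        Nat.card_congr (subgroupOfEquivOfLe hPY).toEquiv, ha, hp.out.factorization_pow,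
        Nat.factorization_eq_zero_of_not_dvd (n := (P.subgroupOf f.ker).index) hidx]
      simp
    rw [← kc_congr e, ← Nat.card_congr e.toEquiv] at h2
    rw [hfac f.ker, h3]
    set b := (Nat.card (X ⧸ f.ker)).factorization p
    refine (kc_le_mul f.ker).trans ((Nat.mul_le_mul h1 h2).trans ?_)
    rw [mul_mul_mul_comm, ← pow_add, ← pow_add]
    exact Nat.mul_le_mul_right _ (Nat.pow_le_pow_right (by norm_num) (by omega))
  · set Φ := (frattini P).map P.subtype
    haveI : Φ.Normal := inferInstance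
    have h1 := CF.Solv.map_pPrimeCore_of_ker_le_frattini (p := p) (QuotientGroup.mk'_surjective Φ)
      (by rw [QuotientGroup.ker_mk']; exact CF.Solv.map_frattini_le_of_normal P)
    rw [h0, Subgroup.map_bot] at h1
    have h2 := ih _ (hlt Φ hΦ) (X := X ⧸ Φ) h1.symm rfl
    obtain ⟨a, ha⟩ := IsPGroup.iff_card.1 (hPp.to_le (map_subtype_le _ : Φ ≤ P))
    rw [hfac Φ, ha, hp.out.factorization_pow, Finsupp.single_eq_same]
    set b := (Nat.card (X ⧸ Φ)).factorization p
    refine (kc_le_mul Φ).trans ((Nat.mul_le_mul ((Tr.classes_le_card Φ).trans ha.le) h2).trans ?_)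
    rw [mul_left_comm, ← pow_add]
    exact Nat.mul_le_mul_right _ (Nat.pow_le_pow_right (by norm_num) (by omega))

theorem cnt_le_kc {G : Type u} [Group G] [Finite G] (N : Subgroup G) [N.Normal] {θ : N → ℂ}
    (hθ : IsIrrCharacter N θ) (hi : (Clifford.NormalEmb.sub N).Invariant θ) :
    CF.Char.cnt 0 N.subtype θ ≤ kc (G ⧸ N) := by
  have h := CF.Char.cnt_mul (Clifford.NormalEmb.sub N) hθ (QuotientGroup.mk' N)
    ((QuotientGroup.ker_mk' N).trans N.range_subtype.symm) (X := ⊤) (by
      rw [(Clifford.NormalEmb.invariant_iff_inertia _).1 hi,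
        map_top_of_surjective _ (QuotientGroup.mk'_surjective N)])
  rw [← kc_congr (topEquiv (G := G ⧸ N))]
  refine Nat.le_of_mul_le_mul_right (h.trans_le ?_) Nat.card_pos
  rw [← card_comm_eq_card_conjClasses_mul_card]
  exact Nat.card_le_card_of_injective (fun x => ⟨x.1, x.2.1⟩) fun x y e =>
    Subtype.ext (congrArg Subtype.val e :)

open CF.Block in
theorem ncard_block_le {p : ℕ} [hp : Fact p.Prime] {M : Ideal AlgInt} (hM : IsPModular p M)
    {G : Type u} [Group G] [Finite G] [Group.IsSolvable G] {B : Set (IrrCharacter G)}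
    (hB : IsPBlock M B) : B.ncard ≤ 3 ^ (blockDefect p B - 1) * p ^ blockDefect p B := by
  induction hn : Nat.card G using Nat.strong_induction_on generalizing G with
  | _ n ih =>
  have := BlockB.charP_k hM
  have := Fintype.ofFinite G
  set N := pPrimeCore p G with hN
  have := Fintype.ofFinite N
  have hp' : ¬ p ∣ Nat.card N := Solv.not_dvd_card_pPrimeCore
  obtain ⟨χ, hχ⟩ := BlockB.block_nonempty hM hB
  obtain ⟨θ, hθ, h⟩ := Clifford.exists_irr_constituent_comp N.subtype χ.2
  have hb := isPBlock_singleton_of_not_dvd hM hp' ⟨θ, hθ⟩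
  have hcov : eb M B * ebs M N {⟨θ, hθ⟩} ≠ 0 := (covers_iff hM hB hb).1 ⟨χ, hχ, _, rfl, h⟩
  set T := stab ⊤ (ebs M N {⟨θ, hθ⟩}) with hT
  by_cases hTt : T = ⊤
  · have hi := invariant_of_ebs_fix hM hp' (le_stab_iff.1 hTt.ge).2
    obtain ⟨B', h1, h2, h3, -⟩ := Cfsg.Agent.S4492.result p M hM
      (Solv.isPSolvable_of_isSolvable p) N hN ⟨θ, hθ⟩ hi
    obtain rfl := BlockB.block_eq_of_mem_of_mem hM hB h1 hχ ((h2 χ).2 h)
    obtain ⟨P⟩ : Nonempty (Sylow p G) := inferInstance
    have h4 : blockDefect p B = (Nat.card (G ⧸ N)).factorization p := by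
      have h5 := Nat.pow_right_injective hp.out.two_le
        ((BlockB.card_defectGroup hM hB (h3 P)).symm.trans P.card_eq_multiplicity)
      rw [h5, card_eq_card_quotient_mul_card_subgroup N,
        Nat.factorization_mul Nat.card_pos.ne' Nat.card_pos.ne', Finsupp.add_apply,
        Nat.factorization_eq_zero_of_not_dvd hp', add_zero]
    rw [h4]
    refine le_trans ?_ ((cnt_le_kc N hθ hi).trans (kc_core Solv.pPrimeCore_quotient_pPrimeCore))
    rw [← Nat.card_coe_set_eq]
    refine (Nat.card_congr (Equiv.subtypeEquivRight fun ψ => (h2 ψ).trans ?_)).le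
    rw [CF.Char.ov_iff]
    exact ⟨fun e => ⟨CF.Char.not_zero_dvd_charDegree ψ.2, e⟩, fun e => e.2⟩
  · have := Fintype.ofFinite T
    obtain ⟨B', hind, -, h1, h2, -, -⟩ := fr_reduce hM hb hT hB hcov
    obtain ⟨D, hD⟩ := BlockB.exists_defectGroup hM hind.1
    have h4 := h1 _ ((isDefectGroup_iff_sub hM hind.1 D).1 hD)
    have h5 : blockDefect p B = blockDefect p B' := Nat.pow_right_injective hp.out.two_le
      ((h4.card_eq_pow hM hB).symm.trans ((card_map_of_injective T.subtype_injective).trans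
        (BlockB.card_defectGroup hM hind.1 hD)))
    have h6 := ih _ (by
      rw [← hn, ← T.card_mul_index]
      exact lt_mul_of_one_lt_right Nat.card_pos (one_lt_index_of_ne_top hTt)) hind.1 rfl
    rw [h5]
    refine le_trans ?_ h6
    choose! F h7 h8 using h2
    exact Set.ncard_le_ncard_of_injOn F h7 (fun a ha b hb e => Subtype.ext (by
      rw [h8 a ha, h8 b hb, e])) (Set.toFinite _)

end CF.Crit.Kr
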