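import Cfsg.Agent.Fgs2.HK1
import Cfsg.Agent.Fgs2.HK2

/-! Vectors whose stabilisers have small derived length: the framework. -/

set_option autoImplicit false

namespace CF.Crit.Ob

open Subgroup CF.Perm CF.Fgs2.Base CF.Fgs2.HK
open scoped Pointwise commutatorElement

universe u

section ds

variable {G G' : Type*} [Group G] [Group G'] {H K L : Subgroup G} {m n : ℕ}

/-- the derived series of a subgroup -/
def ds (H : Subgroup G) : ℕ → Subgroup G
  | 0 => H
  | n + 1 => ⁅ds H n, ds H n⁆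

theorem ds_mono (h : H ≤ K) (n : ℕ) : ds H n ≤ ds K n := by
  induction n with
  | zero => exact h
  | succ n ih => exact commutator_mono ih ih

theorem ds_add (H : Subgroup G) (m n : ℕ) : ds H (m + n) = ds (ds H m) n := by
  induction n with
  | zero => rfl
  | succ n ih => rw [← add_assoc, ds, ds, ih]

theorem ds_le (H : Subgroup G) (n : ℕ) : ds H n ≤ H := by
  induction n with
  | zero => exact le_rfl
  | succ n ih =>
    exact commutator_le.2 fun a ha b hb => mul_mem (mul_mem (mul_mem (ih ha) (ih hb))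
      (inv_mem (ih ha))) (inv_mem (ih hb))

theorem ds_anti (h : ds H m ≤ K) (e : m ≤ n) : ds H n ≤ K := by
  obtain ⟨k, rfl⟩ := Nat.exists_eq_add_of_le e
  rw [ds_add]
  exact (ds_le _ _).trans h

theorem ds_map (f : G →* G') (H : Subgroup G) (n : ℕ) : (ds H n).map f = ds (H.map f) n := by
  induction n with
  | zero => rfl
  | succ n ih => rw [ds, ds, map_commutator, ih]

theorem ds_step (h1 : ds H m ≤ K) (h2 : ds K n ≤ L) : ds H (m + n) ≤ L := by
  rw [ds_add]
  exact (ds_mono h1 n).trans h2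

theorem ds_top (n : ℕ) : ds (⊤ : Subgroup G) n = derivedSeries G n := by
  induction n with
  | zero => rfl
  | succ n ih => rw [ds, ih, derivedSeries_succ]

theorem ds_one (h : ∀ a ∈ H, ∀ b ∈ H, ⁅a, b⁆ ∈ K) : ds H 1 ≤ K := commutator_le.2 h

theorem ds_comap (f : G →* G') {H' K' : Subgroup G'} (h1 : ∀ g ∈ H, f g ∈ H')
    (h2 : ds H' n ≤ K') : ds H n ≤ K'.comap f :=
  map_le_iff_le_comap.1 (ds_map f H n ▸ (ds_mono (map_le_iff_le_comap.2 h1) n).trans h2)

theorem ds_sub (h : ds (K.subgroupOf H) n ≤ L.subgroupOf H) (e : K ≤ H) : ds K n ≤ L := by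
  rw [← map_subgroupOf_eq_of_le e, ← ds_map]
  exact map_le_iff_le_comap.2 h

end ds

section st

variable {G V : Type*} [Group G] [AddCommGroup V] [DistribMulAction G V] {H S : Subgroup G}
  {U X W : AddSubgroup V} {k d : ℕ}

variable (G) in
/-- the kernel of the action on `U` -/
def fix (U : AddSubgroup V) : Subgroup G := fixingSubgroup G (U : Set V)

theorem mem_fix {g : G} : g ∈ fix G U ↔ ∀ v ∈ U, g • v = v := mem_fixingSubgroup_iff G

theorem fix_sup : fix G X ⊓ fix G W ≤ fix G (X ⊔ W) := fun g hg => mem_fix.2 fun v hv => by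
  obtain ⟨x, hx, w, hw, rfl⟩ := AddSubgroup.mem_sup.1 hv
  rw [smul_add, mem_fix.1 hg.1 x hx, mem_fix.1 hg.2 w hw]

theorem fix_top [FaithfulSMul G V] : fix G (⊤ : AddSubgroup V) = ⊥ :=
  eq_bot_iff.2 fun g hg => eq_of_smul_eq_smul (α := V) fun v => by
    rw [mem_fix.1 hg v trivial, one_smul]

/-- `k` non-conjugate vectors whose stabilisers have derived length at most `d` -/
def St (k d : ℕ) (H : Subgroup G) (U : AddSubgroup V) : Prop :=
  ∃ t : Fin k → V, (∀ i, t i ∈ U) ∧ (∀ i, ds (H ⊓ MulAction.stabilizer G (t i)) d ≤ fix G U) ∧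
    ∀ i j, ∀ h ∈ H, h • t i = t j → i = j

theorem St.one (h : St (k + 1) d H U) {d' : ℕ} (e : d ≤ d') : St 1 d' H U := by
  obtain ⟨t, h1, h2, -⟩ := h
  exact ⟨fun _ => t 0, fun _ => h1 0, fun _ => ds_anti (h2 0) e, fun _ _ _ _ _ => Subsingleton.elim _ _⟩

theorem St.sup (hX : InvOn H X) (hW : InvOn H W) (h : X ⊓ W = ⊥) (hs : St 1 d H X)
    (ht : St 1 d H W) : St 1 d H (X ⊔ W) := by
  obtain ⟨s, s1, s2, -⟩ := hs
  obtain ⟨t, t1, t2, -⟩ := ht
  refine ⟨s + t, fun i => AddSubgroup.add_mem_sup (s1 i) (t1 i), fun i => ?_,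
    fun _ _ _ _ _ => Subsingleton.elim _ _⟩
  have h2 : ∀ g ∈ H ⊓ MulAction.stabilizer G (s i + t i), g • s i = s i ∧ g • t i = t i := by
    intro g ⟨hg, h3⟩
    replace h3 : g • s i + g • t i = s i + t i := smul_add g (s i) (t i) ▸ h3
    have h4 : g • s i - s i = -(g • t i - t i) := by
      rw [neg_sub, sub_eq_sub_iff_add_eq_add, h3, add_comm]
    have h5 : g • s i - s i ∈ X ⊓ W := ⟨X.sub_mem (hX g hg _ (s1 i)) (s1 i),
      h4 ▸ W.neg_mem (W.sub_mem (hW g hg _ (t1 i)) (t1 i))⟩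
    rw [h, AddSubgroup.mem_bot] at h5
    rw [h5, zero_eq_neg] at h4
    exact ⟨sub_eq_zero.1 h5, sub_eq_zero.1 h4⟩
  refine le_trans (le_inf (le_trans (ds_mono (fun g hg => ?_) d) (s2 i))
    (le_trans (ds_mono (fun g hg => ?_) d) (t2 i))) fix_sup
  exacts [⟨hg.1, (h2 g hg).1⟩, ⟨hg.1, (h2 g hg).2⟩]

/-- no element of prime order `> 3` acts -/
def Sm (H K : Subgroup G) : Prop := ∀ q : ℕ, q.Prime → 3 < q → ∀ g ∈ H, g ^ q ∈ K → g ∈ K

/-- transfer to the faithful quotient -/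
structure Tf (H : Subgroup G) (U : AddSubgroup V) {G' : Type*} [Group G'] [DistribMulAction G' U]
    (f : H →* G') : Prop where
  surj : Function.Surjective f
  smul : ∀ (h : H) (u : U), ((f h • u : U) : V) = (h : G) • (u : V)

theorem exists_tf {G : Type*} {V : Type u} [Group G] [AddCommGroup V] [Finite V]
    [DistribMulAction G V] {H : Subgroup G} {U : AddSubgroup V} (hU : InvOn H U) :
    ∃ (G' : Type u) (_ : Group G') (_ : Finite G') (_ : DistribMulAction G' U)
      (_ : FaithfulSMul G' U) (f : H →* G'), Tf H U f := by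
  letI := subAct hU
  letI := rangeAct H U
  exact ⟨(MulAction.toPermHom H U).range, inferInstance, inferInstance, inferInstance,
    ⟨fun h => Subtype.ext (Equiv.ext h)⟩, (MulAction.toPermHom H U).rangeRestrict,
    MonoidHom.rangeRestrict_surjective _, fun _ _ => rfl⟩

namespace Tf

variable {G' : Type*} [Group G'] [DistribMulAction G' U] {f : H →* G'} (h : Tf H U f)
include h

theorem inv {X : AddSubgroup U} (hX : InvOn (⊤ : Subgroup G') X) : InvOn H (X.map U.subtype) := by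
  rintro g hg _ ⟨v, hv, rfl⟩
  exact ⟨_, hX (f ⟨g, hg⟩) trivial v hv, h.smul _ _⟩

theorem irr (hi : IrrOn H U) : IrrOn (⊤ : Subgroup G') (⊤ : AddSubgroup U) := fun X _ hX =>
  (hi _ (AddSubgroup.map_subtype_le X) (h.inv hX)).imp
    ((AddSubgroup.map_eq_bot_iff_of_injective X U.subtype_injective).1) fun e =>
      eq_top_iff.2 fun v _ => by
        obtain ⟨y, hy, e⟩ := e.ge v.2
        exact (Subtype.ext e : y = v) ▸ hy

theorem mem {g : H} : f g ∈ fix G' (⊤ : AddSubgroup U) ↔ g.1 ∈ fix G U := by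
  simp only [mem_fix, Subtype.ext_iff, AddSubgroup.mem_top, forall_const, Subtype.forall, h.smul]

theorem ds {S' : Subgroup G'} (h1 : S ≤ H) (h2 : ∀ g : H, g.1 ∈ S → f g ∈ S')
    (h3 : ds S' d ≤ fix G' (⊤ : AddSubgroup U)) : ds S d ≤ fix G U :=
  ds_sub ((ds_comap f h2 h3).trans fun _ hg => h.mem.1 hg) h1

theorem st (h1 : St k d (⊤ : Subgroup G') (⊤ : AddSubgroup U)) : St k d H U := by
  obtain ⟨t, -, h2, h3⟩ := h1
  refine ⟨fun i => t i, fun i => (t i).2, fun i => h.ds inf_le_left (fun g hg => ?_) (h2 i),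
    fun i j g hg e => h3 i j (f ⟨g, hg⟩) trivial (Subtype.ext ((h.smul _ _).trans e))⟩
  exact ⟨trivial, Subtype.ext ((h.smul _ _).trans hg.2)⟩

theorem sm (h1 : Sm (⊤ : Subgroup G') (fix G' (⊤ : AddSubgroup U))) : Sm H (fix G U) :=
  fun q h2 h3 g hg e => (h.mem (g := ⟨g, hg⟩)).1 (h1 q h2 h3 _ trivial (by
    rw [← map_pow]; exact h.mem.2 e))

end Tf

/-- families of colourings of `G / H` -/
def CS (H : Subgroup G) (k k' d : ℕ) : Prop :=
  ∃ c : Fin k' → G → Fin k, (∀ j g, ∀ h ∈ H, c j (g * h) = c j g) ∧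
    (∀ j (S : Subgroup G), (∀ x ∈ S, ∀ g, c j (x * g) = c j g) → ds S d ≤ H.normalCore) ∧
    ∀ i j x, (∀ g, c i (x * g) = c j g) → i = j

theorem imp_fix (h : Imp G W) (hirr : IrrOn (⊤ : Subgroup G) (⊤ : AddSubgroup V))
    (h1 : ∀ x : G, ∃ r : G, r • W = x • W ∧ ∃ T : Subgroup G, (∀ g ∈ S, r⁻¹ * g * r ∈ T) ∧
      ds T d ≤ fix G W) : ds S d ≤ fix G (⊤ : AddSubgroup V) := fun g hg => mem_fix.2 fun v hv => by
  rw [← sup_orbit hirr h.ne_bot] at hv
  induction hv using AddSubgroup.iSup_induction' with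
  | hp x v hv =>
    obtain ⟨r, h2, T, h3, h4⟩ := h1 x
    have h5 := mem_fix.1 (ds_comap (MulAut.conj r⁻¹).toMonoidHom (fun g hg => by
      simpa using h3 g hg) h4 hg) (r⁻¹ • v) (mem_smul.1 (h2 ▸ hv))
    simpa [mul_smul] using h5
  | h1 => exact smul_zero g
  | hadd x y _ _ hx hy => rw [smul_add, hx, hy]

theorem imp_dl (h : Imp G W) (hirr : IrrOn (⊤ : Subgroup G) (⊤ : AddSubgroup V)) {d' : ℕ}
    (h1 : ds ⊤ d' ≤ (MulAction.stabilizer G W).normalCore)
    (h2 : ds (MulAction.stabilizer G W) d ≤ fix G W) :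
    ds ⊤ (d' + d) ≤ fix G (⊤ : AddSubgroup V) := by
  rw [ds_add]
  exact imp_fix h hirr fun x => ⟨x, rfl, _, fun g hg => by simpa using h1 hg x⁻¹, h2⟩

theorem imp_st [Finite V] (h : Imp G W) (hirr : IrrOn (⊤ : Subgroup G) (⊤ : AddSubgroup V))
    {k' d' : ℕ} (hc : CS (MulAction.stabilizer G W) k k' d')
    (ht : St k d (MulAction.stabilizer G W) W) :
    St k' (d' + d) (⊤ : Subgroup G) (⊤ : AddSubgroup V) := by
  classical
  obtain ⟨c, c1, c2, c3⟩ := hc
  obtain ⟨t, t1, t2, t3⟩ := ht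
  haveI : Finite (AddSubgroup V) := Finite.of_injective _ SetLike.coe_injective
  haveI := Fintype.ofFinite (MulAction.orbit G W)
  choose r hr using fun X : MulAction.orbit G W => X.2
  replace hr : ∀ X, r X • W = X := hr
  have hm : ∀ (X : MulAction.orbit G W) j, r X • t j ∈ (X : AddSubgroup V) := fun X j => by
    rw [← hr X]; exact AddSubgroup.smul_mem_pointwise_smul _ _ _ (t1 j)
  have hn : ∀ (g : G) X, (r (g • X))⁻¹ * g * r X ∈ MulAction.stabilizer G W := fun g X => by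
    rw [MulAction.mem_stabilizer_iff, mul_smul, mul_smul, hr, inv_smul_eq_iff, hr]; rfl
  have h4 : ∀ j (x : G), c j (r ⟨x • W, x, rfl⟩) = c j x := fun j x => by
    rw [← c1 j x (x⁻¹ * r ⟨x • W, x, rfl⟩) (by
      rw [MulAction.mem_stabilizer_iff, mul_smul, hr, inv_smul_smul]), mul_inv_cancel_left]
  have key : ∀ i j (g : G), g • ∑ X, r X • t (c i (r X)) = ∑ X, r X • t (c j (r X)) →
      (∀ X, ((r (g • X))⁻¹ * g * r X) • t (c i (r X)) = t (c j (r (g • X)))) ∧
        ∀ x, c j (g * x) = c i x := fun i j g h2 => by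
    rw [Finset.smul_sum, ← Equiv.sum_comp (MulAction.toPerm g⁻¹), ← sub_eq_zero,
      ← Finset.sum_sub_distrib] at h2
    have h1 : ∀ X, ((r (g • X))⁻¹ * g * r X) • t (c i (r X)) = t (c j (r (g • X))) := fun X => by
      have h3 := eq_zero_of_sum h.ind _ (fun Y => AddSubgroup.sub_mem _ ?_ (hm Y _)) h2 (g • X)
      · simp only [MulAction.toPerm_apply, inv_smul_smul, sub_eq_zero] at h3
        rw [mul_smul, mul_smul, h3, inv_smul_smul]
      · have h4 := mem_smul.1 (hm (g⁻¹ • Y) (c i (r (g⁻¹ • Y))))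
        rwa [inv_inv] at h4
    refine ⟨h1, fun x => ?_⟩
    rw [← h4 j (g * x), ← h4 i x, t3 _ _ _ (hn g _) (h1 ⟨x • W, x, rfl⟩)]
    exact congrArg (fun X => c j (r X)) (Subtype.ext (mul_smul g x W))
  refine ⟨fun j => ∑ X, r X • t (c j (r X)), fun _ => trivial, fun j => ?_,
    fun i j g _ e => (c3 j i g (key i j g e).2).symm⟩
  have h5 := c2 j (⊤ ⊓ MulAction.stabilizer G (∑ X, r X • t (c j (r X))))
    fun g hg => (key j j g hg.2).2
  rw [ds_add]
  refine imp_fix h hirr fun x => ⟨r ⟨x • W, x, rfl⟩, hr _, _, fun g hg => ?_, t2 (c j (r ⟨x • W, x, rfl⟩))⟩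
  have h6 : ∀ X : MulAction.orbit G W, g • X = X := fun X => Subtype.ext (by
    have := MulAction.mem_stabilizer_iff.1 (h5 hg (r X)⁻¹)
    rwa [inv_inv, mul_smul, mul_smul, hr, inv_smul_eq_iff, hr] at this)
  have h7 := (key j j g (ds_le _ _ hg).2).1 ⟨x • W, x, rfl⟩
  have h8 := hn g ⟨x • W, x, rfl⟩
  rw [h6] at h7 h8
  exact ⟨h8, h7⟩

end st

theorem exists_aff2 {G : Type u} [Group G] [Finite G] [Group.IsSolvable G] {H : Subgroup G}
    (hH : IsCoatom H) : ∃ (Q : Type u) (_ : CommGroup Q) (_ : Finite Q) (φ : G →* MulAut Q)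
      (s : Q → G), Nat.card Q = H.index ∧
      (∀ X : Subgroup Q, (∀ g, ∀ x ∈ X, φ g x ∈ X) → X = ⊥ ∨ X = ⊤) ∧
      ds φ.ker 1 ≤ H.normalCore ∧ ∀ g ∈ H, (φ g = 1 → g ∈ H.normalCore) ∧
        ∀ q, (s q)⁻¹ * g * s q ∈ H → φ g q = q := by
  wlog hc : H.normalCore = ⊥ generalizing G
  · let p := QuotientGroup.mk' H.normalCore
    have hp : Function.Surjective p := QuotientGroup.mk'_surjective _
    have h1 : (H.map p).comap p = H := by
      rw [comap_map_eq, QuotientGroup.ker_mk', sup_eq_left.2 H.normalCore_le]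
    have h2 : (H.map p).normalCore = ⊥ := eq_bot_iff.2 fun b hb => by
      obtain ⟨b, rfl⟩ := hp b
      exact (QuotientGroup.eq_one_iff b).2 ((normal_le_normalCore (N := Subgroup.comap p _)).2
        ((comap_mono (normalCore_le _)).trans h1.le) hb)
    obtain ⟨Q, _, _, φ, s, a1, a2, a3, a4⟩ := this (H := H.map p) (by
      refine ⟨fun e => hH.1 (by rw [← h1, e, comap_top]), fun K hK => comap_injective hp ?_⟩
      exact hH.2 _ (h1.ge.trans_lt ((comap_lt_comap_of_surjective hp).2 hK))) h2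
    choose z hz using hp
    rw [h2] at a3 a4
    refine ⟨Q, inferInstance, inferInstance, φ.comp p, z ∘ s, ?_, fun X hX => a2 X fun g x hx =>
      hz g ▸ hX (z g) x hx, (ds_comap p (fun _ h => h) a3).trans fun g hg =>
        (QuotientGroup.eq_one_iff g).1 hg, fun g hg => ⟨fun e => (QuotientGroup.eq_one_iff g).1
          ((a4 _ (mem_map_of_mem p hg)).1 e), fun q e => (a4 _ (mem_map_of_mem p hg)).2 q ?_⟩⟩
    · rw [a1, ← index_comap_of_surjective _ fun x => ⟨_, hz x⟩, h1]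
    · simpa [hz] using mem_map_of_mem p e
  have : Nontrivial G := not_subsingleton_iff_nontrivial.1 fun _ => hH.1 (Subsingleton.elim _ _)
  obtain ⟨N, hN⟩ := CF.Solv.exists_isMinNormal (G := G)
  have := hN.1
  have := hN.isMulCommutative
  letI : CommGroup N := { mul_comm := mul_comm' }
  have h1 : (MulAut.conjNormal (H := N)).ker = N := by
    rw [show (MulAut.conjNormal (H := N)).ker = centralizer (N : Set G) from
      Subgroup.ext fun g => ⟨fun e x hx => (mul_inv_eq_iff_eq_mul.1 (congrArg Subtype.val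
        (DFunLike.congr_fun e (⟨x, hx⟩ : N)))).symm, fun e => MulEquiv.ext fun x => Subtype.ext
          (mul_inv_eq_iff_eq_mul.2 (e _ x.2).symm)⟩,
      CF.SolvStr.corefree_centralizer_eq_of_comm hH hc N hN.2.1]
  have h2 := CF.SolvStr.corefree_isComplement'_of_comm hH hc N hN.2.1
  have h3 : ∀ g ∈ N, g ∈ H → g = 1 := fun g a b => mem_bot.1 (h2.disjoint.le_bot ⟨a, b⟩)
  refine ⟨N, inferInstance, inferInstance, MulAut.conjNormal, Subtype.val, h2.index_eq_card.symm,
    fun X hX => ?_, ?_, fun g hg => ⟨fun e => h3 g (h1.le e) hg ▸ one_mem _, fun q e => ?_⟩⟩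
  · rcases hN.2.2 (X.map N.subtype) ⟨by
      rintro _ ⟨x, hx, rfl⟩ g
      exact ⟨_, hX g x hx, rfl⟩⟩ (map_subtype_le X) with h3 | h3
    · exact Or.inl ((Subgroup.map_eq_bot_iff_of_injective X N.subtype_injective).1 h3)
    · exact Or.inr (eq_top_iff.2 fun x _ => by
        obtain ⟨y, hy, e⟩ := h3.ge x.2
        exact (Subtype.ext e : y = x) ▸ hy)
  · rw [h1]
    exact ds_one fun a ha b hb => commutatorElement_eq_one_iff_mul_comm.2
      (congrArg Subtype.val (mul_comm (⟨a, ha⟩ : N) ⟨b, hb⟩)) ▸ one_mem _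
  · have := h3 (q.1⁻¹ * (g * q * g⁻¹)) (mul_mem (inv_mem q.2) (hN.1.conj_mem _ q.2 g))
      (by simpa [mul_assoc] using mul_mem e (inv_mem hg))
    exact Subtype.ext (inv_mul_eq_one.1 this).symm

end CF.Crit.Ob
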