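import Cfsg.Agent.Crit.Ob1
import Cfsg.Agent.Chev.FF

/-! Derived lengths of small solvable linear groups and permutation groups. -/

set_option autoImplicit false

namespace CF.Crit.Ob

open Subgroup CF.Perm CF.Fgs2.Base CF.Fgs2.HK
open scoped Pointwise commutatorElement

universe u

/-- the table of derived lengths -/
def D (n : ℕ) : ℕ :=
  if n ≤ 2 then 0 else if n = 3 then 1 else if n = 9 then 4 else if n ≤ 15 then 2 else
    if n = 16 then 3 else if n ≤ 63 then 4 else if n = 81 then 5 else if n < 4096 then 6 else 8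

/-- a monotone minorant -/
def Dm (n : ℕ) : ℕ :=
  if n ≤ 2 then 0 else if n = 3 then 1 else if n ≤ 15 then 2 else
    if n = 16 then 3 else if n ≤ 63 then 4 else if n ≤ 81 then 5 else if n < 4096 then 6 else 8

theorem D_big {n : ℕ} (h : 82 ≤ n) : D n = if n < 4096 then 6 else 8 := by
  unfold D
  rw [if_neg, if_neg, if_neg, if_neg, if_neg, if_neg, if_neg] <;> omega

theorem D_le (n : ℕ) : D n ≤ if n < 4096 then 6 else 8 := by
  rcases lt_or_ge n 82 with h | h
  · rw [if_pos (by omega)]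
    revert n
    decide
  · exact (D_big h).le

theorem Dm_le' (n : ℕ) : Dm n ≤ D n := by unfold D Dm; split_ifs <;> omega

theorem D_red {a n : ℕ} (h : 2 * a ≤ n) : D a ≤ D n := by
  rcases lt_or_ge n 82 with h1 | h1
  · exact (by decide +kernel : ∀ n < 82, ∀ a < 41, 2 * a ≤ n → D a ≤ D n) n h1 a (by omega) h
  · refine (D_le a).trans ?_
    rw [D_big h1]
    split_ifs <;> omega

theorem Dm_le {a n : ℕ} (h : a ≤ n) : Dm a ≤ D n := by
  rcases lt_or_ge n 82 with h1 | h1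
  · exact (by decide +kernel : ∀ n < 82, ∀ a ≤ n, Dm a ≤ D n) n h1 a h
  · refine ((Dm_le' a).trans (D_le a)).trans ?_
    rw [D_big h1]
    split_ifs <;> omega

set_option synthInstance.maxSize 2000

theorem D_imp {a r n : ℕ} (ha : 2 ≤ a) (hr : 2 ≤ r) (h : a ^ r ≤ n) (hn : n < 16384) :
    D r + 1 + D a ≤ D n ∧ (n ≤ 256 → D r + 1 + D a ≤ 5) := by
  have key : ∀ r < 14, ∀ a < 128, 2 ≤ a → 2 ≤ r → a ^ r < 16384 →
      D r + 1 + D a ≤ Dm (a ^ r) ∧ (a ^ r ≤ 256 → D r + 1 + D a ≤ 5) := by decide +kernel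
  have h1 : r < 14 := (Nat.pow_lt_pow_iff_right (a := 2) one_lt_two).1
    (((Nat.pow_le_pow_left ha r).trans h).trans_lt hn)
  have h2 : a < 128 := (Nat.pow_lt_pow_iff_left (n := 2) two_ne_zero).1
    (((Nat.pow_le_pow_right (by omega) hr).trans h).trans_lt hn)
  obtain ⟨h3, h4⟩ := key r h1 a h2 ha hr (h.trans_lt hn)
  exact ⟨h3.trans (Dm_le h), fun e => h4 (h.trans e)⟩

theorem D_qp {e w m : ℕ} (he : 2 ≤ e) (hm : e ≤ m) (hw : 3 ≤ w) (h : e ∣ (w - 1) ^ e)
    (hn : w ^ m < 16384) : D (e ^ 2) + 2 ≤ D (w ^ m) ∧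
      (w ^ m ≤ 256 → D (e ^ 2) + 2 ≤ 5 ∨ e = 3 ∧ w = 4) := by
  have key : ∀ m < 9, ∀ e ≤ m, ∀ w < 128, 2 ≤ e ∧ 3 ≤ w ∧ e ∣ (w - 1) ^ e ∧ w ^ m < 16384 →
      D (e ^ 2) + 2 ≤ D (w ^ m) ∧ (w ^ m ≤ 256 → D (e ^ 2) + 2 ≤ 5 ∨ e = 3 ∧ w = 4) := by
    decide +kernel
  exact key m ((Nat.pow_lt_pow_iff_right (a := 3) (by norm_num)).1
    (((Nat.pow_le_pow_left hw m).trans_lt hn).trans (by norm_num))) e hm w
      ((Nat.pow_lt_pow_iff_left (n := 2) two_ne_zero).1
        ((Nat.pow_le_pow_right (by omega) (he.trans hm)).trans_lt hn)) ⟨he, hw, h, hn⟩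

section small

variable {G V : Type*} [Group G] [Finite G] [AddCommGroup V] [DistribMulAction G V]

theorem sm_of_card (h : ∀ q : ℕ, q.Prime → q ∣ Nat.card G → q ≤ 3) : Sm (⊤ : Subgroup G) ⊥ :=
  fun q h1 h2 g _ e => orderOf_eq_one_iff.1 (((Nat.dvd_prime h1).1
    (orderOf_dvd_of_pow_eq_one e)).resolve_right fun e' =>
      (h q h1 (e' ▸ orderOf_dvd_natCard g)).not_gt h2)

omit [Finite G] in
theorem card_dvd_fact [Finite V] [FaithfulSMul G V] : Nat.card G ∣ (Nat.card V - 1).factorial := by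
  classical
  let T : SubMulAction G V := ⟨{v | v ≠ 0}, fun g v hv => (smul_ne_zero_iff_ne g).2 hv⟩
  have h1 : Nat.card T = Nat.card V - 1 := by
    have := Fintype.ofFinite V
    rw [Nat.card_eq_fintype_card (α := V), ← Set.card_ne_eq (0 : V), ← Nat.card_eq_fintype_card]
    rfl
  rw [← h1, ← Nat.card_perm]
  refine card_dvd_of_injective (MulAction.toPermHom G T) ((injective_iff_map_eq_one _).2
    fun g hg => eq_of_smul_eq_smul (α := V) fun v => ?_)
  by_cases hv : v = 0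
  · simp [hv]
  · exact (congrArg Subtype.val (DFunLike.congr_fun hg (⟨v, hv⟩ : T))).trans (one_smul G v).symm

theorem ds_small [Finite V] [FaithfulSMul G V] (h : Nat.card V ≤ 3) :
    ds (⊤ : Subgroup G) (D (Nat.card V)) ≤ ⊥ := by
  have h1 := card_dvd_fact (G := G) (V := V)
  rcases h.eq_or_lt with h | h
  · rw [h] at h1 ⊢
    have := Fact.mk Nat.prime_two
    have := isCyclic_of_card_dvd_prime (p := 2) h1
    exact ds_one fun a _ b _ => commutatorElement_eq_one_iff_mul_comm.2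
      (IsCyclic.commGroup.mul_comm a b)
  · have h2 : (Nat.card V - 1).factorial = 1 := Nat.factorial_eq_one.2 (by omega)
    have := (Nat.card_eq_one_iff_unique.1 (Nat.dvd_one.1 (h2 ▸ h1))).1
    exact fun _ _ => Subsingleton.elim _ _

omit [Finite G] in
theorem sm_small [Finite V] {H : Subgroup G} {U : AddSubgroup V} (hU : InvOn H U)
    (h : Nat.card U ≤ 4) : Sm H (fix G U) := by
  obtain ⟨G', _, _, _, _, f, h1⟩ := exists_tf hU
  refine h1.sm (fix_top (G := G') (V := U) ▸ sm_of_card fun q h2 h3 => ?_)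
  have := h2.dvd_factorial.1 (h3.trans (card_dvd_fact (V := U)))
  omega

end small

section qp

variable {G V K Q : Type*} [Group G] [Finite G] [AddCommGroup V] [Finite V] [Nontrivial V]
  [DistribMulAction G V] [FaithfulSMul G V] [Field K] [Finite K] [Module K V] [CommGroup Q]
  [Finite Q] {A M : Subgroup G} {σ : G →* RingAut K} {φ : G →* MulAut Q} {β : Q →* Q →* Kˣ}
  {p : M →* Q} (h : QP V A M σ φ β p) {d e : ℕ} {v : V}
include h

local notation "𝐂" => centralizer (A : Set G)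
local notation "𝚪" => Subgroup.map φ (centralizer (A : Set G))
local notation "𝐰" => Nat.card K
local notation "𝐧" => Module.finrank K V

omit [Finite G] [Finite V] [Nontrivial V] [FaithfulSMul G V] [Finite Q] in
theorem qp_C (S : Subgroup G) : ds S 1 ≤ 𝐂 := ds_one fun a _ b _ => h.fs.ker.le (by
  have := CF.Chev.isCyclic_ringAut (F := K)
  rw [MonoidHom.mem_ker, map_commutatorElement]
  exact commutatorElement_eq_one_iff_mul_comm.2 (IsCyclic.commGroup.mul_comm _ _))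

omit [Finite G] [Finite V] [Nontrivial V] [FaithfulSMul G V] [Finite Q] in
theorem qp_A (hd : 1 ≤ d) (h1 : ds ⊤ d ≤ φ.ker) : ds ⊤ (d + 1) ≤ A :=
  ds_step (fun g hg => (h.triv g (ds_anti (qp_C h ⊤) hd hg)).1 (h1 hg)) (ds_one h.am.comm)

omit [Finite G] [Finite V] [Nontrivial V] [FaithfulSMul G V] [Finite Q] in
theorem qp_one (hQ : Nat.card Q = 1) : ds ⊤ 1 ≤ A := fun g hg => by
  have := (Nat.card_eq_one_iff_unique.1 hQ).1
  exact (h.ker ⟨g, (h.triv g (qp_C h ⊤ hg)).1 (MulEquiv.ext fun _ => Subsingleton.elim _ _)⟩).1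
    (Subsingleton.elim _ _)

omit [Finite G] [Finite V] [Nontrivial V] [FaithfulSMul G V] [Finite K] [Finite Q] in
theorem qp_top (h1 : ds ⊤ d ≤ A) : ds ⊤ (d + 1) ≤ fix G (⊤ : AddSubgroup V) :=
  ds_step h1 (ds_one fun a ha b hb => commutatorElement_eq_one_iff_mul_comm.2
    (h.am.cen (h.am.le hb) a ha) ▸ one_mem _)

theorem qp_stab (h1 : ds ⊤ d ≤ A) (hv : v ≠ 0) :
    ds (⊤ ⊓ MulAction.stabilizer G v) d ≤ fix G (⊤ : AddSubgroup V) := fun _ hg =>
  h.eq_one_of_fix (h1 (ds_mono le_top d hg)) hv (ds_le _ _ hg).2 ▸ one_mem _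

theorem qp_dvd (he : Nat.card Q = e ^ 2) : e ∣ Nat.card A ^ e :=
  (Nat.dvd_pow_self_iff (by rintro rfl; exact Nat.card_pos.ne' he) Nat.card_pos.ne').2
    fun r hr => Nat.mem_primeFactors.2 ⟨Nat.prime_of_mem_primeFactors hr, h.prime_dvd he
      (Nat.prime_of_mem_primeFactors hr) (Nat.dvd_of_mem_primeFactors hr), Nat.card_pos.ne'⟩

theorem qp_card (he : Nat.card Q = e ^ 2) :
    Nat.card G = (𝐂).index * (Nat.card 𝚪 * (e ^ 2 * Nat.card A)) := by
  rw [← index_mul_card 𝐂, h.card_cent he]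

theorem qp_sm (he : Nat.card Q = 3 ^ 2) (hw : 𝐰 = 4) : Sm (⊤ : Subgroup G) ⊥ := by
  refine sm_of_card fun q h1 h2 => ?_
  obtain ⟨k, h3, h4⟩ := h.fs.exists_pow_index
  have h5 := h.card_le
  rw [qp_card h he] at h2
  rcases h1.dvd_mul.1 h2 with h2 | h2
  · have := Nat.le_of_dvd (Nat.pos_of_ne_zero index_ne_zero_of_finite) h2
    have : (𝐂).index ≤ 2 := (Nat.pow_le_pow_iff_right one_lt_two).1
      ((Nat.pow_le_pow_left h3 _).trans (h4.symm.trans hw).le)
    omega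
  rcases h1.dvd_mul.1 h2 with h2 | h2
  · obtain ⟨e, a1, a2, a3⟩ := exists_dvd_of_prime_dvd_card_mulAut h1
      (h2.trans (card_subgroup_dvd_card _))
    rw [he] at a1 a2 a3
    have := Nat.le_of_dvd (by omega) a3
    by_contra a4
    interval_cases e <;> interval_cases q <;> first | omega | exact absurd h1 (by norm_num)
  rcases h1.dvd_mul.1 h2 with h2 | h2
  · exact Nat.le_of_dvd three_pos (h1.dvd_of_dvd_pow h2)
  · have := Nat.le_of_dvd Nat.card_pos h2
    omega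

end qp

/-- the table is valid below `n` -/
def T (n : ℕ) : Prop :=
  ∀ (G V : Type u) [Group G] [Finite G] [Group.IsSolvable G] [AddCommGroup V] [Finite V]
    [DistribMulAction G V] (H : Subgroup G) (U : AddSubgroup V), InvOn H U → CROn H U →
    Nat.card U < n → ds H (D (Nat.card U)) ≤ fix G U ∧
      (Nat.card U ≤ 256 → ds H 5 ≤ fix G U ∨ Sm H (fix G U))

theorem T.mul {n : ℕ} (h : T.{u} n) {G Q : Type u} [Group G] [Finite G] [Group.IsSolvable G]
    [CommGroup Q] [Finite Q] (φ : G →* MulAut Q)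
    (hcr : ∀ X : Subgroup Q, (∀ g, ∀ x ∈ X, φ g x ∈ X) → ∃ W : Subgroup Q,
      (∀ g, ∀ x ∈ W, φ g x ∈ W) ∧ X ⊓ W = ⊥ ∧ X ⊔ W = ⊤) (hn : Nat.card Q < n) :
    ds ⊤ (D (Nat.card Q)) ≤ φ.ker ∧ (Nat.card Q ≤ 256 → ds ⊤ 5 ≤ φ.ker ∨ Sm ⊤ φ.ker) := by
  letI := mulAct φ
  have h1 := h G (Additive Q) ⊤ ⊤ (fun _ _ _ _ => trivial) (fun X _ hX => by
    obtain ⟨W, h1, h2, h3⟩ := hcr (AddSubgroup.toSubgroup' X) fun g x hx => hX g trivial _ hx
    refine ⟨W.toAddSubgroup, le_top, fun g _ v hv => h1 g _ hv, ?_, ?_⟩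
    · apply AddSubgroup.toSubgroup'.injective
      rw [OrderIso.map_inf, OrderIso.map_bot]; exact h2
    · apply AddSubgroup.toSubgroup'.injective
      rw [OrderIso.map_sup, OrderIso.map_top]; exact h3) (AddSubgroup.card_top.trans_lt hn)
  rwa [show fix G (⊤ : AddSubgroup (Additive Q)) = φ.ker from Subgroup.ext fun g =>
    ⟨fun hg => MulEquiv.ext fun x => hg ⟨Additive.ofMul x, trivial⟩,
      fun hg v => congrArg Additive.ofMul (DFunLike.congr_fun hg v.1.toMul)⟩,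
    AddSubgroup.card_top] at h1

theorem T.prim {n : ℕ} (h : T.{u} n) {G : Type u} [Group G] [Finite G] [Group.IsSolvable G]
    {H : Subgroup G} (hH : IsCoatom H) (hn : H.index < n) :
    ds ⊤ (D H.index + 1) ≤ H.normalCore := by
  obtain ⟨Q, _, _, φ, s, h1, h2, h3, -⟩ := exists_aff2 hH
  exact ds_step (h1 ▸ (h.mul φ (cr_of_irr h2) (h1 ▸ hn)).1) h3

theorem exists_imp {G V : Type*} [Group G] [Finite G] [AddCommGroup V] [DistribMulAction G V]
    (hirr : IrrOn (⊤ : Subgroup G) (⊤ : AddSubgroup V)) {W : AddSubgroup V} (h : Imp G W) :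
    ∃ X : AddSubgroup V, Imp G X ∧ IsCoatom (MulAction.stabilizer G X) ∧
      2 ≤ (MulAction.stabilizer G X).index := by
  obtain ⟨L, h1, h2⟩ := (eq_top_or_exists_le_coatom (MulAction.stabilizer G W)).resolve_left
    fun e => (hirr W le_top (e ▸ invOn_stab W)).elim h.ne_bot h.ne_top
  obtain ⟨X, h3, rfl⟩ := exists_coarse h hirr h1 h2
  exact ⟨X, h3, h1, one_lt_index_of_ne_top h1.1⟩

theorem T.irr {G V : Type u} [Group G] [Finite G] [Group.IsSolvable G] [AddCommGroup V] [Finite V]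
    [Nontrivial V] [DistribMulAction G V] [FaithfulSMul G V] (ih : T.{u} (Nat.card V))
    (hn : Nat.card V < 16384) (hirr : IrrOn (⊤ : Subgroup G) (⊤ : AddSubgroup V)) :
    ds ⊤ (D (Nat.card V)) ≤ fix G (⊤ : AddSubgroup V) ∧ (Nat.card V ≤ 256 →
      ds ⊤ 5 ≤ fix G (⊤ : AddSubgroup V) ∨ Sm ⊤ (fix G (⊤ : AddSubgroup V))) := by
  obtain ⟨A, hA1, hA2, hA3⟩ := exists_max_abelian (G := G)
  obtain ⟨M, hM⟩ := exists_AM A hA3
  rcases fs_or_imp hirr A hA2 with ⟨K, _, _, _, σ, h⟩ | ⟨W, hW⟩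
  · obtain ⟨Q, _, φ, β, p, h⟩ := exists_QP h hM
    have : Finite Q := Finite.of_surjective p h.surj
    by_cases hQ : Nat.card Q = 1
    · have h1 := qp_top h (qp_one h hQ)
      refine ⟨?_, fun _ => Or.inl (ds_anti h1 (by norm_num))⟩
      rcases le_or_gt (Nat.card V) 3 with h2 | h2
      · exact (ds_small h2).trans bot_le
      · exact ds_anti h1 (le_trans (by decide) (Dm_le h2))
    obtain ⟨e, he⟩ := h.sy.exists_sq
    have e1 : e ≠ 1 := fun e1 => hQ (by rw [he, e1]; rfl)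
    have e2 : 2 ≤ e := by
      have : e ≠ 0 := by rintro rfl; exact Nat.card_pos.ne' he
      omega
    have h1 := qp_top h (qp_A h (le_trans (by decide) (Dm_le (a := 4)
      (he ▸ Nat.pow_le_pow_left e2 2))) (ih.mul φ h.sy.cr (h.card_lt hQ)).1)
    rw [Module.natCard_eq_pow_finrank (K := K) (V := V)] at hn ⊢
    obtain ⟨h2, h3⟩ := D_qp e2 (h.le_rank he) (h.three_le he e1)
      ((qp_dvd h he).trans (pow_dvd_pow_of_dvd h.fs.card_dvd e)) hn
    rw [he] at h1
    exact ⟨ds_anti h1 h2, fun e => (h3 e).imp (ds_anti h1) fun ⟨a, b⟩ =>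
      fix_top (G := G) (V := V) ▸ qp_sm h (a ▸ he) b⟩
  obtain ⟨X, h1, h2, h3⟩ := exists_imp hirr hW
  have h4 := imp_dl h1 hirr (ih.prim h2 h1.index_lt)
    (ih G V _ X (invOn_stab X) ((h1.irr hirr).cr (invOn_stab X)) h1.card_lt).1
  obtain ⟨h5, h6⟩ := D_imp ((X.one_lt_card_iff_ne_bot).2 h1.ne_bot) h3 h1.pow_le hn
  exact ⟨ds_anti h4 h5, fun e => Or.inl (ds_anti h4 (h6 e))⟩

theorem table (n : ℕ) (hn : n ≤ 16384) : T.{u} n := by
  induction n with
  | zero => exact fun G V _ _ _ _ _ _ _ _ _ _ h => by omega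
  | succ n ih =>
    replace ih := ih (by omega)
    intro G V _ _ _ _ _ _ H U hU hcr h1
    rcases Nat.lt_succ_iff_lt_or_eq.1 h1 with h1 | h1
    · exact ih G V H U hU hcr h1
    subst h1
    by_cases h0 : U = ⊥
    · have : ∀ S : Subgroup G, S ≤ fix G U := fun S g _ => mem_fix.2 fun v hv => by
        rw [h0, AddSubgroup.mem_bot] at hv
        rw [hv, smul_zero]
      exact ⟨this _, fun _ => Or.inl (this _)⟩
    by_cases hirr : IrrOn H U
    · obtain ⟨G', _, _, _, _, f, h2⟩ := exists_tf hU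
      have := (U.nontrivial_iff_ne_bot).2 h0
      have := Group.isSolvable_of_surjective h2.surj
      obtain ⟨h3, h4⟩ := ih.irr hn (h2.irr hirr)
      exact ⟨h2.ds le_rfl (fun _ _ => mem_top _) h3, fun e => (h4 e).imp
        (h2.ds le_rfl fun _ _ => mem_top _) h2.sm⟩
    simp only [IrrOn, not_forall, not_or] at hirr
    obtain ⟨X, h1, h2, h3, h4⟩ := hirr
    obtain ⟨W, h5, h6, h7, h8⟩ := hcr X h1 h2
    have a1 := card_mul_le' h1 h5
    rw [h7, AddSubgroup.card_bot, mul_one] at a1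
    have a2 : 2 ≤ Nat.card X := (X.one_lt_card_iff_ne_bot).2 h3
    have a3 : 2 ≤ Nat.card W := (W.one_lt_card_iff_ne_bot).2 fun e => h4 (by
      rwa [e, sup_bot_eq] at h8)
    have a4 : 2 * Nat.card X ≤ Nat.card U := by nlinarith
    have a5 : 2 * Nat.card W ≤ Nat.card U := by nlinarith
    obtain ⟨b1, b2⟩ := ih G V H X h2 (hcr.mono h1 h2) (by omega)
    obtain ⟨b3, b4⟩ := ih G V H W h6 (hcr.mono h5 h6) (by omega)
    have c1 : ∀ {d}, ds H d ≤ fix G X → ds H d ≤ fix G W → ds H d ≤ fix G U := fun a b =>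
      h8 ▸ (le_inf a b).trans fix_sup
    have c2 : Sm H (fix G X) → Sm H (fix G W) → Sm H (fix G U) := fun a b q hq h3 g hg e =>
      h8 ▸ fix_sup ⟨a q hq h3 g hg (mem_fix.2 fun v hv => mem_fix.1 e v (h1 hv)),
        b q hq h3 g hg (mem_fix.2 fun v hv => mem_fix.1 e v (h5 hv))⟩
    have c3 : ∀ {m}, m ≤ 63 → D m ≤ 5 := fun h => by unfold D; split_ifs <;> omega
    refine ⟨c1 (ds_anti b1 (D_red a4)) (ds_anti b3 (D_red a5)), fun e => ?_⟩
    by_cases d1 : Nat.card X ≤ 63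
    · by_cases d2 : Nat.card W ≤ 63
      · exact Or.inl (c1 (ds_anti b1 (c3 d1)) (ds_anti b3 (c3 d2)))
      · exact (b4 (by omega)).imp (c1 (ds_anti b1 (c3 d1))) (c2 (sm_small h2 (by nlinarith)))
    · have d2 : Nat.card W ≤ 4 := by nlinarith
      exact (b2 (by omega)).imp (c1 · (ds_anti b3 (c3 (by omega)))) (c2 · (sm_small h6 d2))

/-- derived lengths of permutation groups of degree at most seven -/
def pd (m : ℕ) : ℕ := if m ≤ 1 then 0 else if m = 2 then 1 else if m = 3 then 2 else 3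

theorem ds_pd (m : ℕ) (hm : m ≤ 7) : ∀ (G : Type u) [Group G] [Finite G] [Group.IsSolvable G]
    (K : Subgroup G), K.index ≤ m → ds ⊤ (pd m) ≤ K := by
  induction m using Nat.strong_induction_on with
  | _ m ih =>
  intro G _ _ _ K h
  rcases eq_top_or_exists_le_coatom K with rfl | ⟨L, h1, h2⟩
  · exact le_top
  have h3 := relIndex_mul_index h2
  have h4 : 2 ≤ L.index := one_lt_index_of_ne_top h1.1
  have h5 : K.relIndex L ≠ 0 := index_ne_zero_of_finite
  have h6 : K.relIndex L < m := by nlinarith [Nat.pos_of_ne_zero h5]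
  have h7 : L.index ≤ 7 := by nlinarith [Nat.pos_of_ne_zero h5]
  refine ds_anti (ds_step (((table 8 (by norm_num)).prim h1 (by omega)).trans L.normalCore_le)
    (ds_sub (H := L) (subgroupOf_self L ▸ ih _ h6 (by omega) L _ le_rfl) le_rfl)) ?_
  rw [← h3] at h
  have key : ∀ m < 8, ∀ a < m, ∀ b < 8, a ≠ 0 → 2 ≤ b → a * b ≤ m → D b + 1 + pd a ≤ pd m := by
    decide
  exact key m (by omega) _ h6 _ (by omega) h5 h4 h

end CF.Crit.Ob
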