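import Cfsg.Agent.Crit.Ob2

/-! Colourings of primitive solvable permutation groups with few colours. -/

set_option autoImplicit false
set_option synthInstance.maxSize 2000

namespace CF.Crit.Ob

open Subgroup CF.Perm CF.Fgs2.Base CF.Fgs2.HK
open scoped Pointwise commutatorElement

universe u

/-- sizes of colour classes -/
def nc {k : ℕ} (F : ℕ → Fin k) (r : ℕ) (a : Fin k) : ℕ :=
  ((Finset.range r).filter (F · = a)).card

/-- good families of colourings of `{0, …, r - 1}` -/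
def Good {k k' : ℕ} (F : Fin k' → ℕ → Fin k) (r d : ℕ) : Prop :=
  (r < 100 ∧ D r + 1 ≤ d ∨ ∀ j, ∀ i < 4, i < r → nc (F j) r (F j i) ≤ 7 ∧
    pd (nc (F j) r (F j i)) ≤ d) ∧ ∀ i j, (∀ a, nc (F i) r a = nc (F j) r a) → i = j

instance {k k' : ℕ} (F : Fin k' → ℕ → Fin k) (r d : ℕ) : Decidable (Good F r d) := by
  unfold Good; infer_instance

theorem nc_add {k : ℕ} {F : ℕ → Fin k} {z : Fin k} {R r : ℕ} (hz : ∀ i, R ≤ i → F i = z)
    (hr : R ≤ r) (a : Fin k) : nc F r a = nc F R a + if z = a then r - R else 0 := by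
  induction r, hr using Nat.le_induction with
  | base => simp
  | succ r hr ih =>
    unfold nc at ih ⊢
    rw [Finset.range_add_one, Finset.filter_insert, hz r hr]
    split_ifs at ih ⊢ with h
    · rw [Finset.card_insert_of_notMem (by simp), ih]
      omega
    · exact ih

/-- colourings given by lists -/
def lc {k k' : ℕ} (l : Fin k' → List (Fin k)) (z : Fin k' → Fin k) (j : Fin k') (i : ℕ) : Fin k :=
  (l j).getD i (z j)

theorem good_tail {k k' : ℕ} {l : Fin k' → List (Fin k)} {z : Fin k' → Fin k} {r d : ℕ}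
    (hr : 16 ≤ r) (h : (∀ j, (l j).length ≤ 16) ∧ (∀ j, ∀ i < 4, z j ≠ lc l z j i ∧
      nc (lc l z j) 16 (lc l z j i) ≤ 7 ∧ pd (nc (lc l z j) 16 (lc l z j i)) ≤ d) ∧
      ∀ i j, i = j ∨ (z i = z j ∧ ∃ a, nc (lc l z i) 16 a ≠ nc (lc l z j) 16 a) ∨
        (z j ≠ z i ∧ nc (lc l z j) 16 (z i) < nc (lc l z i) 16 (z i))) : Good (lc l z) r d := by
  have hz : ∀ j i, 16 ≤ i → lc l z j i = z j := fun j i hi =>
    List.getD_eq_default _ _ ((h.1 j).trans hi)
  refine ⟨Or.inr fun j i hi _ => ?_, fun i j e => ?_⟩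
  · rw [nc_add (hz j) hr, if_neg (h.2.1 j i hi).1]
    exact (h.2.1 j i hi).2
  rcases h.2.2 i j with h1 | ⟨h1, a, h2⟩ | ⟨h1, h2⟩
  · exact h1
  · have := e a
    rw [nc_add (hz i) hr, nc_add (hz j) hr, h1] at this
    omega
  · have := e (z i)
    rw [nc_add (hz i) hr, nc_add (hz j) hr, if_neg h1] at this
    omega

theorem good_four {r : ℕ} (hr : 2 ≤ r) : ∃ F : Fin 5 → ℕ → Fin 4, Good F r 1 := by
  refine ⟨lc ![[0, 0, 1, 1], [1, 1, 2, 2], [2, 2, 3, 3], [3, 3, 0, 0], [0, 1, 2, 2]]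
    ![2, 3, 0, 1, 3], ?_⟩
  rcases le_or_gt 16 r with h | h
  · exact good_tail h (by decide +kernel)
  · interval_cases r <;> decide +kernel

theorem good_three {r : ℕ} (hr : 2 ≤ r) : ∃ F : Fin 5 → ℕ → Fin 3, Good F r 2 := by
  by_cases h6 : r = 6
  · exact ⟨lc ![[0, 0, 1, 1], [0, 2, 2, 2], [0, 1, 1, 1], [1, 2, 2, 2], [2, 0, 0, 0]]
      ![2, 1, 2, 0, 1], by subst h6; decide +kernel⟩
  refine ⟨lc ![[0, 0, 1, 1], [1, 1, 2, 2], [0, 1, 1, 1], [1, 2, 2, 2], [2, 0, 0, 0]]
    ![2, 0, 2, 0, 1], ?_⟩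
  rcases le_or_gt 16 r with h | h
  · exact good_tail h (by decide +kernel)
  · interval_cases r <;> first | omega | decide +kernel

theorem good_two {r : ℕ} (hr : 4 ≤ r) : ∃ F : Fin 5 → ℕ → Fin 2, Good F r 3 := by
  by_cases h : r = 9 ∨ 16 ≤ r
  · refine ⟨lc ![[0, 0, 0, 0], [0, 0, 0, 0, 0], [0, 0, 0, 0, 0, 0], [0, 0, 0, 0, 0, 0, 0],
      [1, 1, 1, 1, 1, 1, 1]] ![1, 1, 1, 1, 0], ?_⟩
    rcases h with rfl | h
    · decide +kernel
    · exact good_tail h (by decide +kernel)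
  · refine ⟨lc ![[], [0], [0, 0], [0, 0, 0], [0, 0, 0, 0]] ![1, 1, 1, 1, 1], ?_⟩
    have : r < 16 := by omega
    interval_cases r <;> first | omega | decide +kernel

theorem good_two_two : ∃ F : Fin 3 → ℕ → Fin 2, Good F 2 1 :=
  ⟨lc ![[], [0], [0, 0]] ![1, 1, 1], by decide +kernel⟩

theorem good_two_three : ∃ F : Fin 4 → ℕ → Fin 2, Good F 3 2 :=
  ⟨lc ![[], [0], [0, 0], [0, 0, 0]] ![1, 1, 1, 1], by decide +kernel⟩

variable {G : Type u} [Group G] [Finite G] {H : Subgroup G}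

theorem exists_ord [Group.IsSolvable G] (hH : IsCoatom H) : ∃ o : G ⧸ H → ℕ,
    (∀ (P : ℕ → Prop) [DecidablePred P],
      Nat.card {x // P (o x)} = ((Finset.range H.index).filter P).card) ∧ (∀ x, o x < H.index) ∧
      ∀ g : G, (∀ x, o x < 4 → g • x = x) → g ∈ H.normalCore := by
  classical
  obtain ⟨Q, _, _, φ, s, -, h2, -, h3⟩ := exists_aff2 hH
  obtain ⟨t, ht⟩ := (p_sol _).1.mul φ (inferInstance : Group.IsSolvable G) (cr_of_irr h2)
    (Nat.lt_succ_self _)
  have := Fintype.ofFinite (G ⧸ H)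
  let b : Fin 4 → G := Fin.cons 1 (s ∘ t)
  let B : Finset (G ⧸ H) := Finset.univ.image fun i => (b i : G ⧸ H)
  let f : G ⧸ H → ℕ := fun x => if h : x ∈ B then B.equivFin ⟨x, h⟩ else 0
  have hf : ∀ x ∈ B, f x < B.card := fun x hx => by
    simp only [f, dif_pos hx]; exact Fin.is_lt _
  have hr : Fintype.card (G ⧸ H) = H.index := Nat.card_eq_fintype_card.symm
  obtain ⟨e, he⟩ := Finset.exists_equiv_extend_of_card_eq (t := Finset.range H.index)
    (by rw [hr, Finset.card_range]) (s := B) (f := f) (fun i hi => by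
      obtain ⟨x, hx, rfl⟩ := Finset.mem_image.1 hi
      exact Finset.mem_range.2 ((hf x hx).trans_le (hr ▸ B.card_le_univ))) fun x hx y hy e => by
        simp only [f, dif_pos (Finset.mem_coe.1 hx), dif_pos (Finset.mem_coe.1 hy)] at e
        exact congrArg Subtype.val (B.equivFin.injective (Fin.ext e))
  refine ⟨fun x => e x, fun P _ => ?_, fun x => Finset.mem_range.1 (e x).2, fun g hg => ?_⟩
  · rw [Nat.card_eq_fintype_card, Fintype.card_subtype]
    refine Finset.card_bij (fun x _ => (e x : ℕ)) (fun x hx => Finset.mem_filter.2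
      ⟨(e x).2, (Finset.mem_filter.1 hx).2⟩) (fun x _ y _ h => e.injective (Subtype.ext h))
      fun i hi => ⟨e.symm ⟨i, (Finset.mem_filter.1 hi).1⟩, ?_, by simp⟩
    simpa using (Finset.mem_filter.1 hi).2
  have h4 : ∀ i, (b i)⁻¹ * g * b i ∈ H := fun i => by
    have h5 : (b i : G ⧸ H) ∈ B := Finset.mem_image_of_mem _ (Finset.mem_univ i)
    have h6 := hg (b i) ((he _ h5).trans_lt ((hf _ h5).trans_le
      (Finset.card_image_le.trans (by simp))))
    rw [mul_assoc]
    exact QuotientGroup.eq.1 h6.symm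
  have h5 : g ∈ H := by simpa [b] using h4 0
  exact (h3 g h5).1 (ht g fun i => (h3 g h5).2 _ (h4 i.succ))

theorem cs_of_good [Group.IsSolvable G] (hH : IsCoatom H) {k k' d : ℕ}
    (h : ∃ F : Fin k' → ℕ → Fin k, Good F H.index d) : CS H k k' d := by
  obtain ⟨F, h1, h2⟩ := h
  obtain ⟨o, o1, o2, o3⟩ := exists_ord hH
  refine ⟨fun j g => F j (o g), fun j g h hh => by simp only [QuotientGroup.mk_mul_of_mem g hh],
    fun j S hS => ?_, fun i j x e => h2 i j fun a => ?_⟩
  · rcases h1 with ⟨h1, h3⟩ | h1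
    · exact (ds_mono le_top d).trans (ds_anti ((table 100 (by norm_num)).prim hH h1) h3)
    refine fun g hg => o3 g fun x hx => ?_
    obtain ⟨h3, h4⟩ := h1 j _ hx (o2 x)
    refine ds_anti (ds_sub (H := S) (L := MulAction.stabilizer G x)
      (subgroupOf_self S ▸ ds_pd _ h3 S _ ?_) le_rfl) h4 hg
    rw [show (MulAction.stabilizer G x).subgroupOf S = MulAction.stabilizer S x from rfl,
      MulAction.index_stabilizer, nc, ← o1]
    refine Set.ncard_le_ncard (t := {y | F j (o y) = F j (o x)}) ?_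
    rintro _ ⟨s, rfl⟩
    induction x using QuotientGroup.induction_on
    exact hS s s.2 _
  · rw [nc, nc, ← o1, ← o1]
    refine (Nat.card_congr ((MulAction.toPerm x).subtypeEquiv fun y => ?_)).symm
    induction y using QuotientGroup.induction_on
    exact (congrArg (· = a) (e _)).symm.to_iff

omit [Finite G] in
theorem cs_of_col {k k' : ℕ} (c : Fin k' → G → Fin k) (h1 : ∀ j, Col ⊤ H (c j))
    (h2 : ∀ i j x, (∀ g, c i (x * g) = c j g) → i = j) : CS H k k' 0 :=
  ⟨c, fun j => (h1 j).1, fun j _ hS x hx g => by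
    simpa using (h1 j).2 x trivial (fun g _ => hS x hx g) g⁻¹ trivial, h2⟩

theorem cs_five [Group.IsSolvable G] (H : Subgroup G) : CS H 5 5 0 := by
  obtain ⟨c, hc⟩ := exists_col_sol (p_sol _).1 H (Nat.lt_succ_self _)
  obtain ⟨d, h1, h2⟩ := hc.five
  exact cs_of_col d h1 fun i j x e => h2 i j x trivial fun g _ => e g

theorem cs_odd [Group.IsSolvable G] (hG : Odd (Nat.card G)) (H : Subgroup G) : CS H 2 2 0 := by
  obtain ⟨c, hc⟩ := exists_col_odd (p_odd _) ⟨hG, inferInstance⟩ H (Nat.lt_succ_self _)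
  have h1 : ∀ x, ¬ ∀ g, c (x * g) = !c g := fun x e => by
    have h2 : x ∈ H := mem_of_pow_two_pow hG (k := 1) (by
      simpa using hc.2 (x ^ 2) trivial (fun g _ => by
        rw [pow_two, mul_assoc, e, e, Bool.not_not]) 1 trivial)
    have h3 := e 1
    rw [mul_one, ← one_mul x, hc.1 1 x h2] at h3
    simp at h3
  refine cs_of_col ![finTwoEquiv.symm ∘ c, finTwoEquiv.symm ∘ not ∘ c] (fun j => ?_)
    fun i j x e => ?_
  · fin_cases j
    exacts [hc.comp finTwoEquiv.symm.injective, (hc.comp Bool.not_injective).comp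
      finTwoEquiv.symm.injective]
  · fin_cases i <;> fin_cases j
    · rfl
    · exact (h1 x fun g => finTwoEquiv.symm.injective (e g)).elim
    · exact (h1 x fun g => Bool.not_injective ((finTwoEquiv.symm.injective (e g)).trans
        (Bool.not_not _).symm)).elim
    · rfl

theorem cs_step [Group.IsSolvable G] (hH : IsCoatom H) {k : ℕ} (h2 : 2 ≤ k) (h5 : k ≤ 5) :
    ∃ k' d, 2 ≤ k' ∧ k' ≤ 5 ∧ d + (k + 4) = k' + 4 ∧ CS H k k' d := by
  have hr : 2 ≤ H.index := one_lt_index_of_ne_top hH.1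
  interval_cases k
  · rcases hr.eq_or_lt with h | h
    · exact ⟨3, 1, by omega, by omega, rfl, cs_of_good hH (h ▸ good_two_two)⟩
    rcases (Nat.succ_le_of_lt h).eq_or_lt with h | h
    · exact ⟨4, 2, by omega, by omega, rfl, cs_of_good hH (h ▸ good_two_three)⟩
    · exact ⟨5, 3, by omega, by omega, rfl, cs_of_good hH (good_two h)⟩
  · exact ⟨5, 2, by omega, by omega, rfl, cs_of_good hH (good_three hr)⟩
  · exact ⟨5, 1, by omega, by omega, rfl, cs_of_good hH (good_four hr)⟩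
  · exact ⟨5, 0, by omega, by omega, rfl, cs_five H⟩

end CF.Crit.Ob
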