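import Cfsg.Agent.Crit.Ob3

/-! A vector whose stabiliser has derived length at most nine. -/

set_option autoImplicit false
set_option synthInstance.maxSize 2000

namespace CF.Crit.Ob

open Subgroup CF.Perm CF.Fgs2.Base CF.Fgs2.HK
open scoped Pointwise commutatorElement

universe u

section num

variable {f c e a w n : ℕ}

theorem num_gen {j b : ℕ} (hc : c ≤ e ^ 5 / 5) (hf : 2 ^ f ≤ w) (ha : a ≤ w - 1) (hb : b ≤ w)
    (b0 : 0 < b) (he : 2 ≤ e) (hn : e ≤ n) (h : (j + 1) * b ^ 2 * e ^ 7 ≤ 5 * b ^ e) :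
    j * (f * (c * (e ^ 2 * a))) < w ^ n - 1 := by
  have h1 : f ≤ w := Nat.lt_two_pow_self.le.trans hf
  have h2 : 5 * c ≤ e ^ 5 := by omega
  have h3 : 10 ≤ w ^ 2 * e ^ 7 := le_trans (by norm_num) (Nat.mul_le_mul
    (Nat.pow_le_pow_left (b0.trans_le hb) 2) (Nat.pow_le_pow_left he 7))
  have h4 : j * (f * (c * (e ^ 2 * a))) + 2 ≤ w ^ e := Nat.le_of_mul_le_mul_left (c := 5 * b ^ 2) (by
    calc _ = b ^ 2 * (j * (f * (5 * c * (e ^ 2 * a))) + 10) := by ring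
      _ ≤ b ^ 2 * (j * (w * (e ^ 5 * (e ^ 2 * w))) + w ^ 2 * e ^ 7) := by gcongr; omega
      _ = w ^ 2 * ((j + 1) * b ^ 2 * e ^ 7) := by ring
      _ ≤ w ^ 2 * (5 * b ^ e) := by gcongr
      _ = 5 * (w ^ 2 * b ^ e) := by ring
      _ ≤ 5 * (b ^ 2 * w ^ e) := Nat.mul_le_mul_left _ (sq_mul_le hb he)
      _ = _ := by ring) (by positivity)
  have h5 := Nat.pow_le_pow_right (b0.trans_le hb) hn
  omega

theorem num_mid {k : ℕ} (hc : c ≤ e ^ 5 / 5) (hk : 2 ≤ k) (hf : w = k ^ f) (ha : a ≤ w - 1)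
    (hw : 3 ≤ w) (he : 8 ≤ e) (hn : e ≤ n) (h : e ∣ (w - 1) ^ e) :
    2 * (f * (c * (e ^ 2 * a))) < w ^ n - 1 ∨ e = 9 ∨ (e = 8 ∧ w = 3 ∧ n < 14) ∨
      (e = 8 ∧ w = 5 ∧ n < 10) ∨ (e = 16 ∧ w = 3 ∧ n < 18) := by
  have h1 : 2 ^ f ≤ w := hf ▸ Nat.pow_le_pow_left hk f
  rcases le_or_gt 22 e with h2 | h2
  · have := num_gen (j := 4) hc h1 ha hw three_pos (by omega) hn
      (poly_le 45 5 3 22 (by norm_num) (by norm_num) h2)
    omega
  rcases le_or_gt 11 w with h3 | h3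
  · exact Or.inl (num_gen hc h1 ha h3 (by norm_num) (by omega) hn
      (poly_le 363 5 11 8 (by norm_num) (by norm_num) he))
  have key : ∀ e < 22, ∀ w < 11, ∀ f < 4, 8 ≤ e ∧ 3 ≤ w ∧ (∃ k ≤ w, w = k ^ f) ∧ e ∣ (w - 1) ^ e →
      e = 9 ∨ 2 * (f * (e ^ 5 / 5 * (e ^ 2 * (w - 1)))) + 1 < w ^ (if e = 8 ∧ w = 3 then 14 else
        if e = 8 ∧ w = 5 then 10 else if e = 16 ∧ w = 3 then 18 else e) := by decide +kernel
  have h4 : f < 4 := (Nat.pow_lt_pow_iff_right one_lt_two).1 (h1.trans_lt (by omega))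
  have h5 : f ≠ 0 := by rintro rfl; simp at hf; omega
  rcases key e h2 w h3 f h4 ⟨he, hw, ⟨k, hf ▸ Nat.le_self_pow h5 k, hf⟩, h⟩ with h6 | h6
  · omega
  by_contra h7
  have h8 := h6.trans_le (Nat.pow_le_pow_right (n := w) (j := n) (by omega) (by split_ifs <;> omega))
  have h9 : f * (c * (e ^ 2 * a)) ≤ f * (e ^ 5 / 5 * (e ^ 2 * (w - 1))) := by gcongr
  omega

theorem num_128 (he : 128 ≤ e) : 16 * e ^ 28 * 3 ^ 7 < 625 * 3 ^ e := by
  induction e, he using Nat.le_induction with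
  | base => norm_num
  | succ e he ih =>
    have h2 := Nat.pow_le_pow_left (show 128 * (e + 1) ≤ 129 * e by omega) 28
    rw [mul_pow, mul_pow] at h2
    rw [pow_succ 3 e]
    generalize (e + 1) ^ 28 = x at *
    generalize e ^ 28 = y at *
    generalize 3 ^ e = z at *
    have h3 : x ≤ 3 * y := Nat.le_of_mul_le_mul_left (c := 128 ^ 28) (h2.trans (by
      rw [← mul_assoc]; exact Nat.mul_le_mul_right _ (by norm_num))) (by positivity)
    calc _ ≤ 16 * (3 * y) * 3 ^ 7 := by gcongr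
      _ = 16 * y * 3 ^ 7 * 3 := by ring
      _ < 625 * z * 3 := Nat.mul_lt_mul_of_pos_right ih three_pos
      _ = _ := by ring

theorem num_big (hc : c ≤ e ^ 5 / 5) (hf : 2 ^ f ≤ w) (ha : a ≤ w - 1) (hw : 3 ≤ w)
    (he : 128 ≤ e) (hn : e ≤ n) : (2 * (f * (c * (e ^ 2 * a)))) ^ 4 < w ^ n := by
  have h1 : f ≤ w := Nat.lt_two_pow_self.le.trans hf
  have h2 : 5 * c ≤ e ^ 5 := by omega
  have h3 : f ^ 3 ≤ w ^ 2 := (cube_le f).trans (Nat.pow_le_pow_left hf 2)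
  refine lt_of_lt_of_le (Nat.lt_of_mul_lt_mul_left (a := 625 * 3 ^ 7) ?_)
    (Nat.pow_le_pow_right (by omega) hn)
  calc _ = 16 * 3 ^ 7 * (f ^ 3 * f * ((5 * c) ^ 4 * (e ^ 8 * a ^ 4))) := by ring
    _ ≤ 16 * 3 ^ 7 * (w ^ 2 * w * ((e ^ 5) ^ 4 * (e ^ 8 * w ^ 4))) := by gcongr; omega
    _ = w ^ 7 * (16 * e ^ 28 * 3 ^ 7) := by ring
    _ < w ^ 7 * (625 * 3 ^ e) := Nat.mul_lt_mul_of_pos_left (num_128 he) (by positivity)
    _ = 625 * (w ^ 7 * 3 ^ e) := by ring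
    _ ≤ 625 * (3 ^ 7 * w ^ e) := Nat.mul_le_mul_left _ (pw hw three_pos (by omega) (by omega))
    _ = _ := by ring

theorem smooth_dvd (h0 : n ≠ 0) (h : ∀ q : ℕ, q.Prime → q ∣ n → q ≤ 3) :
    ∃ a b, n = 2 ^ a * 3 ^ b := by
  obtain ⟨a, m, h1, rfl⟩ := Nat.exists_eq_two_pow_mul_odd h0
  refine ⟨a, _, congrArg _ (Nat.eq_prime_pow_of_unique_prime_dvd (p := 3)
    (by rintro rfl; simp at h0) fun {q} h2 h3 => ?_)⟩
  have h4 := h q h2 (h3.mul_left _)
  have h5 := h2.two_le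
  interval_cases q
  · exact absurd (h1.of_dvd_nat h3) (by decide)
  · rfl

theorem not_sum (h : (w = 3 ∧ 8 ≤ n ∧ n < 18) ∨ (w = 5 ∧ 8 ≤ n ∧ n < 10)) (a b c d : ℕ) :
    w ^ n - 1 ≠ 2 ^ a * 3 ^ b + 2 ^ c * 3 ^ d := fun e => by
  have key : ∀ n < 18, ∀ w < 6, (w = 3 ∧ 8 ≤ n) ∨ (w = 5 ∧ 8 ≤ n ∧ n < 10) → w ^ n < 2 ^ 27 ∧
      ∀ a < 27, ∀ b < 18, ¬ w ^ n - 1 - 2 ^ a * 3 ^ b ∣ 2 ^ 27 * 3 ^ 18 := by decide +kernel
  obtain ⟨h1, h2⟩ := key n (by omega) w (by omega) (by omega)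
  have h3 : ∀ a b, 2 ^ a * 3 ^ b < 2 ^ 27 → a < 27 ∧ b < 18 := fun a b h =>
    ⟨(Nat.pow_lt_pow_iff_right one_lt_two).1 ((Nat.le_mul_of_pos_right _ (by positivity)).trans_lt h),
      (Nat.pow_lt_pow_iff_right (a := 3) (by norm_num)).1 (((Nat.le_mul_of_pos_left _
        (by positivity)).trans_lt h).trans (by norm_num))⟩
  obtain ⟨h4, h5⟩ := h3 a b (by omega)
  obtain ⟨h6, h7⟩ := h3 c d (by omega)
  refine h2 a h4 b h5 ?_
  rw [e, Nat.add_sub_cancel_left]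
  exact mul_dvd_mul (pow_dvd_pow _ h6.le) (pow_dvd_pow _ h7.le)

end num

section orb

variable {G V : Type*} [Group G] {k : ℕ}

theorem nc_cons [MulAction G V] {t : Fin k → V} {z : V} {Z : Set V}
    (h : (∀ i, t i ∈ Z) ∧ ∀ i j (g : G), g • t i = t j → i = j) (hz : z ∈ Z)
    (h1 : ∀ i (g : G), g • t i ≠ z) : ∃ t : Fin (k + 1) → V,
      (∀ i, t i ∈ Z) ∧ ∀ i j (g : G), g • t i = t j → i = j := by
  refine ⟨Fin.cons z t, fun i => Fin.cases hz h.1 i, fun i j g => ?_⟩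
  refine Fin.cases ?_ (fun i => ?_) i <;> refine Fin.cases ?_ (fun j => ?_) j
  · exact fun _ => rfl
  · exact fun e => (h1 j g⁻¹ (inv_smul_eq_iff.2 e.symm)).elim
  · exact fun e => (h1 i g e).elim
  · exact fun e => congrArg _ (h.2 i j g e)

theorem more_orbits [Finite G] [MulAction G V] {Z : Set V} (h : k * Nat.card G < Z.ncard) :
    ∃ t : Fin (k + 1) → V, (∀ i, t i ∈ Z) ∧ ∀ i j (g : G), g • t i = t j → i = j := by
  have key : ∀ {k} (t : Fin k → V), k * Nat.card G < Z.ncard → ∃ z ∈ Z, ∀ i (g : G), g • t i ≠ z :=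
    fun {k} t h => by
      by_contra! h1
      refine h.not_ge ((Set.ncard_le_ncard (t := Set.range fun x : Fin k × G => x.2 • t x.1)
        fun z hz => ?_).trans ?_)
      · obtain ⟨i, g, e⟩ := h1 z hz
        exact ⟨(i, g), e⟩
      · rw [← Set.image_univ]
        exact (Set.ncard_image_le (Set.toFinite _)).trans_eq (by simp)
  induction k with
  | zero =>
    obtain ⟨z, h1, h2⟩ := key (k := 0) nofun h
    exact nc_cons ⟨nofun, nofun⟩ h1 h2
  | succ k ih =>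
    obtain ⟨t, ht⟩ := ih (lt_of_le_of_lt (Nat.mul_le_mul_right _ k.le_succ) h)
    obtain ⟨z, h1, h2⟩ := key t h
    exact nc_cons ht h1 h2

variable [AddCommGroup V] [DistribMulAction G V]

theorem ncard_ne [Finite V] : {v : V | v ≠ 0}.ncard = Nat.card V - 1 := by
  rw [← Set.ncard_univ, ← Set.ncard_sdiff_singleton_of_mem (Set.mem_univ (0 : V))]
  congr 1
  ext; simp

theorem two_orbits (h : ¬ Tr G V) : ∃ t : Fin 2 → V,
    (∀ i, t i ∈ {v : V | v ≠ 0}) ∧ ∀ i j (g : G), g • t i = t j → i = j := by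
  simp only [Tr, not_forall, not_exists] at h
  obtain ⟨v, w, hv, hw, h⟩ := h
  exact nc_cons (t := fun _ : Fin 1 => v) ⟨fun _ => hv, fun _ _ _ _ => Subsingleton.elim _ _⟩ hw
    fun _ => h

theorem three_orbits [Finite G] [Finite V] (h : ¬ Tr G V)
    (h1 : ∀ q : ℕ, q.Prime → q ∣ Nat.card G → q ≤ 3)
    (h2 : ∀ a b c d, Nat.card V - 1 ≠ 2 ^ a * 3 ^ b + 2 ^ c * 3 ^ d) : ∃ t : Fin 3 → V,
    (∀ i, t i ∈ {v : V | v ≠ 0}) ∧ ∀ i j (g : G), g • t i = t j → i = j := by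
  obtain ⟨t, ht⟩ := two_orbits h
  by_cases h3 : ∃ z ∈ {v : V | v ≠ 0}, ∀ i (g : G), g • t i ≠ z
  · obtain ⟨z, h3, h4⟩ := h3
    exact nc_cons ht h3 h4
  push Not at h3
  have h4 : ∀ v : V, ∃ a b, (MulAction.orbit G v).ncard = 2 ^ a * 3 ^ b := fun v => by
    rw [← MulAction.index_stabilizer]
    exact smooth_dvd index_ne_zero_of_finite fun q a b => h1 q a (b.trans (index_dvd_card _))
  obtain ⟨a, b, h5⟩ := h4 (t 0)
  obtain ⟨c, d, h6⟩ := h4 (t 1)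
  refine (h2 a b c d ?_).elim
  rw [← h5, ← h6, ← ncard_ne, ← Set.ncard_union_eq (Set.disjoint_left.2 ?_)]
  · congr 1
    refine Set.ext fun z => ⟨fun hz => ?_, ?_⟩
    · obtain ⟨i, g, e⟩ := h3 z hz
      fin_cases i
      exacts [Or.inl ⟨g, e⟩, Or.inr ⟨g, e⟩]
    · rintro (⟨g, rfl⟩ | ⟨g, rfl⟩) <;> exact (smul_ne_zero_iff_ne g).2 (ht.1 _)
  · rintro _ ⟨g, rfl⟩ ⟨g', e⟩
    exact absurd (ht.2 0 1 (g'⁻¹ * g) (by rw [mul_smul]; exact inv_smul_eq_iff.2 e.symm)) (by decide)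

theorem many_regular [Finite G] [Finite V]
    (h1 : ∀ g : G, g ≠ 1 → Nat.card (fx V g) ^ 4 ≤ Nat.card V ^ 3)
    (h2 : (2 * Nat.card G) ^ 4 < Nat.card V) :
    4 * Nat.card G < {v : V | ∀ g : G, g • v = v → g = 1}.ncard := by
  classical
  have := Fintype.ofFinite G
  have := Fintype.ofFinite V
  obtain ⟨s, h3, h4⟩ := exists_root 4 (Nat.card V ^ 3) four_ne_zero
  have h5 := Set.ncard_add_ncard_compl {v : V | ∀ g : G, g • v = v → g = 1}
  have h6 : {v : V | ∀ g : G, g • v = v → g = 1}ᶜ.ncard ≤ Nat.card G * s := by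
    refine (Set.ncard_le_ncard (t := ((Finset.univ.erase (1 : G)).biUnion fun g =>
      Finset.univ.filter (· ∈ fx V g) : Finset V)) fun v hv => ?_).trans ?_
    · simp only [Set.mem_compl_iff, Set.mem_ofPred_eq, not_forall] at hv
      obtain ⟨g, a, b⟩ := hv
      simpa using ⟨g, b, a⟩
    rw [Set.ncard_coe_finset]
    refine (Finset.card_biUnion_le_card_mul _ _ s fun g hg => ?_).trans (Nat.mul_le_mul_right _
      ((Finset.card_le_univ _).trans_eq Nat.card_eq_fintype_card.symm))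
    rw [← Fintype.card_subtype, ← Nat.card_eq_fintype_card]
    exact h4 _ (h1 g (Finset.ne_of_mem_erase hg))
  have h7 : 2 * Nat.card G * s < Nat.card V := (Nat.pow_lt_pow_iff_left four_ne_zero).1 (by
    rw [mul_pow, pow_succ' (Nat.card V) 3]
    exact (Nat.mul_le_mul_left _ h3).trans_lt (Nat.mul_lt_mul_of_pos_right h2
      (Nat.pow_pos Nat.card_pos)))
  have h8 : 16 * Nat.card G ≤ (2 * Nat.card G) ^ 4 := by
    rw [mul_pow]
    exact Nat.mul_le_mul_left _ (Nat.le_self_pow four_ne_zero _)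
  rw [mul_assoc] at h7
  omega

theorem st_of {d : ℕ} {Z : Set V}
    (h : ∃ t : Fin k → V, (∀ i, t i ∈ Z) ∧ ∀ i j (g : G), g • t i = t j → i = j)
    (hZ : ∀ v ∈ Z, ds (⊤ ⊓ MulAction.stabilizer G v) d ≤ fix G (⊤ : AddSubgroup V)) :
    St k d (⊤ : Subgroup G) (⊤ : AddSubgroup V) :=
  let ⟨t, h1, h2⟩ := h
  ⟨t, fun _ => trivial, fun i => hZ _ (h1 i), fun i j g _ => h2 i j g⟩

end orb

section qp

variable {G V Q : Type u} {K : Type*} [Group G] [Finite G] [AddCommGroup V] [Finite V]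
  [Nontrivial V] [DistribMulAction G V] [FaithfulSMul G V] [Field K] [Finite K] [Module K V]
  [CommGroup Q] [Finite Q] {A M : Subgroup G} {σ : G →* RingAut K} {φ : G →* MulAut Q}
  {β : Q →* Q →* Kˣ} {p : M →* Q} (h : QP V A M σ φ β p) {e : ℕ}
include h

local notation "𝐂" => centralizer (A : Set G)
local notation "𝐰" => Nat.card K
local notation "𝐧" => Module.finrank K V

theorem qp_fx {g : G} (h1 : g ≠ 1) : Nat.card (fx V g) ^ 4 ≤ Nat.card V ^ 3 := by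
  have key : Nat.card (fx V g) ^ 2 ≤ Nat.card V → Nat.card (fx V g) ^ 4 ≤ Nat.card V ^ 3 :=
    fun e => (pow_mul _ 2 2).trans_le ((Nat.pow_le_pow_left e 2).trans
      (Nat.pow_le_pow_right Nat.card_pos (by norm_num)))
  by_cases hg : g ∈ 𝐂
  · by_cases hM : g ∈ M
    · by_cases hA : g ∈ A
      · rw [fx_eq_bot h.fs hA h1, AddSubgroup.card_bot, one_pow]
        exact Nat.pow_pos Nat.card_pos
      · exact key (h.fx_sq ⟨g, hM⟩ (mt (h.ker _).1 hA))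
    · exact h.fx_four hg hM
  · refine key (card_fx_pow_semi h.fs g ?_)
    have h1 := mt orderOf_eq_one_iff.1 fun e => hg (h.fs.ker.le e)
    have h2 : 0 < orderOf (σ g) := (σ.isOfFinOrder (isOfFinOrder_of_finite g)).orderOf_pos
    omega

theorem qp_smooth (hw : 𝐰 = 3 ∨ 𝐰 = 5) (h1 : Sm ⊤ φ.ker) (q : ℕ) (hq : q.Prime)
    (h2 : q ∣ Nat.card G) : q ≤ 3 := by
  by_contra! h3
  have := Fact.mk hq
  obtain ⟨g, hg⟩ := exists_prime_orderOf_dvd_card' q h2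
  have h4 : 𝐂 = ⊤ := index_eq_one.1 (h.index_eq_one (by rcases hw with e | e <;> norm_num [e]))
  have h5 := h.am.pow_card_mem ((h.triv g (h4 ▸ mem_top g)).1 (h1 q hq h3 g trivial (by
    rw [← hg, pow_orderOf_eq_one]; exact one_mem _)))
  have h6 : (g ^ Nat.card A) ^ Nat.card A = 1 :=
    congrArg Subtype.val (pow_card_eq_one' (x := (⟨_, h5⟩ : A)))
  rw [← pow_mul, ← orderOf_dvd_iff_pow_eq_one, hg, ← pow_two] at h6
  have h7 := (hq.dvd_of_dvd_pow h6).trans h.fs.card_dvd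
  have h8 : q ∣ 2 ^ 2 := h7.trans (by rcases hw with e | e <;> norm_num [e])
  have := Nat.le_of_dvd two_pos (hq.dvd_of_dvd_pow h8)
  omega

theorem qp_start [Group.IsSolvable G] :
    ∃ k, 2 ≤ k ∧ k ≤ 5 ∧ St k (k + 4) (⊤ : Subgroup G) (⊤ : AddSubgroup V) := by
  obtain ⟨e, he⟩ := h.sy.exists_sq
  have T := fun hn => (table 16384 le_rfl).mul φ h.sy.cr hn
  rw [he] at T
  have s1 : ∀ {d}, 1 ≤ d → ds ⊤ d ≤ φ.ker → ∀ v ∈ {v : V | v ≠ 0},
      ds (⊤ ⊓ MulAction.stabilizer G v) (d + 1) ≤ fix G (⊤ : AddSubgroup V) :=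
    fun h1 h2 v hv => qp_stab h (qp_A h h1 h2) hv
  rcases lt_or_ge e 8 with h1 | h1
  · obtain ⟨v, hv⟩ := exists_ne (0 : V)
    refine ⟨2, le_rfl, by norm_num, st_of (Z := Set.univ) (nc_cons (t := fun _ : Fin 1 => 0)
      ⟨fun _ => trivial, fun _ _ _ _ => Subsingleton.elim _ _⟩ (z := v) trivial
        fun _ g => by simpa using hv.symm) fun v _ => (ds_mono le_top _).trans ?_⟩
    exact qp_top h (qp_A h (d := 4) (by norm_num) (ds_anti (T (by nlinarith)).1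
      ((by decide : ∀ e < 8, D (e ^ 2) ≤ 4) e h1)))
  have e1 : e ≠ 1 := by omega
  have hn := h.le_rank he
  have hw := h.three_le he e1
  have hc := h.le_div he (h.bound (p_sol _).2 fun e' => e1 (by
    rw [he] at e'; exact (Nat.pow_eq_one.1 e').resolve_right two_ne_zero))
  obtain ⟨k, h2, h3⟩ := h.fs.exists_pow_index
  have h4 : 2 ^ (𝐂).index ≤ 𝐰 := h3 ▸ Nat.pow_le_pow_left h2 _
  have hV := Module.natCard_eq_pow_finrank (K := K) (V := V)
  rcases le_or_gt 128 e with h5 | h5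
  · refine ⟨5, by norm_num, le_rfl, st_of (more_orbits (many_regular (fun g => qp_fx h) ?_))
      fun v hv => (ds_le _ _).trans fun g hg => hv g hg.2 ▸ one_mem _⟩
    rw [qp_card h he, hV]
    exact num_big hc h4 h.card_le hw h5 hn
  replace T := T (by nlinarith)
  rcases le_or_gt 64 e with h6 | h6
  · refine ⟨5, by norm_num, le_rfl, st_of (more_orbits ?_) (s1 (d := 8) (by norm_num)
      (ds_anti T.1 ((D_le _).trans (by split_ifs <;> norm_num))))⟩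
    rw [ncard_ne, qp_card h he, hV]
    exact num_gen hc h4 h.card_le hw three_pos (by omega) hn
      (poly_le 45 5 3 22 (by norm_num) (by norm_num) (by omega))
  have s2 := s1 (d := 6) (by norm_num) (ds_anti T.1 ((D_le _).trans_eq (if_pos (by nlinarith))))
  have h7 : ¬ Tr G V := fun ht => by
    have := (h.fs.cases h.am ht (by omega)).2
    omega
  have s3 : ds ⊤ 5 ≤ φ.ker → ∃ k, 2 ≤ k ∧ k ≤ 5 ∧ St k (k + 4) (⊤ : Subgroup G)
      (⊤ : AddSubgroup V) := fun e =>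
    ⟨2, le_rfl, by norm_num, st_of (two_orbits h7) (s1 (by norm_num) e)⟩
  rcases num_mid hc h2 h3 h.card_le hw h1 hn
    ((qp_dvd h he).trans (pow_dvd_pow_of_dvd h.fs.card_dvd e)) with h8 | rfl | h8
  · refine ⟨3, by norm_num, by norm_num, st_of (more_orbits ?_) s2⟩
    rwa [ncard_ne, qp_card h he, hV]
  · exact s3 T.1
  · refine (T.2 (by rcases h8 with ⟨rfl, -⟩ | ⟨rfl, -⟩ | ⟨rfl, -⟩ <;> norm_num)).elim s3 fun h9 =>
      ⟨3, by norm_num, by norm_num, st_of (three_orbits h7 (qp_smooth h (by omega) h9) ?_) s2⟩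
    rw [hV]
    exact not_sum (by omega)

end qp

theorem st_irr (n : ℕ) : ∀ (G V : Type u) [Group G] [Finite G] [Group.IsSolvable G]
    [AddCommGroup V] [Finite V] [DistribMulAction G V] (H : Subgroup G) (U : AddSubgroup V),
    InvOn H U → IrrOn H U → U ≠ ⊥ → Nat.card U = n → ∃ k, 2 ≤ k ∧ k ≤ 5 ∧ St k (k + 4) H U := by
  induction n using Nat.strong_induction_on with
  | _ n ih =>
  intro G V _ _ _ _ _ _ H U hU hirr h0 hn
  obtain ⟨G', _, _, _, _, f, h2⟩ := exists_tf hU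
  have := (U.nontrivial_iff_ne_bot).2 h0
  have := Group.isSolvable_of_surjective h2.surj
  replace hirr := h2.irr hirr
  suffices ∃ k, 2 ≤ k ∧ k ≤ 5 ∧ St k (k + 4) (⊤ : Subgroup G') (⊤ : AddSubgroup U) from
    this.imp fun k hk => ⟨hk.1, hk.2.1, h2.st hk.2.2⟩
  obtain ⟨A, hA1, hA2, hA3⟩ := exists_max_abelian (G := G')
  obtain ⟨M, hM⟩ := exists_AM A hA3
  rcases fs_or_imp hirr A hA2 with ⟨K, _, _, _, σ, h⟩ | ⟨W, hW⟩
  · obtain ⟨Q, _, φ, β, p, h⟩ := exists_QP h hM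
    have : Finite Q := Finite.of_surjective p h.surj
    exact qp_start h
  obtain ⟨X, h3, h4, -⟩ := exists_imp hirr hW
  obtain ⟨k, a1, a2, a3⟩ := ih _ (hn ▸ h3.card_lt) G' U _ X (invOn_stab X) (h3.irr hirr)
    h3.ne_bot rfl
  obtain ⟨k', d, b1, b2, b3, b4⟩ := cs_step h4 a1 a2
  exact ⟨k', b1, b2, b3 ▸ imp_st h3 hirr b4 a3⟩

theorem st_cr {G V : Type*} [Group G] [AddCommGroup V] [Finite V] [DistribMulAction G V]
    {H : Subgroup G} {d : ℕ} (h : ∀ U : AddSubgroup V, InvOn H U → IrrOn H U → U ≠ ⊥ → St 1 d H U)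
    (U : AddSubgroup V) (hU : InvOn H U) (hcr : CROn H U) : St 1 d H U := by
  haveI : Finite (AddSubgroup V) := Finite.of_injective _ SetLike.coe_injective
  induction U using WellFoundedLT.induction with
  | _ U ih =>
  by_cases h0 : U = ⊥
  · refine ⟨0, fun _ => zero_mem _, fun _ g _ => mem_fix.2 fun v hv => ?_,
      fun _ _ _ _ _ => Subsingleton.elim _ _⟩
    rw [h0, AddSubgroup.mem_bot] at hv
    rw [hv, smul_zero]
  by_cases hirr : IrrOn H U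
  · exact h U hU hirr h0
  simp only [IrrOn, not_forall, not_or] at hirr
  obtain ⟨X, h1, h2, h3, h4⟩ := hirr
  obtain ⟨W, h5, h6, h7, h8⟩ := hcr X h1 h2
  exact h8 ▸ (ih X (h1.lt_of_ne h4) h2 (hcr.mono h1 h2)).sup h2 h6 h7 (ih W (h5.lt_of_ne
    fun e => h3 (by rwa [e, inf_eq_left.2 h1] at h7)) h6 (hcr.mono h5 h6))

end CF.Crit.Ob
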