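import Cfsg.Agent.Crit.Ob4

/-! Groups of odd order in odd characteristic: a vector with abelian stabiliser. -/

set_option autoImplicit false
set_option synthInstance.maxSize 2000

namespace CF.Crit.Ob

open Subgroup CF.Perm CF.Fgs2.Base CF.Fgs2.HK
open scoped Pointwise commutatorElement

universe u

theorem odd_mono {X L w₀ n₀ w n : ℕ}
    (h : X * w₀ ^ (2 * n₀ / 3) + L * w₀ ^ (n₀ / 2) ≤ 2 * w₀ ^ n₀) (h0 : 0 < w₀) (hw : w₀ ≤ w)
    (hn : n₀ ≤ n) : X * w ^ (2 * n / 3) + L * w ^ (n / 2) ≤ 2 * w ^ n :=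
  Nat.le_of_mul_le_mul_right (c := w₀ ^ n₀) (by
    calc _ = X * (w ^ (2 * n / 3) * w₀ ^ n₀) + L * (w ^ (n / 2) * w₀ ^ n₀) := by ring
      _ ≤ X * (w₀ ^ (2 * n₀ / 3) * w ^ n) + L * (w₀ ^ (n₀ / 2) * w ^ n) := by
        gcongr X * ?_ + L * ?_ <;> exact pw hw h0 (by omega) (by omega)
      _ = (X * w₀ ^ (2 * n₀ / 3) + L * w₀ ^ (n₀ / 2)) * w ^ n := by ring
      _ ≤ 2 * w₀ ^ n₀ * w ^ n := by gcongr
      _ = _ := by ring) (by positivity)

theorem num_27 {e : ℕ} (he : 27 ≤ e) : 125 * e ^ 16 ≤ 729 * 7 ^ e := by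
  induction e, he using Nat.le_induction with
  | base => norm_num
  | succ e he ih =>
    have h2 := Nat.pow_le_pow_left (show 27 * (e + 1) ≤ 28 * e by omega) 16
    rw [mul_pow, mul_pow] at h2
    have h3 : (e + 1) ^ 16 ≤ 7 * e ^ 16 := Nat.le_of_mul_le_mul_left (c := 27 ^ 16) (h2.trans (by
      rw [← mul_assoc]; exact Nat.mul_le_mul_right _ (by norm_num))) (by positivity)
    rw [pow_succ 7 e]
    omega

theorem odd_num {e a w n B R : ℕ} (he : Odd e) (h3 : 3 ≤ e) (hn : e ≤ n) (ha : e ∣ a ^ e)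
    (a0 : a ≠ 0) (hw : 2 * a + 1 ≤ w) (hR : R ^ 3 ≤ e ^ 4) (h1 : B ≤ e ^ 4) (h2 : e ≤ 9 → B ≤ 5)
    (h4 : e = 3 → B ≤ 1) :
    B * R * w ^ (2 * n / 3) + 2 * (B * (2 * e ^ 2)) * w ^ (n / 2) ≤ 2 * w ^ n := by
  rcases le_or_gt 27 e with h5 | h5
  · have h6 : 7 ≤ w := by
      by_contra! h6
      obtain rfl | rfl : a = 1 ∨ a = 2 := by omega
      · rw [one_pow, Nat.dvd_one] at ha; omega
      · have := ((Nat.coprime_two_right.2 he).pow_right e).eq_one_of_dvd ha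
        omega
    refine odd_mono ?_ (by norm_num) h6 hn
    have h7 := num_27 h5
    have h8 : 5 * (B * R * 7 ^ (2 * e / 3)) ≤ 9 * 7 ^ e :=
      (Nat.pow_le_pow_iff_left three_ne_zero).1 (by
        calc _ = 125 * (B ^ 3 * R ^ 3) * 7 ^ (2 * e / 3 * 3) := by ring
          _ ≤ 125 * ((e ^ 4) ^ 3 * e ^ 4) * 7 ^ (2 * e) := Nat.mul_le_mul (Nat.mul_le_mul_left _
            (Nat.mul_le_mul (Nat.pow_le_pow_left h1 3) hR)) (Nat.pow_le_pow_right (by norm_num) (by omega))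
          _ = 125 * e ^ 16 * 7 ^ (2 * e) := by ring
          _ ≤ 729 * 7 ^ e * 7 ^ (2 * e) := by gcongr
          _ = _ := by ring)
    have h9 : 5 * (2 * (B * (2 * e ^ 2)) * 7 ^ (e / 2)) ≤ 7 ^ e :=
      (Nat.pow_le_pow_iff_left two_ne_zero).1 (Nat.le_of_mul_le_mul_left (c := 729) (by
        calc _ = 291600 * (B ^ 2 * e ^ 4) * 7 ^ (e / 2 * 2) := by ring
          _ ≤ 125 * 27 ^ 4 * ((e ^ 4) ^ 2 * e ^ 4) * 7 ^ e := by gcongr <;> omega
          _ ≤ 125 * e ^ 4 * ((e ^ 4) ^ 2 * e ^ 4) * 7 ^ e := by gcongr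
          _ = 125 * e ^ 16 * 7 ^ e := by ring
          _ ≤ 729 * 7 ^ e * 7 ^ e := by gcongr
          _ = _ := by ring) (by norm_num))
    omega
  have key : ∀ e < 27, e % 2 = 1 ∧ 3 ≤ e → e ^ 4 < ((if e = 3 then 4 else 3 * e) + 1) ^ 3 ∧
      ∀ a < 25, a = 24 ∨ a ≠ 0 ∧ e ∣ a ^ e →
      (if e = 3 then 1 else if e ≤ 9 then 5 else e ^ 4) * (if e = 3 then 4 else 3 * e) *
        (2 * a + 1) ^ (2 * e / 3) + 2 * ((if e = 3 then 1 else if e ≤ 9 then 5 else e ^ 4) *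
          (2 * e ^ 2)) * (2 * a + 1) ^ (e / 2) ≤ 2 * (2 * a + 1) ^ e := by decide +kernel
  obtain ⟨h6, h7⟩ := key e h5 ⟨Nat.odd_iff.1 he, h3⟩
  have h8 := Nat.lt_succ_iff.1 ((Nat.pow_lt_pow_iff_left three_ne_zero).1 (hR.trans_lt h6))
  have h9 : B ≤ if e = 3 then 1 else if e ≤ 9 then 5 else e ^ 4 := by split_ifs <;> omega
  refine odd_mono (le_trans ?_ (h7 (min a 24) (by omega) ?_)) (by omega) (by omega) hn
  · gcongr
  · rcases le_or_gt 24 a with h | h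
    · exact Or.inl (min_eq_right h)
    · rw [min_eq_left h.le]; exact Or.inr ⟨a0, ha⟩

theorem hv_range {Q K : Type*} [CommGroup Q] [Finite Q] [Field K] {β : Q →* Q →* Kˣ}
    {f : MulAut Q} (h : Hv β f) (h2 : f * f ≠ 1) :
    Nat.card (dl f).range ^ 3 ≤ Nat.card Q ^ 2 := by
  obtain ⟨l, -, -, -, h3, -⟩ := h.2.2.resolve_left fun e => h2 e.1
  let d := (dl f).comp (dl f).range.subtype
  have h4 : Nat.card d.ker ≤ Nat.card (dl f).ker := Nat.card_le_card_of_injective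
    (fun x => ⟨x.1.1, x.2⟩) fun x y e => Subtype.ext (Subtype.ext (Subtype.mk.inj e))
  have h5 : Nat.card d.range ≤ Nat.card (dl f).ker := card_le_of_le (by
    rintro _ ⟨⟨_, y, rfl⟩, rfl⟩; exact h3 y)
  have h6 := card_mul_index d.ker
  rw [index_ker] at h6
  rw [← card_ker_mul f, mul_pow, pow_succ' _ 2, pow_two (Nat.card (dl f).ker)]
  exact Nat.mul_le_mul_right _ (h6 ▸ Nat.mul_le_mul h4 h5)

theorem nc_neg {G V : Type*} [Group G] [Finite G] [AddCommGroup V] [Finite V]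
    [DistribMulAction G V] (hG : Odd (Nat.card G)) (hV : Odd (Nat.card V)) {v : V} (hv : v ≠ 0)
    (g : G) : g • v ≠ -v := fun e => by
  have h1 : g ∈ MulAction.stabilizer G v := mem_of_pow_two_pow hG (k := 1) (by
    rw [MulAction.mem_stabilizer_iff, pow_one, pow_two, mul_smul, e, smul_neg, e, neg_neg])
  have h2 : addOrderOf v ∣ 2 := addOrderOf_dvd_of_nsmul_eq_zero (by
    rw [two_nsmul, add_eq_zero_iff_eq_neg, ← e, MulAction.mem_stabilizer_iff.1 h1])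
  exact hv (AddMonoid.addOrderOf_eq_one_iff.1 ((Nat.coprime_two_right.2
    (hV.of_dvd_nat (addOrderOf_dvd_natCard v))).eq_one_of_dvd h2))

section qp

variable {G V Q : Type u} {K : Type*} [Group G] [Finite G] [AddCommGroup V] [Finite V]
  [Nontrivial V] [DistribMulAction G V] [FaithfulSMul G V] [Field K] [Finite K] [Module K V]
  [CommGroup Q] [Finite Q] {A M : Subgroup G} {σ : G →* RingAut K} {φ : G →* MulAut Q}
  {β : Q →* Q →* Kˣ} {p : M →* Q} (h : QP V A M σ φ β p) {e : ℕ}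
include h

local notation "𝐂" => centralizer (A : Set G)
local notation "𝚪" => Subgroup.map φ (centralizer (A : Set G))
local notation "𝐰" => Nat.card K
local notation "𝐧" => Module.finrank K V

theorem master_odd (hG : Odd (Nat.card G)) {R : ℕ}
    (hR : ∀ m, m ^ 3 ≤ Nat.card Q ^ 2 → m ≤ R)
    (hlt : Nat.card 𝚪 * R * (𝐰 ^ (2 * 𝐧 / 3) - 1) + 2 * (Nat.card 𝚪 * (2 * Nat.card Q)) *
      (𝐰 ^ (𝐧 / 2) - 1) < 2 * (𝐰 ^ 𝐧 - 1)) : ∃ v : V, ∀ g ∈ 𝐂, g • v = v → g = 1 := by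
  classical
  have := Fintype.ofFinite G
  have := Fintype.ofFinite V
  have hw : 2 ≤ 𝐰 := Finite.one_lt_card
  have hV : Nat.card V = 𝐰 ^ 𝐧 := Module.natCard_eq_pow_finrank
  let D := (Finset.univ : Finset (Fin 1 → V)).erase 0
  suffices ∑ g : 𝐂, wt g * cnt D g < D.card by
    obtain ⟨t, -, ht⟩ := exists_reg_of_wsum D this
    exact ⟨t 0, fun g hg e => eq_of_smul_eq_smul (α := V) fun v => (ht ⟨g, hg⟩ trivial
      (fun i => Subsingleton.elim 0 i ▸ e) v trivial).trans (one_smul G v).symm⟩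
  obtain ⟨Φ, hΦ⟩ : ∃ Φ : ℕ → ℕ, ∀ d, Φ d = 𝐰 ^ d - 1 := ⟨_, fun _ => rfl⟩
  have hm : ∀ {a b}, a ≤ b → Φ a ≤ Φ b := fun e => by rw [hΦ, hΦ]; gcongr; omega
  rw [show D.card = Φ 𝐧 by
    rw [Finset.card_erase_of_mem (Finset.mem_univ _), Finset.card_univ, Fintype.card_fun,
      ← Nat.card_eq_fintype_card, hV, Fintype.card_fin, pow_one, hΦ]]
  rw [← hΦ, ← hΦ, ← hΦ] at hlt
  have ho : ∀ g : G, φ g * φ g = 1 → φ g = 1 := fun g e => (mem_of_pow_two_pow hG (k := 1)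
    (H := φ.ker) (by rw [MonoidHom.mem_ker, map_pow, pow_one, pow_two, e]))
  let S2 := Finset.univ.filter fun g => g ∈ 𝐂 ∧ Hy V g ∧ Hv β (φ g)
  let S3 := Finset.univ.filter fun g => g ∈ 𝐂 ∧ g ∉ A ∧ (orderOf g).Prime ∧ fx V g ≠ ⊥
  let F : G → ℚ := fun g => (if g ∈ S2 then (Φ (2 * 𝐧 / 3) : ℚ) / 2 else 0) +
    if g ∈ S3 then wt g * Φ (𝐧 / 2) else 0
  have a2 : ∀ g, 0 ≤ if g ∈ S2 then (Φ (2 * 𝐧 / 3) : ℚ) / 2 else 0 := fun g => by
    split_ifs <;> positivity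
  have a3 : ∀ g, 0 ≤ if g ∈ S3 then wt g * Φ (𝐧 / 2) else 0 := fun g => by
    have := wt_nonneg g
    split_ifs <;> positivity
  have key : ∀ g : 𝐂, wt g * cnt D g ≤ F g := fun ⟨g, hg⟩ => by
    rw [show wt (⟨g, hg⟩ : 𝐂) = wt g by simp only [wt, ← Subgroup.orderOf_coe]]
    change wt g * cnt D g ≤ _
    have a0 := wt_nonneg g
    by_cases hp : (orderOf g).Prime
    swap
    · rw [wt, if_neg hp, zero_mul]
      exact add_nonneg (a2 g) (a3 g)
    have a4 := h.card_fx hg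
    have hC : cnt D g ≤ Φ (Module.finrank K (h.fs' hg)) := (cnt_le_pow g).trans_eq (by
      rw [a4, Fintype.card_fin, pow_one, hΦ])
    by_cases hb : fx V g = ⊥
    · rw [hb, AddSubgroup.card_bot, eq_comm, Nat.pow_eq_one] at a4
      rw [a4.resolve_left (by omega), hΦ, pow_zero] at hC
      rw [Nat.le_zero.1 hC, Nat.cast_zero, mul_zero]
      exact add_nonneg (a2 g) (a3 g)
    have hA : g ∉ A := fun e => hb (fx_eq_bot h.fs e fun e' => hp.ne_one (by rw [e', orderOf_one]))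
    by_cases hy : Hy V g
    swap
    · refine le_add_of_nonneg_of_le (a2 g) ?_
      rw [if_pos (show g ∈ S3 by simp [S3, hg, hA, hp, hb])]
      refine mul_le_mul_of_nonneg_left (Nat.cast_le.2 (hC.trans (hm ?_))) a0
      simpa using le_div_of_pow (a := 1) hw two_pos (by rw [← a4, ← hV, pow_one]; exact not_lt.1 hy)
    refine le_add_of_le_of_nonneg ?_ (a3 g)
    rw [if_pos (show g ∈ S2 by simp [S2, hg, hy, h.hv hy hg hA hp]), div_eq_inv_mul]
    refine mul_le_mul ?_ (Nat.cast_le.2 (hC.trans (hm (le_div_of_pow hw three_pos (by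
      rw [← a4, ← hV]
      exact h.fx_three hy hg hA hp fun a => a.ne_one (ho g (a.sq h.sy.nd)))))))
        (Nat.cast_nonneg _) (by norm_num)
    have a5 : (3 : ℚ) ≤ orderOf g := by
      exact_mod_cast three_le_of_odd hG pow_card_eq_one' fun e => hp.ne_one (by rw [e, orderOf_one])
    rw [wt, if_pos hp, one_div]
    exact inv_anti₀ two_pos (by linarith)
  refine ((Finset.sum_le_sum fun g _ => key g).trans ((Finset.sum_subtype
    (Finset.univ.filter (· ∈ 𝐂)) (by simp) F).ge.trans (Finset.sum_le_sum_of_subset_of_nonneg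
      (Finset.subset_univ _) fun g _ _ => add_nonneg (a2 g) (a3 g)))).trans_lt ?_
  simp only [F, Finset.sum_add_distrib, Finset.sum_ite_mem, Finset.univ_inter, Finset.sum_const,
    nsmul_eq_mul, ← Finset.sum_mul]
  have b2 : S2.card ≤ Nat.card 𝚪 * R := by
    have b : ∀ f ∈ S2.image φ, f ∈ 𝚪 ∧ Nat.card (dl f).range ≤ R := fun f hf => by
      obtain ⟨g, hg, rfl⟩ := Finset.mem_image.1 hf
      obtain ⟨-, b1, -, b2⟩ := Finset.mem_filter.1 hg
      exact ⟨⟨g, b1, rfl⟩, hR _ (hv_range b2 fun e => b2.2.1 (ho g e))⟩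
    refine (Finset.card_le_mul_card_image _ R fun f hf => (h.card_heavy f _ fun g hg => ?_).trans
      (b f hf).2).trans ((mul_comm R _).trans_le (Nat.mul_le_mul_right _
        (card_le_of_mem fun f hf => (b f hf).1)))
    obtain ⟨b1, b2⟩ := Finset.mem_filter.1 hg
    exact ⟨(Finset.mem_filter.1 b1).2.1, (Finset.mem_filter.1 b1).2.2.1, b2⟩
  have b3 : ∑ g ∈ S3, wt g ≤ (Nat.card 𝚪 * (2 * Nat.card Q) : ℕ) := by
    obtain ⟨lam, hl, hL⟩ := h.lb_gen rfl le_rfl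
    have b : ∀ f ∈ S3.image φ, f ∈ 𝚪 := fun f hf => by
      obtain ⟨g, hg, rfl⟩ := Finset.mem_image.1 hf
      exact ⟨g, (Finset.mem_filter.1 hg).2.1, rfl⟩
    rw [← Finset.sum_fiberwise_of_maps_to fun g hg => Finset.mem_image_of_mem φ hg]
    refine (Finset.sum_le_sum fun f hf => hl f (b f hf) _ fun g hg => ?_).trans (hL _ b)
    simpa [S3, and_assoc] using hg
  have b4 := mul_le_mul_of_nonneg_right (Nat.cast_le (α := ℚ).2 b2)
    (Nat.cast_nonneg (Φ (2 * 𝐧 / 3)))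
  have b5 := mul_le_mul_of_nonneg_right b3 (Nat.cast_nonneg (Φ (𝐧 / 2)))
  have b6 := Nat.cast_lt (α := ℚ).2 hlt
  rw [Nat.cast_add, Nat.cast_mul, Nat.cast_mul _ (Φ _), Nat.cast_mul 2, Nat.cast_mul 2] at b6
  push_cast at b4 b5 b6 ⊢
  linarith

theorem qp_odd_reg [Group.IsSolvable G] (hG : Odd (Nat.card G)) (hV : Odd (Nat.card V)) :
    ∃ v : V, v ≠ 0 ∧ ∀ g ∈ 𝐂, g • v = v → g = 1 := by
  have := h.am.An
  by_cases hQ : Nat.card Q = 1
  · obtain ⟨v, hv⟩ := exists_ne (0 : V)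
    have := (Nat.card_eq_one_iff_unique.1 hQ).1
    exact ⟨v, hv, fun g hg => h.eq_one_of_fix ((h.ker ⟨g, (h.triv g hg).1 (MulEquiv.ext
      fun _ => Subsingleton.elim _ _)⟩).1 (Subsingleton.elim _ _)) hv⟩
  suffices ∃ v : V, ∀ g ∈ 𝐂, g • v = v → g = 1 by
    obtain ⟨v, hv⟩ := this
    refine ⟨v, fun e => hQ (Nat.card_eq_one_iff_unique.2 ⟨⟨fun x y => ?_⟩, inferInstance⟩), hv⟩
    obtain ⟨x, rfl⟩ := h.surj x
    obtain ⟨y, rfl⟩ := h.surj y
    rw [show x = y from Subtype.ext ((hv _ (h.am.cen x.2) (by simp [e])).trans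
      (hv _ (h.am.cen y.2) (by simp [e])).symm)]
  obtain ⟨e, he⟩ := h.sy.exists_sq
  obtain ⟨R, h1, h2⟩ := exists_root 3 (Nat.card Q ^ 2) three_ne_zero
  have he0 : Odd e := (Nat.odd_pow_iff two_ne_zero).1 (he ▸ hG.of_dvd_nat
    ((card_dvd_of_surjective p h.surj).trans M.card_subgroup_dvd_card))
  have e3 : 3 ≤ e := by
    have : e ≠ 1 := fun e1 => hQ (by rw [he, e1]; rfl)
    obtain ⟨k, hk⟩ := he0
    omega
  have hn := h.le_rank he
  have hw : 2 * Nat.card A + 1 ≤ 𝐰 := by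
    rw [Module.natCard_eq_pow_finrank (K := K) (V := V), Nat.odd_pow_iff (by omega)] at hV
    have h3 : 2 ≤ 𝐰 := Finite.one_lt_card
    have := Nat.le_of_dvd (by omega) ((Nat.coprime_two_left.2 (hG.of_dvd_nat
      A.card_subgroup_dvd_card)).mul_dvd_of_dvd_of_dvd (Nat.Odd.sub_odd hV odd_one).two_dvd
        h.fs.card_dvd)
    omega
  obtain ⟨t, ht⟩ := (p_odd _).mul φ ⟨hG, inferInstance⟩ h.sy.cr (Nat.lt_succ_self _)
  have hs := h.sy.small (hG.of_dvd_nat ((card_map_dvd _ φ).trans (card_subgroup_dvd_card _)))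
  have h3 := odd_num he0 e3 hn (qp_dvd h he) Nat.card_pos.ne' hw (B := Nat.card 𝚪) (R := R)
    (by rwa [he, ← pow_mul] at h1) ((card_le_of_le (map_le_range _ _)).trans
      ((index_ker_le φ t ht).trans_eq (by rw [he, ← pow_mul]; rfl))) (fun e9 => (hs (by
        obtain ⟨k, rfl⟩ := he0
        have : k ≤ 4 := by omega
        rw [he]
        interval_cases k <;> simp at e3 ⊢)).1) fun e3 => ((hs (by simp [he, e3])).2
          (by simp [he, e3])).le
  refine master_odd h hG h2 ?_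
  have h4 : 0 < Nat.card 𝚪 := Nat.card_pos
  have h5 : ∀ d, 0 < 𝐰 ^ d := fun d => Nat.pow_pos Nat.card_pos
  have h6 : 2 < 2 * (Nat.card 𝚪 * (2 * e ^ 2)) := by nlinarith
  rw [he, Nat.mul_sub_one (2 * _), Nat.mul_sub_one 2]
  have h7 := Nat.mul_le_mul_left (Nat.card 𝚪 * R) (Nat.sub_le (𝐰 ^ (2 * 𝐧 / 3)) 1)
  have h8 := Nat.le_mul_of_pos_right (2 * (Nat.card 𝚪 * (2 * e ^ 2))) (h5 (𝐧 / 2))
  omega

theorem qp_start_odd [Group.IsSolvable G] (hG : Odd (Nat.card G)) (hV : Odd (Nat.card V)) :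
    St 2 1 (⊤ : Subgroup G) (⊤ : AddSubgroup V) := by
  obtain ⟨v, h1, h2⟩ := qp_odd_reg h hG hV
  refine st_of (Z := {v | ∀ g ∈ 𝐂, g • v = v → g = 1}) (nc_cons (t := fun _ : Fin 1 => v)
    ⟨fun _ => h2, fun _ _ _ _ => Subsingleton.elim _ _⟩ (z := -v) (fun g hg e => h2 g hg ?_)
      fun _ => nc_neg hG hV h1) fun v hv g hg => hv g (qp_C h _ hg) (ds_le _ _ hg).2 ▸ one_mem _
  rwa [smul_neg, neg_inj] at e

end qp

theorem st_odd (n : ℕ) : ∀ (G V : Type u) [Group G] [Finite G] [Group.IsSolvable G]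
    [AddCommGroup V] [Finite V] [DistribMulAction G V] (H : Subgroup G) (U : AddSubgroup V),
    Odd (Nat.card G) → Odd (Nat.card V) → InvOn H U → IrrOn H U → U ≠ ⊥ → Nat.card U = n →
    St 2 1 H U := by
  induction n using Nat.strong_induction_on with
  | _ n ih =>
  intro G V _ _ _ _ _ _ H U hG hV hU hirr h0 hn
  obtain ⟨G', _, _, _, _, f, h2⟩ := exists_tf hU
  have := (U.nontrivial_iff_ne_bot).2 h0
  have := Group.isSolvable_of_surjective h2.surj
  replace hirr := h2.irr hirr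
  replace hG := hG.of_dvd_nat ((card_dvd_of_surjective f h2.surj).trans H.card_subgroup_dvd_card)
  replace hV := hV.of_dvd_nat U.card_addSubgroup_dvd_card
  refine h2.st ?_
  obtain ⟨A, hA1, hA2, hA3⟩ := exists_max_abelian (G := G')
  obtain ⟨M, hM⟩ := exists_AM A hA3
  rcases fs_or_imp hirr A hA2 with ⟨K, _, _, _, σ, h⟩ | ⟨W, hW⟩
  · obtain ⟨Q, _, φ, β, p, h⟩ := exists_QP h hM
    have : Finite Q := Finite.of_surjective p h.surj
    exact qp_start_odd h hG hV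
  exact imp_st hW hirr (cs_odd hG _) (ih _ (hn ▸ hW.card_lt) G' U _ W hG hV (invOn_stab W)
    (hW.irr hirr) hW.ne_bot rfl)

theorem exists_ds {G V : Type*} [Group G] [Finite G] [Group.IsSolvable G] [AddCommGroup V]
    [Finite V] [DistribMulAction G V] [FaithfulSMul G V]
    (hcr : CROn (⊤ : Subgroup G) (⊤ : AddSubgroup V)) :
    (∃ v : V, derivedSeries (MulAction.stabilizer G v) 9 = ⊥) ∧ (Odd (Nat.card G) →
      Odd (Nat.card V) → ∃ v : V, derivedSeries (MulAction.stabilizer G v) 1 = ⊥) := by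
  have key : ∀ {d}, St 1 d (⊤ : Subgroup G) (⊤ : AddSubgroup V) →
      ∃ v : V, derivedSeries (MulAction.stabilizer G v) d = ⊥ := fun ⟨t, _, h, _⟩ => ⟨t 0, by
    have h1 := h 0
    rw [top_inf_eq, fix_top, le_bot_iff, ← range_subtype (MulAction.stabilizer G (t 0)),
      MonoidHom.range_eq_map, ← ds_map, map_eq_bot_iff_of_injective _ (subtype_injective _),
      ds_top] at h1
    exact h1⟩
  refine ⟨key (st_cr (fun U hU hirr h0 => ?_) ⊤ (fun _ _ _ _ => trivial) hcr), fun hG hV =>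
    key (st_cr (fun U hU hirr h0 => ?_) ⊤ (fun _ _ _ _ => trivial) hcr)⟩ <;>
  obtain ⟨G', _, _, _, _, f, h2⟩ := exists_tf hU <;>
  have := (U.nontrivial_iff_ne_bot).2 h0 <;>
  have := Group.isSolvable_of_surjective h2.surj
  · obtain ⟨k, h3, h4, h5⟩ := st_irr _ G' U ⊤ ⊤ (fun _ _ _ _ => trivial) (h2.irr hirr)
      top_ne_bot rfl
    obtain ⟨k, rfl⟩ := Nat.exists_eq_add_of_le' (show 1 ≤ k by omega)
    exact h2.st (h5.one (by omega))
  · exact h2.st ((st_odd _ G' U ⊤ ⊤ (hG.of_dvd_nat ((card_dvd_of_surjective f h2.surj).trans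
      (card_subgroup_dvd_card _))) (hV.of_dvd_nat U.card_addSubgroup_dvd_card)
        (fun _ _ _ _ => trivial) (h2.irr hirr) top_ne_bot rfl).one le_rfl)

end CF.Crit.Ob
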