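import Cfsg.Agent.Clifford.GoingDown
import Cfsg.Agent.Clifford.Small
import Cfsg.Agent.BlockB.Ord1
import Cfsg.Agent.Coprime.SemiReg
import Cfsg.Agent.Solv.Fitting

/-!
# Primitive character degrees of metanilpotent `{p,q}`-groups divide class sizes
-/

set_option autoImplicit false

namespace CF.Crit.Prim

open Cfsg Subgroup CF.Clifford CF.Char CF.Solv CF.Coprime
open scoped commutatorElement

attribute [local instance] Fintype.ofFinite

universe u

variable {G : Type u} [Group G] [Finite G] {p q : ℕ}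

theorem avg [Fact q.Prime] (A : Subgroup G) (hA : IsPGroup q A) (n : ℕ) :
    ∀ W : Subgroup G, Nat.card W = n → (∀ a ∈ W, ∀ b ∈ W, a * b = b * a) →
      A ≤ normalizer (W : Set G) → (Nat.card W).Coprime q → W ⊓ centralizer (A : Set G) = ⊥ →
      ∏ a : A, Nat.card (W ⊓ centralizer {(a : G)} : Subgroup G) ^ 2 ≤
        Nat.card W ^ Nat.card A := by
  induction n using Nat.strong_induction_on with
  | _ n ih =>
  intro W hn hc hAW hcop hfix
  by_cases hW : W = ⊥
  · subst hW
    simp
  haveI : IsMulCommutative W := ⟨⟨fun x y => Subtype.ext (hc _ x.2 _ y.2)⟩⟩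
  obtain ⟨z, hzA, hz1, hz2⟩ : ∃ z ∈ A, z ∉ centralizer (W : Set G) ∧
      ∀ a ∈ A, a * z * a⁻¹ * z⁻¹ ∈ centralizer (W : Set G) := by
    let φ := conjAct A W hAW
    haveI : Nontrivial φ.range := by
      rw [nontrivial_iff_ne_bot, Ne, MonoidHom.range_eq_bot_iff]
      intro h
      apply hW
      rw [← hfix, left_eq_inf, le_centralizer_iff]
      intro a ha
      exact (mem_ker_conjAct hAW ⟨a, ha⟩).1 (by rw [MonoidHom.mem_ker]; exact DFunLike.congr_fun h _)
    haveI := (hA.of_surjective φ.rangeRestrict φ.rangeRestrict_surjective).center_nontrivial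
    obtain ⟨⟨⟨_, z, rfl⟩, hz⟩, h1⟩ := exists_ne (1 : center φ.range)
    refine ⟨z, z.2, fun h => h1 (Subtype.ext (Subtype.ext ((mem_ker_conjAct hAW z).2 h))),
      fun a ha => ?_⟩
    have := congrArg Subtype.val (mem_center_iff.1 hz ⟨_, ⟨a, ha⟩, rfl⟩)
    refine (mem_ker_conjAct hAW (⟨a, ha⟩ * z * ⟨a, ha⟩⁻¹ * z⁻¹)).1 ?_
    show φ _ = 1
    rw [map_mul, map_mul, map_mul, map_inv, map_inv]
    change φ ⟨a, ha⟩ * φ z = φ z * φ ⟨a, ha⟩ at this
    rw [this]
    group
  have hconj : ∀ a ∈ A, ∀ w ∈ W, a * w * a⁻¹ ∈ W := fun a ha w hw =>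
    (mem_normalizer_iff.1 (hAW ha) w).1 hw
  have hsw : ∀ a ∈ A, ∀ w ∈ W, a * (z * w * z⁻¹) * a⁻¹ = z * (a * w * a⁻¹) * z⁻¹ := by
    intro a ha w hw
    have h1 := mem_centralizer_iff.1 (hz2 a ha) _ (hconj z hzA _ (hconj a ha w hw))
    calc a * (z * w * z⁻¹) * a⁻¹ = (a * z * a⁻¹ * z⁻¹) * (z * (a * w * a⁻¹) * z⁻¹) *
          (a * z * a⁻¹ * z⁻¹)⁻¹ := by group
      _ = _ := by rw [← h1]; group
  let δ : W →* G :=
    { toFun := fun w => (w : G)⁻¹ * (z * w * z⁻¹)
      map_one' := by simp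
      map_mul' := fun a b => by
        have h1 := hc _ (W.inv_mem b.2) _ (W.mul_mem (W.inv_mem a.2) (hconj z hzA _ a.2))
        simp only [coe_mul, mul_inv_rev]
        calc (b : G)⁻¹ * (a : G)⁻¹ * (z * (a * b) * z⁻¹) =
            (b : G)⁻¹ * ((a : G)⁻¹ * (z * a * z⁻¹)) * (z * b * z⁻¹) := by group
          _ = _ := by rw [h1]; group }
  have hδ : ∀ w : W, δ w = (w : G)⁻¹ * (z * w * z⁻¹) := fun _ => rfl
  set W0 := W ⊓ centralizer {z} with hW0
  have hker : δ.ker = W0.subgroupOf W := by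
    ext w
    rw [MonoidHom.mem_ker, hδ, mem_subgroupOf, hW0, mem_inf, mem_centralizer_singleton_iff,
      inv_mul_eq_one, eq_mul_inv_iff_mul_eq]
    simp
  have hW1 : δ.range ⊓ centralizer {z} = ⊥ := by
    have := inf_centralizer_inf_commutator_eq_bot (zpowers z) W ((zpowers_le.2 hzA).trans hAW)
      (Solv.coprime_card_of_isPGroup (hA.to_le (zpowers_le.2 hzA)) hcop)
    rw [eq_bot_iff, ← this, centralizer_zpowers_eq]
    rintro _ ⟨⟨w, rfl⟩, h2⟩
    refine ⟨⟨W.mul_mem (W.inv_mem w.2) (hconj z hzA _ w.2), h2⟩, ?_⟩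
    have := commutator_mem_commutator (W.inv_mem w.2) (mem_zpowers z)
    rw [commutatorElement_def, inv_inv] at this
    show (w : G)⁻¹ * (z * w * z⁻¹) ∈ ⁅W, zpowers z⁆
    simpa only [mul_assoc] using this
  have hcard : Nat.card δ.range * Nat.card W0 = Nat.card W := by
    have := card_map_mul_card_inf_ker δ ⊤
    rwa [← MonoidHom.range_eq_map, inf_top_eq, hker, card_subgroupOf_of_le inf_le_left,
      card_top] at this
  have hlt : W0 < W := lt_of_le_of_ne inf_le_left fun h => hz1 (mem_centralizer_iff.2 fun w hw =>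
    mem_centralizer_singleton_iff.1 (h.ge hw).2)
  have h0 := ih _ (hn ▸ card_lt_of_lt hlt) W0 rfl (fun a ha b hb => hc a ha.1 b hb.1) (by
      intro a ha
      refine mem_normalizer_of_conj_smul_le fun x hx => ?_
      rw [mem_conj_smul_iff] at hx
      have h1 := hsw a ha _ hx.1
      have h2 : z * (a⁻¹ * x * a) * z⁻¹ = a⁻¹ * x * a := by
        rw [← mem_centralizer_singleton_iff.1 hx.2]; group
      have h3 := hconj a ha _ hx.1
      rw [h2] at h1
      simp only [mul_assoc, mul_inv_cancel_left, mul_inv_cancel, mul_one] at h1 h3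
      refine ⟨h3, mem_centralizer_singleton_iff.2 ?_⟩
      nth_rewrite 1 [h1]
      group)
    (hcop.coprime_dvd_left (card_dvd_of_le inf_le_left))
    (le_bot_iff.1 (hfix ▸ inf_le_inf_right _ inf_le_left))
  have h1 : ∀ a : A, Nat.card (W ⊓ centralizer {(a : G)} : Subgroup G) ≤
      Nat.card (δ.range ⊓ centralizer {(a : G)} : Subgroup G) *
        Nat.card (W0 ⊓ centralizer {(a : G)} : Subgroup G) := by
    intro a
    have := card_map_mul_card_inf_ker δ ((centralizer {(a : G)}).subgroupOf W)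
    rw [card_subgroupOf, inf_comm (centralizer _) W, hker,
      show W0.subgroupOf W ⊓ (centralizer {(a : G)}).subgroupOf W =
        (W0 ⊓ centralizer {(a : G)}).subgroupOf W from rfl, card_subgroupOf_of_le (inf_le_left.trans inf_le_left)] at this
    rw [← this]
    refine Nat.mul_le_mul_right _ (card_le_of_le ?_)
    rintro _ ⟨w, hw, rfl⟩
    refine ⟨⟨w, rfl⟩, mem_centralizer_singleton_iff.2 ?_⟩
    have h2 : (w : G) * a = a * w := mem_centralizer_singleton_iff.1 hw
    have h3 := hsw a a.2 _ w.2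
    have h4 : (a : G) * w * (a : G)⁻¹ = w := by rw [← h2]; group
    rw [h4] at h3
    rw [hδ]
    calc (w : G)⁻¹ * (z * w * z⁻¹) * a =
          ((a : G) * w * (a : G)⁻¹)⁻¹ * ((a : G) * (z * w * z⁻¹) * (a : G)⁻¹) * a := by
          rw [h3, h4]
      _ = _ := by group
  have hle : δ.range ≤ W := by
    rintro _ ⟨w, rfl⟩
    exact W.mul_mem (W.inv_mem w.2) (hconj z hzA _ w.2)
  have h2 : ∀ a : A, Nat.card (δ.range ⊓ centralizer {(a : G)} : Subgroup G) *
      Nat.card (δ.range ⊓ centralizer {((a * ⟨z, hzA⟩ : A) : G)} : Subgroup G) ≤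
        Nat.card δ.range := by
    intro a
    rw [← card_sup_of_inf_eq_bot]
    · exact card_le_of_le (sup_le inf_le_left inf_le_left)
    · refine le_trans (fun x hx => mem_centralizer_iff.2 fun y hy => ?_) (centralizer_le_normalizer _)
      exact hc _ (hle hy.1) _ (hle hx.1)
    · rw [eq_bot_iff, ← hW1]
      rintro x ⟨⟨h1, h2⟩, -, h3⟩
      refine ⟨h1, mem_centralizer_singleton_iff.2 ?_⟩
      have h4 : x * a = a * x := mem_centralizer_singleton_iff.1 h2
      have h5 : x * (a * z) = a * z * x := mem_centralizer_singleton_iff.1 h3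
      rw [← mul_assoc, h4, mul_assoc, mul_assoc] at h5
      exact mul_left_cancel h5
  have h3 : ∏ a : A, Nat.card (δ.range ⊓ centralizer {(a : G)} : Subgroup G) ^ 2 ≤
      Nat.card δ.range ^ Nat.card A := by
    simp only [sq]
    rw [Finset.prod_mul_distrib]
    nth_rewrite 2 [← Equiv.prod_comp (Equiv.mulRight (⟨z, hzA⟩ : A))]
    rw [← Finset.prod_mul_distrib, Nat.card_eq_fintype_card (α := A), ← Finset.card_univ]
    exact Finset.prod_le_pow_card _ _ _ fun a _ => h2 a
  rw [← hcard, mul_pow]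
  refine le_trans (Finset.prod_le_prod' fun a _ => Nat.pow_le_pow_left (h1 a) 2) ?_
  simp only [mul_pow]
  rw [Finset.prod_mul_distrib]
  exact Nat.mul_le_mul h3 h0

theorem exists_half [Fact q.Prime] (A W : Subgroup G) (hA : IsPGroup q A)
    (hc : ∀ a ∈ W, ∀ b ∈ W, a * b = b * a) (hAW : A ≤ normalizer (W : Set G))
    (hcop : (Nat.card W).Coprime q) (hf : W ⊓ centralizer (A : Set G) = ⊥) :
    ∃ a ∈ A, Nat.card (W ⊓ centralizer {a} : Subgroup G) ^ 2 ≤ Nat.card W := by
  by_contra h
  push Not at h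
  have h1 := avg A hA _ W rfl hc hAW hcop hf
  have h2 := Finset.prod_lt_prod_of_nonempty (s := (Finset.univ : Finset A))
    (f := fun _ => Nat.card W) (fun _ _ => Nat.card_pos) (fun a _ => h a a.2) Finset.univ_nonempty
  rw [Finset.prod_const, Finset.card_univ, ← Nat.card_eq_fintype_card] at h2
  omega

theorem relIndex_dvd_index (R C : Subgroup G) [R.Normal] : C.relIndex R ∣ C.index := by
  have h1 := card_sup_mul_card_inf C R
  have h2 := card_inf_mul_relIndex C R
  have h3 : Nat.card (C ⊔ R : Subgroup G) = Nat.card C * C.relIndex R := by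
    refine Nat.eq_of_mul_eq_mul_right (Nat.card_pos (α := (C ⊓ R : Subgroup G))) ?_
    rw [h1, ← h2]
    ring
  have h4 := card_subgroup_dvd_card (C ⊔ R)
  rw [h3, ← C.card_mul_index] at h4
  exact Nat.dvd_of_mul_dvd_mul_left Nat.card_pos h4

theorem irr_restrict (F : Subgroup G) [F.Normal] [Group.IsNilpotent (G ⧸ F)] {χ : G → ℂ}
    (h : RelPrim ⊥ χ) (hχ : IsIrrCharacter G χ) : IsIrrCharacter F fun n : F => χ n := by
  refine RelPrim.irr_restrict F (RelPrim.mono h bot_le) hχ fun K L hK hL hFL hLK hc => ?_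
  haveI : Group.IsNilpotent (G ⧸ L) := Group.nilpotent_of_surjective
    (QuotientGroup.map F L (MonoidHom.id G) hFL) (QuotientGroup.map_surjective_of_surjective
      _ _ _ (fun x => QuotientGroup.mk_surjective x) _)
  haveI := hK.map _ (QuotientGroup.mk'_surjective L)
  obtain ⟨z, hz, hr⟩ := exists_prime_orderOf_mem (normal_inf_center_ne_bot
    (K.map (QuotientGroup.mk' L)) (fun h => hLK.not_ge ((map_mk'_eq_bot_iff L K).1 h)))
  have hzc : zpowers z ≤ center _ := zpowers_le.2 hz.2
  haveI : (zpowers z).Normal := ⟨fun m hm g => by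
    rw [mem_center_iff.1 (hzc hm) g, mul_inv_cancel_right]; exact hm⟩
  have hM := (hc ((zpowers z).comap (QuotientGroup.mk' L)) inferInstance (le_comap_mk' L _) (by
    rw [← sup_eq_left.2 hLK.le, ← comap_map_mk']
    exact comap_mono (zpowers_le.2 hz.1))).resolve_left (by
      intro h1
      have := map_comap_mk' L (zpowers z)
      rw [h1, (map_mk'_eq_bot_iff L L).2 le_rfl, eq_comm, zpowers_eq_bot] at this
      rw [this, orderOf_one] at hr
      exact Nat.not_prime_one hr)
  constructor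
  · rw [commutator_le]
    intro a ha b _
    rw [← hM] at ha
    rw [← QuotientGroup.eq_one_iff]
    show QuotientGroup.mk' L _ = 1
    rw [map_commutatorElement, commutatorElement_eq_one_iff_mul_comm]
    exact (mem_center_iff.1 (hzc ha) _).symm
  · rw [← card_map_mk', ← hM, map_comap_mk', Nat.card_zpowers]
    exact hr.prime.not_isSquare


theorem comm_le (hab : ∀ A : Subgroup G, A.Normal → (∀ a ∈ A, ∀ b ∈ A, a * b = b * a) →
    A ≤ center G) (F : Subgroup G) [hF : F.Normal] [Group.IsNilpotent F] : ⁅F, F⁆ ≤ center G := by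
  set π := QuotientGroup.mk' (center G)
  haveI := hF.map π (QuotientGroup.mk'_surjective _)
  haveI := isNilpotent_map π F
  by_contra hne
  have h1 := inf_centralizer_ne_bot_of_isNilpotent (H := ⁅F.map π, F.map π⁆) (K := F.map π)
    (commutator_le_left _ _) (le_top.trans (normalizer_eq_top _).ge) (by
      rw [← map_commutator, Ne, map_mk'_eq_bot_iff]; exact hne)
  apply h1
  rw [← map_comap_mk' _ (⁅F.map π, F.map π⁆ ⊓ _), map_mk'_eq_bot_iff]
  refine hab _ inferInstance fun a ha b hb => ?_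
  have h2 : ∀ f ∈ F, ∀ x, x * (f * b * f⁻¹ * b⁻¹) = f * b * f⁻¹ * b⁻¹ * x := by
    intro f hf
    refine mem_center_iff.1 ((QuotientGroup.eq_one_iff _).1 ?_)
    have : π f * π b = π b * π f := mem_centralizer_iff.1 hb.2 _ (mem_map_of_mem π hf)
    show π _ = 1
    rw [map_mul, map_mul, map_mul, this, map_inv, map_inv]
    group
  have h3 : ⁅F, F⁆ ⊔ center G ≤ centralizer {b} := by
    refine sup_le (commutator_le.2 fun x hx y hy => mem_centralizer_singleton_iff.2 ?_)
      fun z hz => mem_centralizer_singleton_iff.2 (mem_center_iff.1 hz b).symm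
    have e1 := h2 x hx
    have e2 := h2 y hy
    set c := x * b * x⁻¹ * b⁻¹ with hc
    set d := y * b * y⁻¹ * b⁻¹ with hd
    have f1 : x * b = c * b * x := by rw [hc]; group
    have f2 : y * b = d * b * y := by rw [hd]; group
    clear_value c d
    have f3 : x * y * b = c * d * b * (x * y) := by
      calc x * y * b = (x * d) * b * y := by rw [mul_assoc, f2]; group
        _ = d * (x * b) * y := by rw [e2 x]; group
        _ = (c * d) * b * (x * y) := by rw [f1, e2 c]; group
    have f4 : y * x * b = c * d * b * (y * x) := by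
      calc y * x * b = (y * c) * b * x := by rw [mul_assoc, f1]; group
        _ = c * (y * b) * x := by rw [e1 y]; group
        _ = (c * d) * b * (y * x) := by rw [f2]; group
    have f5 : b * (y * x)⁻¹ = (y * x)⁻¹ * (c * d * b) := by
      rw [eq_inv_mul_iff_mul_eq, ← mul_assoc, f4]; group
    have f6 : ∀ u, u * (c * d) = c * d * u := fun u => by
      rw [← mul_assoc, e1 u, mul_assoc, e2 u, mul_assoc]
    rw [commutatorElement_def]
    calc x * y * x⁻¹ * y⁻¹ * b = x * y * ((y * x)⁻¹ * (c * d * b)) * b⁻¹ * (c * d)⁻¹ * b := by group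
      _ = (x * y * b) * (y * x)⁻¹ * (b⁻¹ * (c * d)⁻¹ * b) := by rw [← f5]; group
      _ = c * d * (b * (x * y) * (y * x)⁻¹) * (c * d)⁻¹ := by
        rw [f3, show b⁻¹ * (c * d)⁻¹ * b = (b⁻¹ * (c * d) * b)⁻¹ by group, f6 b⁻¹]; group
      _ = _ := by rw [← f6]; group
  have h4 : a ∈ ⁅F, F⁆ ⊔ center G := by
    rw [← comap_map_mk', map_commutator]
    exact ha.1
  exact mem_centralizer_singleton_iff.1 (h3 h4)

theorem half [hp : Fact p.Prime] [hq : Fact q.Prime] (hpq : p ≠ q)
    (hab : ∀ A : Subgroup G, A.Normal → (∀ a ∈ A, ∀ b ∈ A, a * b = b * a) → A ≤ center G)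
    [Group.IsNilpotent (G ⧸ fittingSubgroup G)] (P Q : Subgroup G) (hP : IsPGroup p P)
    (hQ : IsPGroup q Q) (hPQ : P ⊔ Q = ⊤) :
    ∃ y ∈ Q, ∀ x ∈ P, ∀ g, g = x * y ∨ g = y * x →
      Nat.card ((pCore p G).map (QuotientGroup.mk' (center G))) ≤
        ((centralizer {g}).relIndex (pCore p G)) ^ 2 := by
  set π := QuotientGroup.mk' (center G)
  set R := pCore p G
  set F := fittingSubgroup G
  have hF := comm_le hab F
  have hRF : R ≤ F := pCore_le_fitting
  set W := R.map π with hW
  haveI : W.Normal := Normal.map inferInstance π (QuotientGroup.mk'_surjective _)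
  have hWp : IsPGroup p W := pCore_isPGroup.map π
  have hFW : ∀ f ∈ F, ∀ w ∈ W, w * π f = π f * w := by
    rintro f hf _ ⟨r, hr, rfl⟩
    rw [← commutatorElement_eq_one_iff_mul_comm, ← map_commutatorElement]
    exact (QuotientGroup.eq_one_iff _).2 (hF (commutator_mem_commutator (hRF hr) hf))
  have hWc : ∀ a ∈ W, ∀ b ∈ W, a * b = b * a := by
    rintro a ha _ ⟨r, hr, rfl⟩
    exact hFW r (hRF hr) a ha
  have hcop : p.Coprime q := (Nat.coprime_primes hp.out hq.out).2 hpq
  have hxy : ∀ x ∈ P, ∀ y ∈ Q, Commute (x : G ⧸ F) (y : G ⧸ F) := by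
    intro x hx y hy
    haveI : Group.IsNilpotent (⊤ : Subgroup (G ⧸ F)) := inferInstance
    obtain ⟨k, hk⟩ := hP ⟨x, hx⟩
    obtain ⟨l, hl⟩ := hQ ⟨y, hy⟩
    refine commute_of_coprime_orderOf (mem_top _) (mem_top _) ?_
    refine ((hcop.pow k l).coprime_dvd_left ?_).coprime_dvd_right ?_
    · exact (orderOf_map_dvd (QuotientGroup.mk' F) x).trans
        (orderOf_dvd_of_pow_eq_one (congrArg Subtype.val hk))
    · exact (orderOf_map_dvd (QuotientGroup.mk' F) y).trans
        (orderOf_dvd_of_pow_eq_one (congrArg Subtype.val hl))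
  have hfix : W ⊓ centralizer (Q.map π : Set _) = ⊥ := by
    by_contra hne
    set U := W ⊓ centralizer (Q.map π : Set _) with hU
    have hPU : P.map π ≤ normalizer (U : Set _) := by
      rintro _ ⟨x, hx, rfl⟩
      refine mem_normalizer_of_conj_smul_le fun u hu => ?_
      rw [mem_conj_smul_iff] at hu
      have h0 : u ∈ W := by simpa [mul_assoc] using ‹W.Normal›.conj_mem _ hu.1 (π x)
      refine ⟨h0, mem_centralizer_iff.2 ?_⟩
      rintro _ ⟨y, hy, rfl⟩
      have h1 := mem_centralizer_iff.1 hu.2 _ (mem_map_of_mem π hy)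
      have h2 := hFW _ (QuotientGroup.eq.1 (hxy x hx y hy).eq) _ hu.1
      simp only [map_mul, map_inv] at h2
      calc π y * u = π x * π y * ((π x * π y)⁻¹ * (π y * π x) * ((π x)⁻¹ * u * π x)) * (π x)⁻¹ := by
            group
        _ = π x * (π y * ((π x)⁻¹ * u * π x)) * (π x * π y)⁻¹ * π y := by rw [← h2]; group
        _ = _ := by rw [h1]; group
    haveI := isNilpotent_sup_of_isPGroup (hWp.to_le inf_le_left) (hP.map π) hPU
    obtain ⟨⟨w, hw, hw'⟩, hw1⟩ := ne_bot_iff_exists_ne_one.1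
      (inf_centralizer_ne_bot_of_isNilpotent (H := U) (K := U ⊔ P.map π) le_sup_left
        (sup_le le_normalizer hPU) hne)
    have hwc : zpowers w ≤ center _ := by
      have t : P.map π ⊔ Q.map π = ⊤ := by
        rw [← Subgroup.map_sup, hPQ, map_top_of_surjective π (QuotientGroup.mk'_surjective _)]
      have t2 : P.map π ⊔ Q.map π ≤ centralizer {w} := sup_le
        (fun a ha => mem_centralizer_singleton_iff.2
          (mem_centralizer_iff.1 hw' a (le_sup_right (a := U) ha)))
        fun a ha => mem_centralizer_singleton_iff.2 (mem_centralizer_iff.1 hw.2 a ha)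
      exact zpowers_le.2 (mem_center_iff.2 fun g =>
        mem_centralizer_singleton_iff.1 (t2 (t ▸ mem_top g)))
    haveI : (zpowers w).Normal := ⟨fun m hm g => by
      rw [mem_center_iff.1 (hwc hm) g, mul_inv_cancel_right]; exact hm⟩
    obtain ⟨v, rfl⟩ := QuotientGroup.mk'_surjective _ w
    have h5 := hab ((zpowers (π v)).comap π) inferInstance (by
      have key : ∀ a ∈ (zpowers (π v)).comap π, ∃ (k : ℤ) (z : G), z ∈ center G ∧ a = v ^ k * z := by
        rintro a ⟨k, hk⟩
        refine ⟨k, (v ^ k)⁻¹ * a, QuotientGroup.eq.1 ?_, by group⟩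
        exact (map_zpow π v k).trans hk
      intro a ha b hb
      obtain ⟨k, z, hz, rfl⟩ := key a ha
      obtain ⟨l, z', hz', rfl⟩ := key b hb
      have e1 := mem_center_iff.1 hz
      have e2 := mem_center_iff.1 hz'
      calc v ^ k * z * (v ^ l * z') = v ^ k * (z * v ^ l) * z' := by group
        _ = v ^ l * (v ^ k * (z * z')) := by rw [← e1]; group
        _ = _ := by rw [← e1 z', ← mul_assoc (v ^ k), e2]; group)
    exact hw1 (Subtype.ext ((QuotientGroup.eq_one_iff v).2 (h5 (mem_zpowers _))))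
  obtain ⟨_, ⟨y, hy, rfl⟩, hy2⟩ := exists_half (Q.map π) W (hQ.map π) hWc
    (le_top.trans (normalizer_eq_top _).ge) (Solv.coprime_card_of_isPGroup hWp hcop.symm) hfix
  refine ⟨y, hy, fun x hx g hg => ?_⟩
  have h1 : W ⊓ centralizer {π g} ≤ W ⊓ centralizer {π y} := by
    intro w hw
    refine ⟨hw.1, mem_centralizer_singleton_iff.2 ?_⟩
    obtain ⟨k, hk⟩ := hP ⟨x, hx⟩
    obtain ⟨l, hl⟩ := hQ ⟨y, hy⟩
    have hk' : x ^ p ^ k = 1 := congrArg Subtype.val hk
    have hl' : y ^ q ^ l = 1 := congrArg Subtype.val hl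
    have h2 : ((y ^ p ^ k : G) : G ⧸ F) = (g ^ p ^ k : G) := by
      have := hxy x hx y hy
      rcases hg with rfl | rfl
      · simp only [QuotientGroup.mk_pow, QuotientGroup.mk_mul]
        rw [this.mul_pow, ← QuotientGroup.mk_pow F x, hk']; simp
      · simp only [QuotientGroup.mk_pow, QuotientGroup.mk_mul]
        rw [this.symm.mul_pow, ← QuotientGroup.mk_pow F x, hk']; simp
    have h3 := hFW _ (QuotientGroup.eq.1 h2.symm) w hw.1
    have h4 : Commute w (π (g ^ p ^ k)) := by
      rw [map_pow]; exact Commute.pow_right (mem_centralizer_singleton_iff.1 hw.2) _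
    have h5 : Commute w (π y ^ p ^ k) := by
      have := h4.mul_right h3
      rwa [← map_mul, mul_inv_cancel_left, map_pow] at this
    obtain ⟨m, hm⟩ := exists_pow_eq_self_of_coprime (x := π y) (n := p ^ k)
      ((hcop.pow k l).coprime_dvd_right ((orderOf_map_dvd π y).trans
        (orderOf_dvd_of_pow_eq_one hl')))
    exact hm ▸ h5.pow_right m
  have h2 := card_map_mul_card_inf_ker π R
  have h3 := card_map_mul_card_inf_ker π (centralizer {g} ⊓ R)
  have h4 := card_inf_mul_relIndex (centralizer {g}) R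
  have h5 : Nat.card ((centralizer {g} ⊓ R).map π) ≤
      Nat.card (W ⊓ centralizer {π y} : Subgroup _) := by
    refine card_le_of_le (le_trans ?_ h1)
    rintro _ ⟨r, hr, rfl⟩
    refine ⟨mem_map_of_mem π hr.2, mem_centralizer_singleton_iff.2 ?_⟩
    rw [← map_mul, ← map_mul, mem_centralizer_singleton_iff.1 hr.1]
  have h6 : Nat.card (π.ker ⊓ (centralizer {g} ⊓ R) : Subgroup G) ≤
      Nat.card (π.ker ⊓ R : Subgroup G) := card_le_of_le (inf_le_inf_left _ inf_le_right)
  have h7 : 0 < Nat.card (π.ker ⊓ R : Subgroup G) := Nat.card_pos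
  have h8 : 0 < Nat.card W := Nat.card_pos
  set m := (centralizer {g}).relIndex R
  set c := Nat.card (W ⊓ centralizer {π y} : Subgroup _)
  set z := Nat.card (π.ker ⊓ R : Subgroup G)
  have h9 : Nat.card W ≤ c * m := by
    refine Nat.le_of_mul_le_mul_right ?_ h7
    rw [h2, ← h4, ← h3]
    calc _ ≤ c * z * m := Nat.mul_le_mul_right _ (Nat.mul_le_mul h5 h6)
      _ = _ := by ring
  refine Nat.le_of_mul_le_mul_right ?_ h8
  calc Nat.card W * Nat.card W ≤ (c * m) * (c * m) := Nat.mul_le_mul h9 h9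
    _ = m ^ 2 * c ^ 2 := by ring
    _ ≤ _ := Nat.mul_le_mul_left _ hy2

theorem pow_dvd_aux (hp : p.Prime) {d a u s : ℕ} (hd : d ≠ 0) (ha : ¬ p ∣ a)
    (h : d ^ 2 ∣ p ^ u * a) (hs : p ^ u ≤ (p ^ s) ^ 2) : p ^ d.factorization p ∣ p ^ s := by
  have h1 : (p ^ d.factorization p) ^ 2 ∣ p ^ u * a :=
    (pow_dvd_pow_of_dvd (Nat.ordProj_dvd d p) 2).trans h
  rw [← pow_mul] at h1 hs
  have h2 := (((Nat.Prime.coprime_iff_not_dvd hp).2 ha).pow_left _).dvd_of_dvd_mul_right h1
  have h3 := (Nat.pow_dvd_pow_iff_le_right hp.one_lt).1 h2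
  have h4 := (Nat.pow_le_pow_iff_right hp.one_lt).1 hs
  exact pow_dvd_pow p (by omega)

theorem main [hp : Fact p.Prime] [hq : Fact q.Prime] (hpq : p ≠ q)
    (hG : ∀ r, r.Prime → r ∣ Nat.card G → r = p ∨ r = q)
    [Group.IsNilpotent (G ⧸ fittingSubgroup G)] {χ : G → ℂ} (h : RelPrim ⊥ χ)
    (hχ : IsIrrCharacter G χ) (hk : charKer χ = ⊥) :
    ∃ g : G, charDegree χ ∣ (centralizer {g}).index := by
  have hab : ∀ A : Subgroup G, A.Normal → (∀ a ∈ A, ∀ b ∈ A, a * b = b * a) → A ≤ center G := by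
    intro A _ hA
    rw [← charCenter_eq_center_of_faithful hχ hk]
    refine RelPrim.le_charCenter h hχ A bot_le (commutator_le.2 fun a ha b hb => ?_)
    rw [commutatorElement_eq_one_iff_mul_comm.2 (hA a ha b hb)]
    exact one_mem _
  obtain ⟨P⟩ : Nonempty (Sylow p G) := inferInstance
  obtain ⟨Q⟩ : Nonempty (Sylow q G) := inferInstance
  have hPQ : (P : Subgroup G) ⊔ Q = ⊤ := eq_top_of_forall_sylow_le fun r hr h1 => by
    rcases hG r hr.out h1 with rfl | rfl
    exacts [⟨P, le_sup_left⟩, ⟨Q, le_sup_right⟩]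
  obtain ⟨y, hy, h1⟩ := half hpq hab P Q P.isPGroup' Q.isPGroup' hPQ
  obtain ⟨x, hx, h2⟩ := half hpq.symm hab Q P Q.isPGroup' P.isPGroup' (by rw [sup_comm, hPQ])
  have h3 := h1 x hx _ (Or.inl rfl)
  have h4 := h2 y hy _ (Or.inr rfl)
  refine ⟨x * y, ?_⟩
  set F := fittingSubgroup G
  set π := QuotientGroup.mk' (center G)
  have hθ := irr_restrict F h hχ
  have hF := comm_le hab F
  have hZ : center F = (center G).subgroupOf F := by
    apply le_antisymm
    · refine (map_le_iff_le_comap (f := F.subtype)).1 ?_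
      refine hab _ inferInstance ?_
      rintro _ ⟨a, ha, rfl⟩ _ ⟨b, -, rfl⟩
      exact (congrArg Subtype.val (mem_center_iff.1 ha b)).symm
    · intro a ha
      exact mem_center_iff.2 fun b => Subtype.ext (mem_center_iff.1 ha b)
  have hkθ : charKer (fun n : F => χ n) = ⊥ := by
    rw [BlockB.Ord.charKer_eq_bot_iff (irr_isCharacter hθ)]
    exact fun g hg => Subtype.ext ((BlockB.Ord.charKer_eq_bot_iff (irr_isCharacter hχ)).1 hk g hg)
  have h5 := irr_one_sq_eq_index hθ (center F) (charCenter_eq_center_of_faithful hθ hkθ).ge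
    fun x hx => irr_eq_zero_of_not_mem_center hθ (by
      rw [hZ]
      refine (map_le_iff_le_comap (f := F.subtype)).1 ?_
      rw [map_subtype_commutator]; exact hF) (by
      rw [hkθ, inf_bot_eq]) hx
  have h6 : charDegree χ ^ 2 = Nat.card (F.map π) := by
    rw [card_map_mk', relIndex, ← hZ]
    have := BlockB.Ord.irr_deg_eq hχ
    simp only [OneMemClass.coe_one, this] at h5
    exact_mod_cast h5
  have h7 : F ≤ pCore p G ⊔ pCore q G := fitting_le_iff.2 fun r hr => by
    by_cases h8 : r ∣ Nat.card G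
    · rcases hG r hr.out h8 with rfl | rfl
      exacts [le_sup_left, le_sup_right]
    · obtain ⟨k, hk⟩ := (pCore_isPGroup (p := r) (G := G)).exists_card_eq
      have : k = 0 := by
        by_contra h9
        exact h8 ((dvd_pow_self r h9).trans (hk ▸ card_subgroup_dvd_card _))
      rw [this, pow_zero, card_eq_one] at hk
      exact hk ▸ bot_le
  haveI : ((pCore q G).map π).Normal := Normal.map inferInstance π (QuotientGroup.mk'_surjective _)
  have h8 : charDegree χ ^ 2 ∣ Nat.card ((pCore p G).map π) * Nat.card ((pCore q G).map π) := by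
    rw [h6]
    refine (card_dvd_of_le ?_).trans (card_sup_dvd _ _)
    rw [← Subgroup.map_sup]
    exact map_mono h7
  obtain ⟨u, hu⟩ := ((pCore_isPGroup (p := p) (G := G)).map π).exists_card_eq
  obtain ⟨v, hv⟩ := ((pCore_isPGroup (p := q) (G := G)).map π).exists_card_eq
  obtain ⟨s, hs⟩ := IsPGroup.index (pCore_isPGroup (p := p) (G := G))
    ((centralizer {x * y}).subgroupOf _)
  obtain ⟨t, ht⟩ := IsPGroup.index (pCore_isPGroup (p := q) (G := G))
    ((centralizer {x * y}).subgroupOf _)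
  have i1 := relIndex_dvd_index (pCore p G) (centralizer {x * y})
  have i2 := relIndex_dvd_index (pCore q G) (centralizer {x * y})
  rw [relIndex] at i1 i2 h3 h4
  rw [hu, hs] at h3
  rw [hv, ht] at h4
  rw [hu, hv] at h8
  rw [hs] at i1
  rw [ht] at i2
  have d0 := (BlockB.Ord.irr_deg_pos hχ).ne'
  have hcop : p.Coprime q := (Nat.coprime_primes hp.out hq.out).2 hpq
  have j1 := (pow_dvd_aux hp.out d0 ((Nat.Prime.coprime_iff_not_dvd hp.out).1
    (hcop.pow_right v)) h8 h3).trans i1
  have j2 := (pow_dvd_aux hq.out d0 ((Nat.Prime.coprime_iff_not_dvd hq.out).1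
    (hcop.symm.pow_right u)) (mul_comm (p ^ u) _ ▸ h8) h4).trans i2
  refine (Nat.dvd_iff_prime_pow_dvd_dvd _ _).2 fun r k hr hd => ?_
  rcases Nat.eq_zero_or_pos k with rfl | hk0
  · simp
  have hle := (hr.pow_dvd_iff_le_factorization d0).1 hd
  rcases hG r hr (((dvd_pow_self r hk0.ne').trans hd).trans (BlockB.Ord.irr_deg_dvd_card hχ)) with
    rfl | rfl
  · exact (pow_dvd_pow _ hle).trans j1
  · exact (pow_dvd_pow _ hle).trans j2

end CF.Crit.Prim
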