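import Cfsg.Agent.Crit.Tr5
import Cfsg.Agent.BlockB.Ord2
import Cfsg.Agent.Classical.SL25
import Cfsg.Agent.Classical.SL2Class
import Cfsg.Agent.Char.KGV

/-!
# Lower bounds for the class number of a transitive linear group
-/

set_option autoImplicit false
set_option linter.unusedSectionVars false

namespace CF.Crit.Tr
open Subgroup Cfsg CF.Perm Module MulAction CF.Char
open scoped MatrixGroups

/-- `n` is a sum of `k` squares -/
def ss : ℕ → ℕ → Bool
  | 0, n => n == 0
  | k + 1, n => (List.range (n + 1)).any fun x => decide (x ^ 2 ≤ n) && ss k (n - x ^ 2)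

theorem ss_sum {ι : Type*} (f : ι → ℕ) (k : ℕ) (s : Finset ι) (h : s.card ≤ k) :
    ss k (∑ i ∈ s, f i ^ 2) = true := by
  classical
  induction k generalizing s with
  | zero => simp [ss, Finset.card_eq_zero.1 (Nat.le_zero.1 h)]
  | succ k ih =>
    simp only [ss, List.any_eq_true, List.mem_range, Bool.and_eq_true, decide_eq_true_eq]
    rcases s.eq_empty_or_nonempty with rfl | ⟨i, hi⟩
    · exact ⟨0, by simp, by simp, by simpa using ih ∅ (by simp)⟩
    · rw [← Finset.add_sum_erase _ _ hi]
      refine ⟨f i, by nlinarith [Nat.zero_le (∑ x ∈ s.erase i, f x ^ 2)], Nat.le_add_right _ _, ?_⟩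
      rw [Nat.add_sub_cancel_left]
      exact ih _ (by rw [Finset.card_erase_of_mem hi]; omega)

theorem lt_card_of_ss {ι : Type*} {f : ι → ℕ} {k n : ℕ} {s : Finset ι} (h : ss k n = false)
    (e : ∑ i ∈ s, f i ^ 2 = n) : k < s.card :=
  not_le.1 fun a => by simpa [e, h] using ss_sum f k s a

section
variable {G : Type*} [Group G] [Finite G]

theorem classes_ge_central {Z : Subgroup G} (hZ : Z ≤ center G) {i j : ℕ}
    (h1 : ss i Z.index = false) (h2 : ss j (Z.index - 1) = false) :
    (Nat.card Z - 1) * (i + 1) + (j + 2) ≤ Nat.card (ConjClasses G) := by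
  classical
  have := Fintype.ofFinite Z
  have hc : ∀ a b : Z, a * b = b * a := fun a b => Subtype.ext (mem_center_iff.1 (hZ b.2) a)
  let F : IrrCharacter Z → Finset (IrrCharacter G) := fun ψ => Finset.univ.filter fun χ =>
    classInner (fun n : Z => (χ : G → ℂ) n) ψ ≠ 0
  have a : ∀ ψ, ∑ χ ∈ F ψ, charDegree (χ : G → ℂ) ^ 2 = Z.index := fun ψ => by
    have := BlockB.Ord.sum_over_central hZ ψ.2 1 1
    rw [Finset.sum_eq_single 1 (fun z _ hz => if_neg (by simpa using hz)) (by simp),
      if_pos (by simp), irr_one_eq_one_of_comm hc ψ.2,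
      centralizer_eq_top_iff_subset.2 (by simp), card_top, ← Z.card_mul_index, map_one, one_mul,
      Nat.cast_mul, mul_right_inj' (Nat.cast_ne_zero.2 Nat.card_pos.ne')] at this
    simp only [← BlockB.irr_charDegree_eq, map_natCast, ← pow_two] at this
    exact_mod_cast this
  have b : oneIrr G ∈ F (oneIrr Z) := Finset.mem_filter.2 ⟨Finset.mem_univ _, by
    change classInner (fun _ => 1) (fun _ => 1) ≠ 0
    rw [inner_irr_self irr_one]
    exact one_ne_zero⟩
  have c := lt_card_of_ss h2 (s := (F (oneIrr Z)).erase (oneIrr G))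
    (f := fun χ : IrrCharacter G => charDegree (χ : G → ℂ)) (by
      rw [← a (oneIrr Z), ← Finset.add_sum_erase _ _ b,
        BlockB.charDegree_of_eq (n := 1) (Nat.cast_one.symm), one_pow, Nat.add_sub_cancel_left])
  rw [Finset.card_erase_of_mem b] at c
  have d := Finset.card_biUnion (s := Finset.univ) (t := F) fun ψ _ ξ _ h =>
    Finset.disjoint_left.2 fun χ h1 h2 => h (Subtype.ext (funext fun z => mul_right_cancel₀
      (irr_one_ne_zero χ.2) ((BlockB.Ord.irr_central_mul hZ ψ.2 χ.2 (Finset.mem_filter.1 h1).2 z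
        1).symm.trans (BlockB.Ord.irr_central_mul hZ ξ.2 χ.2 (Finset.mem_filter.1 h2).2 z 1))))
  rw [← card_irr, Nat.card_eq_fintype_card (α := IrrCharacter G), ← card_irr_of_comm hc,
    Nat.card_eq_fintype_card (α := IrrCharacter Z)]
  refine le_trans ?_ (d.ge.trans (Finset.card_le_univ _))
  rw [← Finset.sum_erase_add _ _ (Finset.mem_univ (oneIrr Z))]
  refine Nat.add_le_add ?_ (by omega)
  rw [← Finset.card_univ, ← Finset.card_erase_of_mem (Finset.mem_univ (oneIrr Z))]
  exact Finset.card_nsmul_le_sum _ (fun ψ => (F ψ).card) (i + 1) fun ψ _ => lt_card_of_ss h1 (a ψ)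

theorem classes_ge_quot (N : Subgroup G) [N.Normal] {j : ℕ}
    (h : ss j (Nat.card G - N.index) = false) :
    Nat.card (ConjClasses (G ⧸ N)) + (j + 1) ≤ Nat.card (ConjClasses G) := by
  classical
  have a := sum_irr_filter_le_charKer N fun _ => 1
  have b : _ = ∑ ψ : IrrCharacter (G ⧸ N), charDegree (ψ : G ⧸ N → ℂ) ^ 2 :=
    sum_irr_filter_le_charKer N fun χ => charDegree χ ^ 2
  have c := BlockB.Ord.sum_deg_sq (G := G)
  rw [← Finset.sum_filter_add_sum_filter_not _ fun χ : IrrCharacter G =>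
    N ≤ charKer (χ : G → ℂ), b, BlockB.Ord.sum_deg_sq, ← index_eq_card] at c
  have d := lt_card_of_ss h (Nat.eq_sub_of_add_eq' c)
  rw [← card_irr, ← card_irr, Nat.card_eq_fintype_card, Nat.card_eq_fintype_card,
    ← Finset.card_univ (α := IrrCharacter G), ← Finset.card_filter_add_card_filter_not
      (s := Finset.univ) fun χ : IrrCharacter G => N ≤ charKer (χ : G → ℂ)]
  simp only [Finset.sum_const, smul_eq_mul, mul_one, Finset.card_univ] at a
  omega

theorem three_le_classes (h : 2 < Nat.card G) : 3 ≤ Nat.card (ConjClasses G) := by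
  classical
  have := Fintype.ofFinite G
  have a := sum_ite_mem (⊥ : Subgroup G) (Nat.card G) 2
  have b : ∑ x : G, (if x ∈ (⊥ : Subgroup G) then Nat.card G else 2) ≤
      Nat.card G * Nat.card (ConjClasses G) := by
    rw [← sum_card_centralizer]
    refine Finset.sum_le_sum fun x _ => ?_
    split_ifs with k
    · rw [mem_bot.1 k, centralizer_eq_top_iff_subset.2 (by simp), card_top]
    · exact (one_lt_card_iff_ne_bot _).2 fun e => k (e ▸ mem_centralizer_singleton_iff.2 rfl)
  rw [a, card_bot] at b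
  by_contra k
  have := Nat.mul_le_mul_left (Nat.card G) (by omega : Nat.card (ConjClasses G) ≤ 2)
  omega

theorem classes_of_comm [IsMulCommutative G] : Nat.card (ConjClasses G) = Nat.card G :=
  card_irr.symm.trans (card_irr_of_comm IsMulCommutative.is_comm.comm)

end

theorem num_lt {p n : ℕ} (hp : 5 ≤ p) (hn : 2 ≤ n) : n * n * (p - 1) < p ^ n - 1 := by
  suffices n * n * (p - 1) + 1 < p ^ n by omega
  obtain ⟨q, rfl⟩ := Nat.exists_eq_add_of_le' hp
  rw [show q + 5 - 1 = q + 4 from rfl]
  induction n, hn using Nat.le_induction with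
  | base => nlinarith
  | succ n hn ih =>
    rw [pow_succ]
    have : (n + 1) * (n + 1) ≤ n * n * 3 := by nlinarith
    have := Nat.mul_le_mul_right (q + 4) this
    have := Nat.mul_le_mul_left ((q + 5) ^ n) (by omega : 3 ≤ q + 5)
    linarith

theorem two_num {p a m u c k : ℕ} (hp : p.Prime) (h5 : 5 ≤ p) (hm : p - 1 = a * m) (hu : m ≤ u)
    (h : (p + 1) * u = c) (hc : c = 12 ∨ c = 24 ∨ c = 60) (h1 : 5 ∣ c → p ≠ 5)
    (h2 : (a - 1) * (2 + 1) + (2 + 2) ≤ k) (h3 : c = 24 → (a - 1) * (2 + 1) + (3 + 2) ≤ k)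
    (h4 : ¬ (p = 11 ∧ a = 2 ∧ c = 60)) : p ≤ k := by
  have h6 : p ≠ 9 := fun e => absurd (e ▸ hp) (by decide)
  have h7 : u ≤ 10 := by nlinarith [(by omega : c ≤ 60)]
  have h8 : p + 1 ≤ 60 := (Nat.le_of_dvd (by omega) (h ▸ dvd_mul_right _ _)).trans (by omega : c ≤ 60)
  have h9 : m ≤ 10 := hu.trans h7
  clear hp
  interval_cases u <;> interval_cases m <;> omega

variable {G V : Type*} [Group G] [Finite G] [AddCommGroup V] [DistribMulAction G V] [Finite V]
  [Nontrivial V] [FaithfulSMul G V] {p : ℕ} [hp : Fact p.Prime]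

theorem lower (hG : ¬ p ∣ Nat.card G) (ht : Tr G V) (hV : ∀ w : V, p • w = 0) :
    p ≤ Nat.card (ConjClasses G) ∨
      (Nat.card V = p ∧ Nat.card G = p - 1 ∧ Nat.card (ConjClasses G) = p - 1) ∨
      (p = 11 ∧ Nat.card V = 121 ∧ Nat.card G = 120 ∧ Nat.card (ConjClasses G) = 9 ∧
        commutator G = ⊤ ∧ (∀ v : V, v ≠ 0 → ∀ g : G, g • v = v → g = 1) ∧
        Nonempty (G ≃* SL(2, ZMod 5))) := by
  obtain ⟨v, hv⟩ := exists_ne (0 : V)
  obtain ⟨A, h1, h2, h3⟩ := exists_max_abelian (G := G)
  obtain ⟨K, _, _, _, σ, h⟩ := ht.exists_FS A h2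
  have : CharP K p := (CharP.charP_iff_prime_eq_zero hp.out).2
    (smul_left_injective K hv (by simp only [Nat.cast_smul_eq_nsmul, hV, zero_smul]))
  have hA : MA A := ⟨h1, h2, h3⟩
  have := Fintype.ofFinite K
  obtain ⟨⟨f, f0⟩, -, hf⟩ := FiniteField.card K p
  rw [← Nat.card_eq_fintype_card, PNat.mk_coe] at hf
  have hi : (centralizer (A : Set G)).index ∣ f := by
    rw [← h.ker, index_ker, ← Chev.card_ringAut (F := K) (Nat.card_eq_fintype_card.symm.trans hf)]
    exact card_subgroup_dvd_card _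
  have h4 := Module.natCard_eq_pow_finrank (K := K) (V := V)
  have h5 := ht.card_dvd
  have h6 := h.card_dvd
  have h7 := A.card_mul_index
  have h8 := hp.out.two_le
  have h9 := Nat.le_of_dvd Nat.card_pos h5
  have hd : 0 < finrank K V := finrank_pos
  rw [hf, ← pow_mul] at h4
  by_cases e : f * finrank K V = 1
  · obtain rfl := Nat.eq_one_of_mul_eq_one_right e
    have a := cent_eq h hA (Nat.eq_one_of_mul_eq_one_left e)
    obtain rfl : A = ⊤ := index_eq_one.1 (a ▸ Nat.dvd_one.1 hi)
    have : IsMulCommutative G := ⟨⟨fun a b => congrArg Subtype.val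
      (h2.is_comm.comm ⟨a, trivial⟩ ⟨b, trivial⟩)⟩⟩
    rw [e, pow_one] at h4
    rw [hf, pow_one, card_top] at h6
    have b := Nat.dvd_antisymm h6 (h4 ▸ h5)
    exact .inr (.inl ⟨h4, b, classes_of_comm.trans b⟩)
  have e2 : 2 ≤ f * finrank K V := by have := Nat.mul_pos f0 hd; omega
  by_cases hp5 : p < 5
  · have := three_le_classes (G := G) (by
      have := (Nat.pow_le_pow_left h8 2).trans (h4 ▸ Nat.pow_le_pow_right hp.out.pos e2)
      omega)
    have : p ≠ 4 := fun e => absurd (e ▸ hp.out) (by decide)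
    omega
  rcases cases h hA hG ht with a | ⟨a, b | b⟩
  · rw [cent_eq h hA a] at hi
    rw [a, mul_one] at h4 e2
    refine .inl (by_contra fun k => ?_)
    have b := (Cfsg.Agent.S4200.result A).1
    rw [classes_of_comm] at b
    have c := Nat.le_of_dvd f0 hi
    have d := num_lt (not_lt.1 hp5) e2
    have := Nat.mul_le_mul (b.trans (Nat.mul_le_mul c (by omega : _ ≤ p - 1))) c
    rw [h7, mul_right_comm] at this
    omega
  swap
  · have := Nat.le_of_dvd (by decide) (b.2.1 ▸ char_dvd_card K p)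
    omega
  obtain ⟨c, -⟩ := two_struct h hA hG ht a b.1
  have hZ := (eq_center h hA a).le
  have d1 := classes_ge_central hZ (i := 2) (j := 2) (by rcases c with e | e | e <;> rw [e] <;> decide)
    (by rcases c with e | e | e <;> rw [e] <;> decide)
  have d2 := fun e : A.index = 24 => classes_ge_central hZ (i := 2) (j := 3) (by rw [e]; decide)
    (by rw [e]; decide)
  have d3 := fun {w : V} (hw : w ≠ 0) => card_stab ht hw
  have d4 := d3 hv
  have d5 : ∀ t, t ∣ A.index → p ≠ t := fun t a e => hG (e ▸ a.trans A.index_dvd_card)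
  have d6 := Nat.card_pos (α := A)
  have d7 := Nat.card_pos (α := stabilizer G v)
  rw [Module.natCard_eq_pow_finrank (K := K) (V := V), b.1, b.2] at d3 d4 ⊢
  rw [b.2] at h6
  by_cases k : p = 11 ∧ Nat.card A = 2 ∧ A.index = 60
  · obtain ⟨rfl, k1, k2⟩ := k
    rw [k1, k2] at h7
    have reg : ∀ v : V, v ≠ 0 → ∀ g : G, g • v = v → g = 1 := fun w hw g hg =>
      mem_bot.1 ((card_eq_one.1 (by have := d3 hw; omega) : stabilizer G w = ⊥) ▸ hg)
    have ns : ¬ Group.IsSolvable G := fun _ => by
      obtain ⟨M, hM⟩ := exists_AM A h3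
      have a1 := h.relIndex_le_sq hM
      obtain ⟨j, -, hj⟩ := (Nat.dvd_prime_pow Nat.prime_two).1 (k1 ▸ hM.relIndex_dvd_pow)
      obtain ⟨e, a2, -, a3⟩ := hM.relIndex_dvd.2 5 Nat.prime_five (by
        refine (Nat.Coprime.dvd_mul_right (.mul_right ?_ (by rw [k1]; decide) :
          Nat.Coprime 5 (A.relIndex M * Nat.card A))).1
          (by rw [← one_mul (_ * _), ← index_top (G := G), ← a, ← hM.card_eq]; omega)
        rw [hj]
        exact Nat.Coprime.pow_right _ (by decide))
      rw [b.1] at a1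
      omega
    have sv : ∀ {L : Type _} [Group L], Group.IsSolvable (commutator L) → Group.IsSolvable L :=
      fun {L} _ _ => Group.isSolvable_of_ker_le_range (commutator L).subtype Abelianization.of
        (by simp [Abelianization.ker_of])
    have pf : commutator G = ⊤ := by_contra fun e => by
      have a1 := (commutator G).card_mul_index
      have a2 := mt index_eq_one.1 e
      have a3 := index_ne_zero_of_finite (H := commutator G)
      have a4 := Nat.mul_le_mul_left (Nat.card (commutator G)) (by omega : 2 ≤ (commutator G).index)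
      have a5 : commutator (commutator G) = ⊤ := by_contra fun e => ns (sv (sv
        (Classical.isSolvable_of_card_lt_sixty _ ((Nat.lt_of_le_of_ne (card_le_card_group _)
          fun k => e (eq_top_of_card_eq _ k)).trans_le (by omega)) _ rfl)))
      have : Nontrivial (commutator G) := by_contra fun k =>
        have := not_nontrivial_iff_subsingleton.1 k
        ns (sv inferInstance)
      obtain ⟨φ⟩ := (fpf_of_regular (G := commutator G) (V := V) fun v hv g hg =>
        Subtype.ext (reg v hv g hg)).equiv_SL25 a5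
      have a6 := Nat.card_congr φ.toEquiv
      have := Fact.mk Nat.prime_five
      rw [Classical.card_SL2, Nat.card_zmod] at a6
      omega
    have : Nontrivial G := Finite.one_lt_card_iff_nontrivial.1 (by omega)
    obtain ⟨φ⟩ := (fpf_of_regular reg).equiv_SL25 pf
    have := Fact.mk Nat.prime_five
    refine .inr (.inr ⟨rfl, rfl, h7.symm, ?_, pf, reg, ⟨φ⟩⟩)
    rw [card_conjClasses_congr φ, Classical.card_conjClasses_SL2,
      Classical.card_units_sq_of_odd (mt (ZMod.natCast_eq_zero_iff 2 5).1 (by decide)), Nat.card_zmod]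
    rfl
  left
  obtain ⟨m, hm⟩ := h6
  have d8 : (p + 1) * (m * Nat.card (stabilizer G v)) = A.index := by
    refine Nat.eq_of_mul_eq_mul_left d6 (h7 ▸ d4 ▸ ?_)
    rw [show p ^ 2 - 1 = (p + 1) * (p - 1) by simpa using Nat.sq_sub_sq p 1, hm]
    ring
  exact two_num hp.out (not_lt.1 hp5) hm (Nat.le_mul_of_pos_right m d7) d8 c (d5 5) d1 d2 k

end CF.Crit.Tr
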