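import Cfsg.Agent.Crit.Tr6
import Cfsg.Agent.Fgs2.Base1
import Cfsg.Agent.SolvStr.Homog
import Cfsg.Agent.Solv.Hall
import Cfsg.Agent.Coprime.Frobenius
import Cfsg.Agent.EqC.Aff

/-!
# The number of `p`-regular classes when all non-trivial `p`-elements are conjugate
-/

set_option autoImplicit false
set_option linter.unusedSectionVars false

namespace CF.Crit.Tr
open Subgroup Cfsg CF.Perm CF.Solv
open scoped MatrixGroups IsMulCommutative Pointwise

/-- the `p`-regular classes -/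
abbrev RC (p : ℕ) (G : Type*) [Group G] :=
  {c : ConjClasses G // ∃ g : G, ConjClasses.mk g = c ∧ ¬ p ∣ orderOf g}

variable {G : Type*} [Group G] [Finite G] {p : ℕ} [hp : Fact p.Prime]

theorem classes_add_le {H : Type*} [Group H] (f : G →* H) (hf : Function.Surjective f)
    (hH : ¬ p ∣ Nat.card H) (S : Set (RC p G))
    (hS : ∀ c ∈ S, ∃ x, x ≠ 1 ∧ f x = 1 ∧ ConjClasses.mk x = c.1) :
    Nat.card (ConjClasses H) + S.ncard ≤ Nat.card (RC p G) := by
  rw [← Set.ncard_add_ncard_compl S, add_comm, Nat.add_le_add_iff_left, ← Nat.card_coe_set_eq]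
  refine Nat.card_le_card_of_surjective (fun c => ConjClasses.map f c.1.1) fun d => ?_
  obtain ⟨y, rfl⟩ := ConjClasses.mk_surjective d
  obtain ⟨x, rfl⟩ := hf y
  obtain ⟨z, -, h1, h2⟩ := SolvStr.exists_piNum_lift (π := {p}ᶜ) f (x := x) fun q _ a b =>
    hH (b ▸ a.trans (orderOf_dvd_natCard _))
  by_cases h : f x = 1
  · refine ⟨⟨⟨ConjClasses.mk 1, 1, rfl, by simpa using hp.out.ne_one⟩, fun k => ?_⟩,
      congrArg ConjClasses.mk ((map_one f).trans h.symm)⟩
    obtain ⟨w, a, -, b⟩ := hS _ k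
    exact a (isConj_one_right.1 (ConjClasses.mk_eq_mk_iff_isConj.1 b.symm))
  · refine ⟨⟨⟨ConjClasses.mk z, z, rfl, fun k => h1 p hp.out k rfl⟩, fun k => ?_⟩,
      congrArg ConjClasses.mk h2⟩
    obtain ⟨w, -, a, b⟩ := hS _ k
    exact h (h2 ▸ isConj_one_right.1 (a ▸ f.map_isConj (ConjClasses.mk_eq_mk_iff_isConj.1 b)))

theorem rc_le (hs : IsPSolvable p G) {V H : Subgroup G} (hV : IsPGroup p V) (c : IsComplement' V H)
    (hH : ¬ p ∣ Nat.card H) : Nat.card (RC p G) ≤ Nat.card (ConjClasses H) := by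
  refine Nat.card_le_card_of_surjective (fun d => ⟨ConjClasses.map H.subtype d, ?_⟩) ?_
  · obtain ⟨y, rfl⟩ := ConjClasses.mk_surjective d
    exact ⟨y, rfl, fun k => hH (k.trans (orderOf_coe y ▸ orderOf_dvd_natCard y))⟩
  · rintro ⟨_, x, rfl, hx⟩
    obtain ⟨g, hg⟩ := (isPSolvable_iff_isPiSep.1 hs).compl.exists_conj_le hallOK_compl_singleton
      (H := H) (K := zpowers x) (isPiHall_iff.2 ⟨fun q _ a b => hH (b ▸ a), by
        rw [compl_compl, c.index_eq_card]; exact isPGroup_iff_piNum_singleton.1 hV⟩)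
      fun q _ a b => hx (b ▸ Nat.card_zpowers x ▸ a)
    exact ⟨ConjClasses.mk ⟨_, hg (smul_mem_pointwise_smul _ _ _ (mem_zpowers x))⟩,
      Subtype.ext (ConjClasses.mk_eq_mk_iff_isConj.2 (isConj_iff.2 ⟨g, rfl⟩).symm)⟩

theorem comm_of_conj {M : Subgroup G} [hM : M.Normal] (h0 : M ≠ ⊥)
    (h : ∀ x ∈ M, ∀ y ∈ M, x ≠ 1 → y ≠ 1 → IsConj x y) :
    IsMulCommutative M ∧ ∃ q, q.Prime ∧ ∀ x ∈ M, x ^ q = 1 := by
  obtain ⟨q, hq, h1⟩ := Nat.exists_prime_and_dvd (mt card_eq_one.1 h0)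
  have := Fact.mk hq
  obtain ⟨z, hz⟩ := exists_prime_orderOf_dvd_card' q h1
  have h2 : ∀ x ∈ M, x ^ q = 1 := fun x hx => by
    by_cases k : x = 1
    · simp [k]
    obtain ⟨g, rfl⟩ := isConj_iff.1 (h z z.2 x hx (fun e => hq.one_lt.ne (by
      rw [← hz, show z = 1 from Subtype.ext e, orderOf_one])) k)
    rw [conj_pow, ← coe_pow, ← hz, pow_orderOf_eq_one]
    simp
  have h3 : IsPGroup q M := fun x => ⟨1, Subtype.ext (by simpa using h2 x x.2)⟩
  have := (nontrivial_iff_ne_bot M).2 h0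
  have := h3.center_nontrivial
  obtain ⟨c, hc⟩ := exists_ne (1 : center M)
  refine ⟨⟨⟨fun a b => ?_⟩⟩, q, hq, h2⟩
  by_cases k : a = 1
  · simp [k]
  obtain ⟨g, hg⟩ := isConj_iff.1 (h c c.1.2 a a.2 (fun e => hc (Subtype.ext (Subtype.ext e)))
    fun e => k (Subtype.ext e))
  have := congrArg Subtype.val (mem_center_iff.1 c.2 ⟨_, hM.conj_mem' _ b.2 g⟩)
  refine Subtype.ext ?_
  change (a : G) * b = b * a
  change _ * (c : G) = c * _ at this
  calc _ = g * (c * (g⁻¹ * b * g)) * g⁻¹ := by rw [← hg]; group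
    _ = _ := by rw [← this, ← hg]; group

/-- the structure of the group modulo the `p'`-core -/
structure Core (p : ℕ) {X : Type*} [Group X] (V H : Subgroup X) : Prop where
  nm : V.Normal
  ne : V ≠ ⊥
  exp : ∀ v ∈ V, v ^ p = 1
  cen : centralizer (V : Set X) = V
  syl : ∀ Q : Sylow p X, (Q : Subgroup X) = V
  cpl : IsComplement' V H
  cop : ¬ p ∣ Nat.card H
  tr : ∀ v ∈ V, ∀ w ∈ V, v ≠ 1 → w ≠ 1 → ∃ g ∈ H, g * v * g⁻¹ = w

theorem exists_core (hs : IsPSolvable p G) (h0 : pPrimeCore p G = ⊥) (hd : p ∣ Nat.card G)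
    (h : ∀ x y : G, x ≠ 1 → y ≠ 1 → (∃ k, orderOf x = p ^ k) → (∃ k, orderOf y = p ^ k) →
      IsConj x y) : ∃ V H : Subgroup G, Core p V H := by
  have h1 := centralizer_pCore_le_of_isPSolvable hs h0
  have h2 : pCore p G ≠ ⊥ := fun e => by
    rw [e, coe_bot, centralizer_eq_top_iff_subset.2 (by simp), top_le_iff] at h1
    rw [← card_top, ← h1, card_bot] at hd
    exact hp.out.ne_one (Nat.dvd_one.1 hd)
  have h3 : ∀ {Q : Subgroup G}, IsPGroup p Q → ∀ x ∈ Q, ∃ k, orderOf x = p ^ k := fun hQ x hx => by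
    simpa using IsPGroup.iff_orderOf.1 hQ ⟨x, hx⟩
  have h4 := fun x hx y hy a b => h x y a b (h3 pCore_isPGroup x hx) (h3 pCore_isPGroup y hy)
  obtain ⟨h5, q, hq, h6⟩ := comm_of_conj h2 h4
  obtain ⟨⟨v, hv⟩, v0⟩ := ne_bot_iff_exists_ne_one.1 h2
  have v1 : v ≠ 1 := fun e => v0 (Subtype.ext e)
  clear v0
  obtain rfl : q = p := by
    have := Fact.mk hq
    obtain ⟨k, hk⟩ := h3 pCore_isPGroup v hv
    exact (Nat.prime_dvd_prime_iff_eq hq hp.out).1
      (hq.dvd_of_dvd_pow (hk ▸ (orderOf_eq_prime (h6 v hv) v1).symm.dvd))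
  have h7 : ∀ Q : Sylow q G, (Q : Subgroup G) = pCore q G := fun Q =>
    le_antisymm (fun x hx => by
      by_cases k : x = 1
      · exact k ▸ one_mem _
      obtain ⟨g, rfl⟩ := isConj_iff.1 (h v x v1 k (h3 pCore_isPGroup v hv) (h3 Q.2 x hx))
      exact Normal.conj_mem inferInstance v hv g) (pCore_le_sylow Q)
  obtain ⟨Q⟩ : Nonempty (Sylow q G) := inferInstance
  have h8 : ¬ q ∣ (pCore q G).index := h7 Q ▸ Q.not_dvd_index
  obtain ⟨H, hH⟩ := exists_right_complement'_of_coprime (N := pCore q G)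
    (coprime_card_of_isPGroup pCore_isPGroup (hq.coprime_iff_not_dvd.2 h8).symm)
  refine ⟨_, H, inferInstance, h2, h6, le_antisymm h1 (le_centralizer _), h7, hH,
    hH.symm.index_eq_card ▸ h8, fun a ha b hb a1 b1 => ?_⟩
  obtain ⟨g, rfl⟩ := isConj_iff.1 (h4 a ha b hb a1 b1)
  obtain ⟨⟨u, t⟩, rfl⟩ := hH.symm.2 g
  refine ⟨u, u.2, ?_⟩
  simp only [mul_inv_rev]
  rw [mul_assoc (u : G) t, ← le_centralizer _ t.2 a ha]
  group

namespace Core
variable {V H : Subgroup G} (h : Core p V H)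
include h

theorem pg : IsPGroup p V := fun w => ⟨1, Subtype.ext (by simpa using h.exp _ w.2)⟩

theorem lower : p ≤ Nat.card (ConjClasses H) ∨
    (Nat.card V = p ∧ Nat.card H = p - 1 ∧ Nat.card (ConjClasses H) = p - 1) ∨
    (p = 11 ∧ Nat.card V = 121 ∧ Nat.card H = 120 ∧ Nat.card (ConjClasses H) = 9 ∧
      commutator H = ⊤ ∧ Coprime.SemiReg H V ∧ Nonempty (H ≃* SL(2, ZMod 5))) := by
  have := h.nm
  have hc : IsMulCommutative V := le_centralizer_iff_isMulCommutative.1 h.cen.ge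
  have := (nontrivial_iff_ne_bot V).2 h.ne
  let _ := Fgs2.Base.mulAct ((MulAut.conjNormal (H := V)).comp H.subtype)
  have hs : ∀ (g : H) (w : Additive V), ((g • w).toMul : G) = g * w.toMul * (g : G)⁻¹ :=
    fun _ _ => rfl
  have : FaithfulSMul H (Additive V) := ⟨fun {a b} e => by
    have h1 : (b : G)⁻¹ * a ∈ V := h.cen.le fun w hw => by
      have := (hs a _).symm.trans ((congrArg (fun t => (t.toMul : G)) (e (.ofMul ⟨w, hw⟩))).trans
        (hs b _))
      change a * w * _ = b * w * _ at this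
      calc _ = (b : G)⁻¹ * (b * w * (b : G)⁻¹) * a := by group
        _ = _ := by rw [← this]; group
    exact Subtype.ext (inv_mul_eq_one.1 (mem_bot.1 (h.cpl.disjoint.le_bot
      ⟨h1, (b⁻¹ * a).2⟩))).symm⟩
  refine (Tr.lower (G := H) (V := Additive V) h.cop (fun a b ha hb => by
    obtain ⟨g, h1, h2⟩ := h.tr _ a.toMul.2 _ b.toMul.2 (fun e => ha (Subtype.ext e))
      fun e => hb (Subtype.ext e)
    exact ⟨⟨g, h1⟩, Subtype.ext h2⟩) fun w => Subtype.ext (h.exp _ w.toMul.2)).imp_right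
    (.imp_right fun ⟨a, b, c, d, e, f, g⟩ => ⟨a, b, c, d, e, fun r hr r1 =>
      eq_bot_iff.2 fun v hv => by_contra fun k => r1 (congrArg Subtype.val
        (f (.ofMul ⟨v, hv.1⟩) (fun e => k (congrArg (fun t : Additive V => (t.toMul : G)) e :)) ⟨r, hr⟩
          (Subtype.ext (mul_inv_eq_iff_eq_mul.2
            (mem_centralizer_singleton_iff.1 hv.2).symm)))), g⟩)

theorem exists_hom : ∃ f : G →* H, Function.Surjective f ∧ f.ker = V :=
  have := h.nm
  ⟨h.cpl.symm.QuotientMulEquiv.toMonoidHom.comp (QuotientGroup.mk' V),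
    h.cpl.symm.QuotientMulEquiv.surjective.comp (QuotientGroup.mk'_surjective V),
    by ext; simp⟩

theorem rc_eq (hs : IsPSolvable p G) : Nat.card (RC p G) = Nat.card (ConjClasses H) := by
  obtain ⟨f, h1, -⟩ := h.exists_hom
  exact le_antisymm (rc_le hs h.pg h.cpl h.cop)
    (le_of_add_le_left (classes_add_le f h1 h.cop ∅ (by simp)))

theorem aff (h1 : Nat.card V = p) (h2 : Nat.card H = p - 1) :
    Nonempty (G ≃* affineGroup (ZMod p)) := by
  have := h.nm
  have hc : IsMulCommutative V := le_centralizer_iff_isMulCommutative.1 h.cen.ge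
  let e : Additive V ≃+ ZMod p := addEquivOfPrimeCardEq h1 (Nat.card_zmod p)
  obtain ⟨f, h3, -⟩ := EqC.exists_embed V (coprime_card_of_isPGroup h.pg
    (hp.out.coprime_iff_not_dvd.2 (h.cpl.symm.index_eq_card ▸ h.cop)).symm) h.cen.le e fun g =>
    ⟨e (.ofMul (MulAut.conjNormal g (e.symm 1).toMul)), .refl _, fun v => by
      obtain ⟨n, hn⟩ := ZMod.natCast_zmod_surjective (e (.ofMul v))
      obtain rfl : v = (e.symm 1).toMul ^ n := by
        rw [← toMul_nsmul, ← map_nsmul, nsmul_one, hn, e.symm_apply_apply, toMul_ofMul]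
      simp [mul_comm]⟩
  exact EqC.equiv_aff f h3 (fun g => RingEquiv.ext fun x => by
    obtain ⟨n, rfl⟩ := ZMod.natCast_zmod_surjective x
    simp) (by rw [Nat.card_zmod, ← h.cpl.card_mul_card, h1, h2])

end Core

theorem eleven {N : Subgroup G} [hN : N.Normal] (h0 : N ≠ ⊥) (h1 : ¬ 11 ∣ Nat.card N)
    (h2 : ∀ x ∈ N, ∀ y ∈ N, x ≠ 1 → y ≠ 1 → IsConj x y) {V H : Subgroup (G ⧸ N)}
    (h : Core 11 V H) (hV : Nat.card V = 121) (hH : Nat.card H = 120)
    (hk : Nat.card (ConjClasses H) = 9) (pf : commutator H = ⊤) : 11 ≤ Nat.card (RC 11 G) := by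
  have hp : Fact (Nat.Prime 11) := ⟨by norm_num⟩
  obtain ⟨h3, -⟩ := comm_of_conj h0 h2
  have := (nontrivial_iff_ne_bot N).2 h0
  have := h.nm
  let π := QuotientGroup.mk' N
  have hπ := QuotientGroup.mk'_surjective N
  have hND : N ≤ centralizer (N : Set G) := le_centralizer N
  have h4 : V.comap π ≤ centralizer (N : Set G) := by
    let _ := Fgs2.Base.mulAct (MulAut.conjNormal (H := N))
    let _ := Fgs2.Base.rangeAct G (Additive N)
    let φ := (MulAction.toPermHom G (Additive N)).rangeRestrict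
    have hφ : ∀ g, φ g = 1 ↔ g ∈ centralizer (N : Set G) := fun g =>
      ⟨fun e y hy => (mul_inv_eq_iff_eq_mul.1 (congrArg (fun t => (t.toMul : G))
        (DFunLike.congr_fun (congrArg Subtype.val e) (.ofMul ⟨y, hy⟩)))).symm,
        fun e => Subtype.ext (Equiv.ext fun y => Subtype.ext
          (mul_inv_eq_iff_eq_mul.2 (e _ y.toMul.2).symm))⟩
    have := Normal.map (inferInstance : (V.comap π).Normal) φ (MonoidHom.rangeRestrict_surjective _)
    obtain ⟨K, _, _, _, σ, fs⟩ := Tr.exists_FS (G := (MulAction.toPermHom G (Additive N)).range)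
      (V := Additive N) (fun a b ha hb => by
        obtain ⟨g, hg⟩ := isConj_iff.1 (h2 _ a.toMul.2 _ b.toMul.2 (fun e => ha (Subtype.ext e))
          fun e => hb (Subtype.ext e))
        exact ⟨φ g, Subtype.ext hg⟩) ((V.comap π).map φ) ⟨⟨by
      rintro ⟨_, a, ha, rfl⟩ ⟨_, b, hb, rfl⟩
      refine Subtype.ext (commutatorElement_eq_one_iff_mul_comm.1
        ((map_commutatorElement φ a b).symm.trans ((hφ _).2 (hND ?_))))
      exact (QuotientGroup.eq_one_iff _).1 ((map_commutatorElement π a b).trans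
        (commutatorElement_eq_one_iff_mul_comm.2 (h.cen.ge hb _ ha)))⟩⟩
    have a : Nat.card ((V.comap π).map φ) ∣ 11 := by
      rw [← fs.isCyclic.exponent_eq_card, Monoid.exponent_dvd_iff_forall_pow_eq_one]
      rintro ⟨_, a, ha, rfl⟩
      exact Subtype.ext ((map_pow φ a 11).symm.trans ((hφ _).2 (hND
        ((QuotientGroup.eq_one_iff _).1 ((map_pow π a 11).trans (h.exp _ ha))))))
    obtain ⟨x, hx, x1, x2⟩ : ∃ x ∈ V.comap π, φ x = 1 ∧ x ∉ N := by
      by_contra! k
      have c := relIndex_dvd_of_le_left (V.comap π) (show φ.ker ⊓ V.comap π ≤ π.ker from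
        fun x hx => (QuotientGroup.ker_mk' N).symm ▸ k x hx.2 hx.1)
      rw [inf_relIndex_right, relIndex_ker, relIndex_ker, map_comap_eq_self_of_surjective hπ,
        hV] at c
      exact absurd (c.trans a) (by decide)
    intro y hy
    by_cases k : y ∈ N
    · exact hND k
    obtain ⟨g, -, hg⟩ := h.tr _ hx _ hy (mt (QuotientGroup.eq_one_iff _).1 x2)
      (mt (QuotientGroup.eq_one_iff _).1 k)
    obtain ⟨g, rfl⟩ := hπ g
    rw [← mul_inv_cancel_left (g * x * g⁻¹) y]
    exact mul_mem (Normal.conj_mem inferInstance _ ((hφ x).1 x1) g)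
      (hND (QuotientGroup.eq.1 hg))
  obtain ⟨P⟩ : Nonempty (Sylow 11 G) := inferInstance
  have h5 : V.comap π = P.1 ⊔ N := by
    rw [← h.syl (P.mapSurjective hπ), Sylow.coe_mapSurjective, comap_map_eq, QuotientGroup.ker_mk']
  have h6 : P.1.Normal := normalizer_eq_top_iff.1 (by
    rw [← Sylow.normalizer_sup_eq_top' P (h5 ▸ le_sup_left : P.1 ≤ V.comap π), h5]
    exact left_eq_sup.2 <| sup_le le_normalizer ((le_centralizer_iff.1 (le_sup_left.trans (h5 ▸ h4))).trans
      (centralizer_le_normalizer _)))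
  obtain ⟨f, f1, f2⟩ := h.exists_hom
  have f3 : (f.comp π).ker = V.comap π := by rw [← f2]; rfl
  have f4 := f1.comp hπ
  have f5 : (V.comap π).index = 120 := by
    rw [← f3, index_ker, MonoidHom.range_eq_top.2 f4, card_top, hH]
  let g := QuotientGroup.lift P.1 (f.comp π) (f3 ▸ h5 ▸ le_sup_left)
  have g1 : Function.Surjective g := QuotientGroup.lift_surjective_of_surjective _ _ f4 _
  have g2 := Char.card_conjClasses_congr (QuotientGroup.quotientKerEquivOfSurjective g g1)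
  have g3 : g.ker.index = 120 := by rw [index_ker, MonoidHom.range_eq_top.2 g1, card_top, hH]
  have h7 : Nat.card N - 1 ∣ 120 := by
    obtain ⟨x, x1⟩ := exists_ne (1 : N)
    have := Set.ncard_add_ncard_compl ({1} : Set N)
    rw [← this, Set.ncard_singleton, Nat.add_sub_cancel_left, ← f5]
    refine dvd_trans (Eq.dvd ?_) (index_dvd_of_le (h4.trans
      (centralizer_le (Set.singleton_subset_iff.2 x.2))))
    rw [← Char.card_class_eq_index]
    exact Nat.card_congr ⟨fun y => ⟨y, h2 _ x.2 _ y.1.2 (fun e => x1 (Subtype.ext e))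
        fun e => y.2 (Subtype.ext e)⟩, fun y => ⟨⟨y, by
        obtain ⟨c, hc⟩ := isConj_iff.1 y.2
        exact hc ▸ hN.conj_mem _ x.2 c⟩, fun e => x1 (Subtype.ext (isConj_one_left.1
          ((show y.1 = 1 from congrArg Subtype.val e) ▸ y.2)))⟩, fun _ => rfl, fun _ => rfl⟩
  have h8 : Nat.card N ≠ 31 := fun e => by
    have : Fact (Nat.Prime 31) := ⟨by norm_num⟩
    have := isCyclic_of_prime_card e
    have a : commutator G ≤ centralizer (N : Set G) := fun c hc y hy =>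
      (mul_inv_eq_iff_eq_mul.1 (congrArg Subtype.val (DFunLike.congr_fun
        ((map_eq_one_iff _ (IsCyclic.mulAutMulEquiv N).injective).1
          (Abelianization.commutator_subset_ker ((IsCyclic.mulAutMulEquiv N).toMonoidHom.comp
            MulAut.conjNormal) hc)) (⟨y, hy⟩ : N)) :)).symm
    have b : centralizer (N : Set G) = ⊤ := by
      rw [← comap_map_eq_self (f3 ▸ h4 : (f.comp π).ker ≤ centralizer (N : Set G)),
        eq_top_mono (map_mono a) (by
        rw [map_commutator_eq, MonoidHom.range_eq_top.2 f4]; exact pf), comap_top]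
    obtain ⟨x, x1⟩ := exists_ne (1 : N)
    obtain ⟨c, hc⟩ := isConj_iff.1 (h2 _ x.2 _ (x⁻¹).2 (fun e => x1 (Subtype.ext e))
      fun e => x1 (inv_eq_one.1 (Subtype.ext e)))
    rw [← b.ge (mem_top c) x x.2, mul_inv_cancel_right, coe_inv, ← mul_eq_one_iff_eq_inv,
      ← pow_two] at hc
    have := Nat.dvd_gcd (orderOf_dvd_of_pow_eq_one hc) (e ▸ N.orderOf_dvd_natCard x.2 : _ ∣ 31)
    exact x1 (Subtype.ext (orderOf_eq_one_iff.1 (Nat.dvd_one.1 this)))
  have h9 : Nat.card (G ⧸ P.1) = 120 * Nat.card N := by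
    rw [← index_eq_card, ← f5, ← relIndex_mul_index (h5 ▸ le_sup_left : P.1 ≤ V.comap π), mul_comm,
      h5, sup_comm, relIndex_sup_right, ← Solv.card_inf_mul_relIndex P.1,
      inf_eq_bot_of_isPGroup_of_coprime P.2 (hp.out.coprime_iff_not_dvd.2 h1).symm, card_bot,
      one_mul]
  have a := classes_ge_quot g.ker (j := 1) (by
    rw [h9, g3, ← Nat.mul_sub_one]
    refine (by decide +kernel : ∀ m ∈ Nat.divisors 120, m ≠ 30 → m ≠ 120 → ss 1 (120 * m) = false)
      _ (Nat.mem_divisors.2 ⟨h7, by decide⟩) (by omega) fun e => h1 ?_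
    rw [show Nat.card N = 121 by omega]
    decide)
  have b := classes_add_le (p := 11) (QuotientGroup.mk' P.1) (QuotientGroup.mk'_surjective _)
    P.not_dvd_index ∅ (by simp)
  omega

end CF.Crit.Tr
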